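import Mathlib
import Cfsg.Agent.H431.AltCl
import Cfsg.Agent.OddOrderCharacters.PF4b.Prime
set_option linter.all false

-- part: H431/AltAlg
section
/-!
# The algebra behind the exceptional characters of a group with a subgroup `3^3 : S_4`

`alg_norm`: the equations of the class sums in the natural case have only one solution.
-/

set_option autoImplicit false

namespace Cfsg.Agent.H431.Alt

variable {F : Type*} [Field F] [CharZero F]

/-- first part: from the equations to polynomial relations -/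
theorem alg_core {m X s n c y t p : F} (hX : X ≠ 0) (hn0 : n ≠ 0) (hm1 : m - 1 ≠ 0)
    (hn : n = m ^ 2 - X ^ 2)
    (hI : (m - 1) * (4 * y * m - 4 * c + m) = X * (X + 5))
    (hc : c ^ 2 = n * y) (hs : s = 2 * m * c - n) (hp : p = 3 * X + 2 * c - m)
    (hts : t * s = n * p)
    (ht2 : t ^ 2 = n * (m + 5 * X - 4 * (1 - y) * (m - 1)))
    (hIII : n + (m + 5 * X - 4 * (1 - y) * (m - 1)) - 2 * t =
      4 * (m - 1) * ((1 - y) * (m - 1) - X)) (hc0 : c ≠ 0) : m = 9 ∧ X = 3 ∧ c = 6 := by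
  -- the square of `s`
  have hs2 : (m - 1) * s ^ 2 = n * X * (X + 5 * m) := by
    have e1 : s ^ 2 = n * (4 * m ^ 2 * y - 4 * m * c + n) := by
      rw [hs]; linear_combination 4 * m ^ 2 * hc
    rw [e1]
    have e2 : (m - 1) * (4 * m ^ 2 * y - 4 * m * c + n) = X * (X + 5 * m) := by
      rw [hn]; linear_combination m * hI
    linear_combination n * e2
  have hts' : 2 * t = n + m + 5 * X + 4 * X * (m - 1) - 5 * m * (m - 1) + X * (X + 5) +
      4 * c * (m - 1) := by
    linear_combination -hIII + hI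
  -- `m ≠ 0`
  have hm0 : m ≠ 0 := by
    intro h0
    rw [h0] at hs hp hts' hn
    have e1 : n = - X ^ 2 := by rw [hn]; ring
    have e2 : X ^ 2 * (t + p) = 0 := by
      have e3 : s = X ^ 2 := by rw [hs, e1]; ring
      rw [e3, e1] at hts
      linear_combination hts
    have e3 : t + p = 0 := by
      rcases mul_eq_zero.1 e2 with h | h
      · exact absurd (pow_eq_zero_iff (two_ne_zero) |>.1 h) hX
      · exact h
    have e4 : 12 * X = 0 := by
      rw [hp] at e3
      rw [e1] at hts'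
      linear_combination 2 * e3 - hts'
    exact hX ((mul_eq_zero.1 e4).resolve_left (by norm_num))
  -- the equation `E3`
  have hmp : m * p = X * (3 * m - X) + s := by
    rw [hp, hs, hn]; ring
  have hmt : m * t = m * (-2 * m ^ 2 + 3 * m + 3 * X + 2 * X * m) + (m - 1) * (s + n) := by
    have e1 : 2 * (m * t - (m * (-2 * m ^ 2 + 3 * m + 3 * X + 2 * X * m) + (m - 1) * (s + n))) = 0 := by
      have e2 : 4 * c * m = 2 * (s + n) := by rw [hs]; ring
      rw [hn] at hts' e2 ⊢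
      linear_combination m * hts' + (m - 1) * e2
    have e3 := (mul_eq_zero.1 e1).resolve_left (by norm_num)
    linear_combination e3
  have hE3 : s * (m * (m - X) ^ 2 - (m + X) * (m + 2 * X)) = 2 * n * X * (m + X) := by
    have e1 : m * t * s = n * (X * (3 * m - X) + s) := by
      rw [← hmp]; linear_combination m * hts
    rw [hmt] at e1
    have e2 : s * m * (-2 * m ^ 2 + 3 * m + 3 * X + 2 * X * m) + n * X * (X + 5 * m) + (m - 1) * n * s
        = n * (X * (3 * m - X) + s) := by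
      linear_combination e1 - hs2
    have e3 : s * (m * (-2 * m ^ 2 + 3 * m + 3 * X + 2 * X * m) + (m - 2) * n) =
        -(2 * n * X * (m + X)) := by
      linear_combination e2
    have e4 : m * (-2 * m ^ 2 + 3 * m + 3 * X + 2 * X * m) + (m - 2) * n =
        -(m * (m - X) ^ 2 - (m + X) * (m + 2 * X)) := by
      rw [hn]; ring
    rw [e4] at e3
    linear_combination -e3
  -- the equation `E2`
  have hE2 : (m + 5 * X - 4 * (1 - y) * (m - 1)) * (X * (X + 5 * m)) = (m - 1) * p ^ 2 := by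
    have e1 : n ^ 2 * ((m + 5 * X - 4 * (1 - y) * (m - 1)) * (X * (X + 5 * m)) - (m - 1) * p ^ 2) = 0 := by
      have e2 : t ^ 2 * s ^ 2 = n ^ 2 * p ^ 2 := by
        rw [← mul_pow, hts]; ring
      rw [ht2] at e2
      linear_combination (m - 1) * e2 - n * (m + 5 * X - 4 * (1 - y) * (m - 1)) * hs2
    have e3 := (mul_eq_zero.1 e1).resolve_left (pow_ne_zero 2 hn0)
    linear_combination e3
  have hme : m ^ 2 * (m + 5 * X - 4 * (1 - y) * (m - 1)) =
      m * (-4 * m ^ 2 + 5 * m + 5 * X * m + X ^ 2 + 5 * X) + 2 * (m - 1) * (s + n) := by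
    rw [hs, hn]
    linear_combination m * hI
  have hE2' : 2 * (m - 1) * (m + X) * s = 5 * m ^ 4 - 7 * m ^ 3 * X - 3 * m ^ 2 * X ^ 2 + m * X ^ 3
      - 5 * m ^ 3 - 18 * m ^ 2 * X - 7 * m * X ^ 2 - 2 * X ^ 3 := by
    have e1 : (m * (-4 * m ^ 2 + 5 * m + 5 * X * m + X ^ 2 + 5 * X) + 2 * (m - 1) * (s + n)) *
        (X * (X + 5 * m)) = (m - 1) * (X * (3 * m - X) + s) ^ 2 := by
      rw [← hme, ← hmp]
      linear_combination m ^ 2 * hE2
    have e2 : 2 * X * (2 * (m - 1) * (m + X) * s - (5 * m ^ 4 - 7 * m ^ 3 * X - 3 * m ^ 2 * X ^ 2 + m * X ^ 3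
      - 5 * m ^ 3 - 18 * m ^ 2 * X - 7 * m * X ^ 2 - 2 * X ^ 3)) = 0 := by
      rw [hn] at e1 hs2
      linear_combination e1 + hs2
    have e3 := (mul_eq_zero.1 e2).resolve_left (mul_ne_zero (by norm_num) hX)
    linear_combination e3
  -- comparison
  have hcomp : (X + 5 * m) * (m * (m - X) ^ 2 - (m + X) * (m + 2 * X)) = 2 * (m - 1) * (m + X) * s := by
    have e1 : (n * X) * ((X + 5 * m) * (m * (m - X) ^ 2 - (m + X) * (m + 2 * X)) -
        2 * (m - 1) * (m + X) * s) = 0 := by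
      linear_combination (m - 1) * s * hE3 - (m * (m - X) ^ 2 - (m + X) * (m + 2 * X)) * hs2
    have e3 := (mul_eq_zero.1 e1).resolve_left (mul_ne_zero hn0 hX)
    linear_combination e3
  have hm3 : m = 3 * X := by
    have e1 : (2 * m * X * (m - 1)) * (m - 3 * X) = 0 := by
      linear_combination -hcomp - hE2'
    have e2 := (mul_eq_zero.1 e1).resolve_left
      (mul_ne_zero (mul_ne_zero (mul_ne_zero (by norm_num) hm0) hX) hm1)
    linear_combination e2
  -- the final quadratic equation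
  have hn' : n = 8 * X ^ 2 := by rw [hn, hm3]; ring
  have hsX : s * (3 * X - 5) = 16 * X ^ 2 := by
    have e1 : (4 * X ^ 2) * (s * (3 * X - 5) - 16 * X ^ 2) = 0 := by
      rw [hm3, hn'] at hE3
      linear_combination hE3
    have e2 := (mul_eq_zero.1 e1).resolve_left (mul_ne_zero (by norm_num) (pow_ne_zero 2 hX))
    linear_combination e2
  have hs2' : (3 * X - 1) * s ^ 2 = 128 * X ^ 4 := by
    rw [hm3, hn'] at hs2
    linear_combination hs2
  have hq : (X - 1) * (X - 3) = 0 := by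
    have e1 : (1152 * X ^ 4) * ((X - 1) * (X - 3)) = 0 := by
      linear_combination (3 * X - 1) * (s * (3 * X - 5) + 16 * X ^ 2) * hsX - (3 * X - 5) ^ 2 * hs2'
    exact (mul_eq_zero.1 e1).resolve_left (mul_ne_zero (by norm_num) (pow_ne_zero 4 hX))
  rcases mul_eq_zero.1 hq with h | h
  · exfalso
    have hX1 : X = 1 := by linear_combination h
    rw [hX1] at hm3 hn' hsX
    have e1 : s = -8 := by linear_combination -hsX / 2
    rw [e1, hn', hm3] at hs
    apply hc0
    linear_combination -hs / 6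
  · have hX3 : X = 3 := by linear_combination h
    rw [hX3] at hm3 hn' hsX
    have e1 : s = 36 := by linear_combination hsX / 4
    rw [e1, hn', hm3] at hs
    refine ⟨by rw [hm3]; norm_num, hX3, ?_⟩
    linear_combination -hs / 18

/-- The natural case, normalized. -/
theorem alg_norm {D X Y Z C T W ε G E K : F} (hD : D ≠ 0) (hX : X ≠ 0) (hY : Y ≠ 0) (hZ : Z ≠ 0)
    (hC : C ≠ 0) (hT : T ≠ 0) (hW : W ≠ 0) (eZ : Z = X + Y) (eC : C = D + Z)
    (eT : T = 1 + D + Y) (eW : W = 1 + D + 2 * X + Y)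
    (b1 : G ^ 2 / D - G ^ 2 / C = 2) (p1 : ε ^ 2 + G ^ 2 / C - (ε + G) ^ 2 / T = 0)
    (r1 : ε ^ 2 + G ^ 2 / C - (ε + G) ^ 2 / W = 1)
    (a3 : K ^ 2 / X + K ^ 2 / Y = 2)
    (p3 : E ^ 2 - K ^ 2 / X - (E - K) ^ 2 / T = 2)
    (p2 : ε * E - (ε + G) * (E - K) / T = 2)
    (r2 : ε * E - (ε + G) * (E + K) / W = 1) : D = 2 ∧ G = 2 * ε := by
  -- the variables of `alg_core`
  obtain ⟨m, hm⟩ : ∃ m, m = 1 + C := ⟨_, rfl⟩
  obtain ⟨a, ha⟩ : ∃ a, a = ε + G := ⟨_, rfl⟩
  obtain ⟨y, hy⟩ : ∃ y, y * Z = Y := ⟨Y / Z, div_mul_cancel₀ _ hZ⟩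
  have hTm : T = m - X := by rw [eT, hm, eC, eZ]; ring
  have hWm : W = m + X := by rw [eW, hm, eC, eZ]; ring
  have hDm : D = m - 1 - Z := by rw [hm, eC]; ring
  have hXy : (1 - y) * Z = X := by linear_combination eZ - hy
  rw [← ha] at p1 r1 p2 r2
  field_simp at b1 p1 r1 a3 p3 p2 r2
  have b1' : G ^ 2 * Z = 2 * D * C := by linear_combination b1 - G ^ 2 * eC
  subst hTm hWm
  have H1 : 2 * X * a ^ 2 = (m - X) * (m + X) := by
    have e1 : C * (2 * X * a ^ 2 - (m - X) * (m + X)) = 0 := by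
      linear_combination (m - X) * r1 - (m + X) * p1
    have e2 := (mul_eq_zero.1 e1).resolve_left hC
    linear_combination e2
  have H2 : K ^ 2 = 2 * X * y := by
    have e1 : Z * (K ^ 2 - 2 * X * y) = 0 := by
      linear_combination a3 + K ^ 2 * eZ - 2 * X * hy
    have e2 := (mul_eq_zero.1 e1).resolve_left hZ
    linear_combination e2
  have ha0 : a ≠ 0 := by
    intro h
    rw [h] at H1
    exact mul_ne_zero hT hW (by linear_combination -H1)
  have H3 : m * K = X * (a + E) := by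
    have e1 : (2 * a) * (m * K - X * (a + E)) = 0 := by
      linear_combination (m + X) * p2 - (m - X) * r2 - H1
    have e2 := (mul_eq_zero.1 e1).resolve_left (mul_ne_zero (by norm_num) ha0)
    linear_combination e2
  have hK0 : K ≠ 0 := by
    intro h
    rw [h] at a3
    exact mul_ne_zero (mul_ne_zero (by norm_num : (2 : F) ≠ 0) hX) hY (by linear_combination -a3)
  have hc0 : a * K ≠ 0 := mul_ne_zero ha0 hK0
  have hn0 : m ^ 2 - X ^ 2 ≠ 0 := by
    have : m ^ 2 - X ^ 2 = (m - X) * (m + X) := by ring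
    rw [this]
    exact mul_ne_zero hT hW
  have hm1 : m - 1 ≠ 0 := by rw [hm]; simpa using hC
  have hc : (a * K) ^ 2 = (m ^ 2 - X ^ 2) * y := by
    linear_combination a ^ 2 * H2 + y * H1
  have hXE : X * E = m * K - X * a := by linear_combination -H3
  -- the equation `I`
  have hI : (m - 1) * (4 * y * m - 4 * (a * K) + m) = X * (X + 5) := by
    have e1 : (m - X) * X * ((m - 1) * (4 * y * m - 4 * (a * K) + m) - X * (X + 5)) = 0 := by
      have e2 : (m * K - X * a) ^ 2 * (m - X) - X * K ^ 2 * (m - X) - ((m - X) * K - X * a) ^ 2 =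
          2 * X ^ 2 * (m - X) := by
        linear_combination X * p3 + ((X * E + m * K - X * a) * (m - X) -
          (X * E + m * K - X * a - 2 * X * K)) * (-hXE)
      linear_combination 2 * e2 - X * (m - X - 1) * H1 - 2 * (m - X) * m * (m - 1) * H2
    have e3 := (mul_eq_zero.1 e1).resolve_left (mul_ne_zero hT hX)
    linear_combination e3
  -- `2 X ε E`
  have hp : 2 * X * ε * E = 3 * X + 2 * (a * K) - m := by
    have e1 : (m - X) * (2 * X * ε * E - (3 * X + 2 * (a * K) - m)) = 0 := by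
      linear_combination 2 * X * p2 + 2 * a * hXE - H1
    have e3 := (mul_eq_zero.1 e1).resolve_left hT
    linear_combination e3
  have hs : 2 * X * a * E = 2 * m * (a * K) - (m ^ 2 - X ^ 2) := by
    linear_combination 2 * a * hXE - H1
  have he : 2 * X * ε ^ 2 = m + 5 * X - 4 * (1 - y) * (m - 1) := by
    have e1 : C * ((m - X) * (Z * (2 * X * ε ^ 2 - (m + 5 * X - 4 * (1 - y) * (m - 1))))) = 0 := by
      linear_combination 2 * X * Z * p1 - 2 * X * (m - X) * b1' + C * Z * H1 +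
        4 * C * (m - X) * (m - 1) * hXy - 4 * X * C * (m - X) * hDm
    have e2 := (mul_eq_zero.1 e1).resolve_left hC
    have e3 := (mul_eq_zero.1 e2).resolve_left hT
    have e4 := (mul_eq_zero.1 e3).resolve_left hZ
    linear_combination e4
  have hg : 2 * X * G ^ 2 = 4 * (m - 1) * ((1 - y) * (m - 1) - X) := by
    have e1 : Z * (2 * X * G ^ 2 - 4 * (m - 1) * ((1 - y) * (m - 1) - X)) = 0 := by
      linear_combination 2 * X * b1' - 4 * (m - 1) ^ 2 * hXy + 4 * X * C * hDm -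
        4 * X * (m - 1 - Z) * hm
    have e4 := (mul_eq_zero.1 e1).resolve_left hZ
    linear_combination e4
  obtain ⟨r1', r2', r3'⟩ := alg_core (m := m) (X := X) (s := 2 * X * a * E) (n := m ^ 2 - X ^ 2)
    (c := a * K) (y := y) (t := 2 * X * a * ε) (p := 2 * X * ε * E) hX hn0 hm1 rfl hI hc hs hp
    (by linear_combination 2 * X * ε * E * H1)
    (by linear_combination 2 * X * a ^ 2 * he + (m + 5 * X - 4 * (1 - y) * (m - 1)) * H1)
    (by
      have : G = a - ε := by rw [ha]; ring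
      rw [this] at hg
      linear_combination hg - H1 - he) hc0
  rw [r1', r2', r3'] at hc
  rw [r1', r2', r3'] at hs hp
  rw [r2'] at hXy
  rw [r1'] at hDm
  have hy' : y = 1 / 2 := by linear_combination -hc / 72
  rw [hy'] at hXy
  have hZ' : Z = 6 := by linear_combination 2 * hXy
  refine ⟨by rw [hDm, hZ']; norm_num, ?_⟩
  have h6 : a = 3 * ε := by linear_combination (ε / 12) * hs - (a / 12) * hp
  linear_combination h6 - ha

/-- The excluded cases, normalized: two reciprocals of nonzero integers are small. -/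
theorem int_inv_bound {C D : ℤ} (hC : C ≠ 0) (hD : D ≠ 0) : (1 : ℚ) / C + 3 / D ≠ 8 ∧
    (1 : ℚ) / C + 1 / D ≠ 4 := by
  have h1 : ∀ z : ℤ, z ≠ 0 → (1 : ℚ) / z ≤ 1 := by
    intro z hz
    rcases lt_or_gt_of_ne hz with h | h
    · have : (1 : ℚ) / z ≤ 0 := by
        apply div_nonpos_of_nonneg_of_nonpos (by norm_num)
        exact_mod_cast h.le
      linarith
    · rw [div_le_one (by exact_mod_cast h)]
      exact_mod_cast h
  have e1 := h1 C hC
  have e2 := h1 D hD
  have e3 : (3 : ℚ) / D = 3 * (1 / D) := by ring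
  constructor
  · rw [e3]; intro h; linarith
  · intro h; linarith

end Cfsg.Agent.H431.Alt
end

-- part: H431/AltLat
section
/-!
# The lattice argument for the exceptional characters of a group with a subgroup `3^3 : S_4`
-/

set_option autoImplicit false

namespace Cfsg.Agent.H431.Alt

variable {ι : Type*} [Fintype ι]

/-- the standard inner product of `ℤ^ι` -/
def ip (x y : ι → ℤ) : ℤ := ∑ i, x i * y i

theorem ip_comm (x y : ι → ℤ) : ip x y = ip y x := by
  unfold ip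
  exact Finset.sum_congr rfl fun i _ => mul_comm _ _

theorem ip_add_left (x y z : ι → ℤ) : ip (x + y) z = ip x z + ip y z := by
  unfold ip
  rw [← Finset.sum_add_distrib]
  exact Finset.sum_congr rfl fun i _ => add_mul _ _ _

theorem ip_sub_left (x y z : ι → ℤ) : ip (x - y) z = ip x z - ip y z := by
  unfold ip
  rw [← Finset.sum_sub_distrib]
  exact Finset.sum_congr rfl fun i _ => sub_mul _ _ _

theorem ip_neg_left (x z : ι → ℤ) : ip (-x) z = - ip x z := by
  unfold ip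
  rw [← Finset.sum_neg_distrib]
  exact Finset.sum_congr rfl fun i _ => neg_mul _ _

theorem ip_smul_left (c : ℤ) (x z : ι → ℤ) : ip (c • x) z = c * ip x z := by
  unfold ip
  rw [Finset.mul_sum]
  exact Finset.sum_congr rfl fun i _ => by simp [mul_assoc]

theorem ip_add_right (x y z : ι → ℤ) : ip z (x + y) = ip z x + ip z y := by
  rw [ip_comm, ip_add_left, ip_comm x, ip_comm y]

theorem ip_sub_right (x y z : ι → ℤ) : ip z (x - y) = ip z x - ip z y := by
  rw [ip_comm, ip_sub_left, ip_comm x, ip_comm y]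

theorem ip_neg_right (x z : ι → ℤ) : ip z (-x) = - ip z x := by
  rw [ip_comm, ip_neg_left, ip_comm]

theorem ip_smul_right (c : ℤ) (x z : ι → ℤ) : ip z (c • x) = c * ip z x := by
  rw [ip_comm, ip_smul_left, ip_comm]

theorem ip_self_nonneg (x : ι → ℤ) : 0 ≤ ip x x :=
  Finset.sum_nonneg fun i _ => mul_self_nonneg _

theorem eq_zero_of_ip_self {x : ι → ℤ} (h : ip x x = 0) : x = 0 := by
  unfold ip at h
  rw [Finset.sum_eq_zero_iff_of_nonneg (fun _ _ => mul_self_nonneg _)] at h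
  funext i
  exact mul_self_eq_zero.1 (h i (Finset.mem_univ i))

/-- Bessel's inequality -/
theorem ip_bessel {κ : Type*} [Fintype κ] [DecidableEq κ] (u : κ → ι → ℤ)
    (hu : ∀ a b, ip (u a) (u b) = if a = b then 1 else 0) (m : ι → ℤ) :
    ∑ a, ip m (u a) ^ 2 ≤ ip m m := by
  have hsum : ∀ (c : κ → ℤ) (z : ι → ℤ), ip z (∑ a, c a • u a) = ∑ a, c a * ip z (u a) := by
    intro c z
    unfold ip
    simp only [Finset.sum_apply, Pi.smul_apply, smul_eq_mul, Finset.mul_sum]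
    rw [Finset.sum_comm]
    refine Finset.sum_congr rfl fun a _ => Finset.sum_congr rfl fun i _ => ?_
    ring
  have h1 := ip_self_nonneg (m - ∑ a, ip m (u a) • u a)
  rw [ip_sub_left, ip_sub_right, ip_sub_right, hsum, ip_comm (∑ a, ip m (u a) • u a) m, hsum,
    hsum] at h1
  have h2 : ∀ b, ip (∑ a, ip m (u a) • u a) (u b) = ip m (u b) := by
    intro b
    rw [ip_comm, hsum]
    rw [Finset.sum_congr rfl fun a _ => by rw [hu b a]]
    simp
  simp_rw [h2] at h1
  have h3 : ∑ a, ip m (u a) ^ 2 = ∑ a, ip m (u a) * ip m (u a) :=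
    Finset.sum_congr rfl fun a _ => sq _
  rw [h3]
  linarith

section

variable [DecidableEq ι]

/-- vectors of norm 1 -/
theorem unit_cases {x : ι → ℤ} (h : ip x x = 1) : ∃ i, x = Pi.single i 1 ∨ x = - Pi.single i 1 := by
  have h1 : ∃ i, x i ≠ 0 := by
    by_contra hcon
    push Not at hcon
    unfold ip at h
    rw [Finset.sum_eq_zero (fun i _ => by rw [hcon i, mul_zero])] at h
    exact absurd h (by decide)
  obtain ⟨i, hi⟩ := h1
  have h2 : x i * x i + ∑ j ∈ Finset.univ.erase i, x j * x j = 1 := by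
    rw [← h]
    exact Finset.add_sum_erase _ (fun j => x j * x j) (Finset.mem_univ i)
  have h3 : 0 ≤ ∑ j ∈ Finset.univ.erase i, x j * x j := Finset.sum_nonneg fun j _ => mul_self_nonneg _
  have h4 : 1 ≤ x i * x i := by
    rcases lt_or_gt_of_ne hi with h | h <;> nlinarith
  have h5 : x i * x i = 1 := by omega
  have h6 : ∑ j ∈ Finset.univ.erase i, x j * x j = 0 := by omega
  rw [Finset.sum_eq_zero_iff_of_nonneg (fun j _ => mul_self_nonneg _)] at h6
  have h7 : ∀ j, j ≠ i → x j = 0 := fun j hj =>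
    mul_self_eq_zero.1 (h6 j (Finset.mem_erase.2 ⟨hj, Finset.mem_univ j⟩))
  refine ⟨i, ?_⟩
  rcases Int.isUnit_iff.1 (IsUnit.of_mul_eq_one _ h5) with h8 | h8
  · left
    funext j
    by_cases hj : j = i
    · subst hj; simp [h8]
    · rw [h7 j hj]; simp [hj]
  · right
    funext j
    by_cases hj : j = i
    · subst hj; simp [h8]
    · rw [h7 j hj]; simp [hj]

/-- vectors of norm 2 -/
theorem two_cases {x : ι → ℤ} (h : ip x x = 2) : ∃ u v, ip u u = 1 ∧ ip v v = 1 ∧ ip u v = 0 ∧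
    x = u + v := by
  have h1 : ∃ i, x i ≠ 0 := by
    by_contra hcon
    push Not at hcon
    unfold ip at h
    rw [Finset.sum_eq_zero (fun i _ => by rw [hcon i, mul_zero])] at h
    exact absurd h (by decide)
  obtain ⟨i, hi⟩ := h1
  have h2 : x i * x i ≤ 2 := by
    rw [← h]
    exact Finset.single_le_sum (f := fun j => x j * x j) (fun j _ => mul_self_nonneg _) (Finset.mem_univ i)
  have h5 : x i * x i = 1 := by
    have h3 : x i ≤ 1 := by nlinarith
    have h4 : -1 ≤ x i := by nlinarith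
    have : x i = 1 ∨ x i = -1 := by omega
    rcases this with h | h <;> rw [h] <;> norm_num
  have h6 : ∀ y : ι → ℤ, ip (Pi.single i (x i)) y = x i * y i := by
    intro y
    unfold ip
    rw [Finset.sum_eq_single i]
    · simp
    · intro j _ hj
      simp [hj]
    · intro h; exact absurd (Finset.mem_univ i) h
  refine ⟨Pi.single i (x i), x - Pi.single i (x i), ?_, ?_, ?_, by simp⟩
  · rw [h6]; simpa using h5
  · rw [ip_sub_left, ip_sub_right, ip_sub_right, ip_comm x (Pi.single i (x i)), h6, h6, h]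
    simp only [Pi.single_eq_same]
    rw [h5]; norm_num
  · rw [ip_sub_right, h6, h6]
    simp

/-- splitting of a vector of norm 2 -/
theorem split {β B : ι → ℤ} (hβ : ip β β = 2) (hB : ip B B ≤ 3) (h : ip B β = -1) :
    ∃ x x', ip x x = 1 ∧ ip x' x' = 1 ∧ ip x x' = 0 ∧ β = x - x' ∧ ip B x = -1 ∧ ip B x' = 0 := by
  obtain ⟨u, v, hu, hv, huv, rfl⟩ := two_cases hβ
  have h1 := ip_self_nonneg (B - ip B u • u)
  have h2 := ip_self_nonneg (B - ip B v • v)
  simp only [ip_sub_left, ip_sub_right, ip_smul_left, ip_smul_right, hu, hv, ip_comm u B,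
    ip_comm v B] at h1 h2
  rw [ip_add_right] at h
  have h3 : ip B u ≤ 1 := by nlinarith
  have h4 : -1 ≤ ip B u := by nlinarith
  have h5 : ip B v ≤ 1 := by nlinarith
  have h6 : -1 ≤ ip B v := by nlinarith
  have h7 : (ip B u = -1 ∧ ip B v = 0) ∨ (ip B u = 0 ∧ ip B v = -1) := by omega
  rcases h7 with ⟨e1, e2⟩ | ⟨e1, e2⟩
  · refine ⟨u, -v, hu, ?_, ?_, by abel, e1, ?_⟩
    · rw [ip_neg_left, ip_neg_right, hv]; norm_num
    · rw [ip_neg_right, huv]; norm_num
    · rw [ip_neg_right, e2]; norm_num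
  · refine ⟨v, -u, hv, ?_, ?_, by abel, e2, ?_⟩
    · rw [ip_neg_left, ip_neg_right, hu]; norm_num
    · rw [ip_neg_right, ip_comm, huv]; norm_num
    · rw [ip_neg_right, e1]; norm_num

end

end Cfsg.Agent.H431.Alt
end

-- part: H431/AltFrame
section
/-!
# The decomposition of the exceptional characters
-/

set_option autoImplicit false

namespace Cfsg.Agent.H431.Alt

variable {ι : Type*} [Fintype ι]

theorem bes2 {u v : ι → ℤ} (hu : ip u u = 1) (hv : ip v v = 1) (huv : ip u v = 0) (w : ι → ℤ) :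
    ip w u ^ 2 + ip w v ^ 2 ≤ ip w w := by
  have h := ip_self_nonneg (w - ip w u • u - ip w v • v)
  simp only [ip_sub_left, ip_sub_right, ip_smul_left, ip_smul_right, hu, hv, huv, ip_comm v u,
    ip_comm u w, ip_comm v w] at h
  nlinarith

theorem bes3 {u v t : ι → ℤ} (hu : ip u u = 1) (hv : ip v v = 1) (ht : ip t t = 1)
    (huv : ip u v = 0) (hut : ip u t = 0) (hvt : ip v t = 0) (w : ι → ℤ) :
    ip w u ^ 2 + ip w v ^ 2 + ip w t ^ 2 ≤ ip w w := by
  have h := ip_self_nonneg (w - ip w u • u - ip w v • v - ip w t • t)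
  simp only [ip_sub_left, ip_sub_right, ip_smul_left, ip_smul_right, hu, hv, ht, huv, hut, hvt,
    ip_comm v u, ip_comm t u, ip_comm t v, ip_comm u w, ip_comm v w, ip_comm t w] at h
  nlinarith

section

variable {F : Type*} [Field F]

/-- the linear functional with coefficients `c` -/
def lin (c : ι → F) (m : ι → ℤ) : F := ∑ i, (m i : F) * c i

theorem lin_add (c : ι → F) (m n : ι → ℤ) : lin c (m + n) = lin c m + lin c n := by
  unfold lin
  rw [← Finset.sum_add_distrib]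
  exact Finset.sum_congr rfl fun i _ => by simp [add_mul]

theorem lin_sub (c : ι → F) (m n : ι → ℤ) : lin c (m - n) = lin c m - lin c n := by
  unfold lin
  rw [← Finset.sum_sub_distrib]
  exact Finset.sum_congr rfl fun i _ => by simp [sub_mul]

theorem lin_neg (c : ι → F) (m : ι → ℤ) : lin c (-m) = - lin c m := by
  unfold lin
  rw [← Finset.sum_neg_distrib]
  exact Finset.sum_congr rfl fun i _ => by simp

theorem lin_smul (c : ι → F) (a : ℤ) (m : ι → ℤ) : lin c (a • m) = a * lin c m := by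
  unfold lin
  rw [Finset.mul_sum]
  exact Finset.sum_congr rfl fun i _ => by simp [mul_assoc]

theorem lin_sub_smul (c : ι → F) (a : F) (f : ι → ℤ) (m : ι → ℤ) :
    lin (fun i => c i - a * f i) m = lin c m - a * (ip m f : F) := by
  unfold lin ip
  push_cast
  rw [Finset.mul_sum, ← Finset.sum_sub_distrib]
  exact Finset.sum_congr rfl fun i _ => by ring

/-- the quadratic functional -/
def Phi (f : ι → ℤ) (c d : ι → F) (m : ι → ℤ) : F := lin (fun i => c i * d i / (f i : F)) m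

theorem Phi_shift [CharZero F] {f : ι → ℤ} (hf : ∀ i, 0 < f i) (c d : ι → F) (a b : F) {m : ι → ℤ}
    (h1 : ip m f = 0) (h2 : lin c m = 0) (h3 : lin d m = 0) :
    Phi f (fun i => c i - a * f i) (fun i => d i - b * f i) m = Phi f c d m := by
  have h4 : ∀ i, (m i : F) * ((c i - a * f i) * (d i - b * f i) / (f i : F)) =
      (m i : F) * (c i * d i / (f i : F)) - b * ((m i : F) * c i) - a * ((m i : F) * d i) +
        a * b * ((m i * f i : ℤ) : F) := by
    intro i
    have : (f i : F) ≠ 0 := by exact_mod_cast (hf i).ne'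
    field_simp
    push_cast
    ring
  unfold Phi
  have h5 : ∑ i, ((m i * f i : ℤ) : F) = 0 := by
    unfold ip at h1
    exact_mod_cast h1
  unfold lin at h2 h3 ⊢
  rw [Finset.sum_congr rfl fun i _ => h4 i, Finset.sum_add_distrib, Finset.sum_sub_distrib,
    Finset.sum_sub_distrib, ← Finset.mul_sum, ← Finset.mul_sum, ← Finset.mul_sum, h2, h3, h5]
  ring

theorem Phi_add (f : ι → ℤ) (c d : ι → F) (m n : ι → ℤ) :
    Phi f c d (m + n) = Phi f c d m + Phi f c d n := lin_add _ _ _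

theorem Phi_sub (f : ι → ℤ) (c d : ι → F) (m n : ι → ℤ) :
    Phi f c d (m - n) = Phi f c d m - Phi f c d n := lin_sub _ _ _

theorem Phi_neg (f : ι → ℤ) (c d : ι → F) (m : ι → ℤ) :
    Phi f c d (-m) = - Phi f c d m := lin_neg _ _

theorem Phi_smul (f : ι → ℤ) (c d : ι → F) (a : ℤ) (m : ι → ℤ) :
    Phi f c d (a • m) = a * Phi f c d m := lin_smul _ _ _

variable [DecidableEq ι]

theorem lin_single (c : ι → F) (i : ι) : lin c (Pi.single i 1) = c i := by
  unfold lin
  rw [Finset.sum_eq_single i]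
  · simp
  · intro j _ hj
    simp [hj]
  · intro h; exact absurd (Finset.mem_univ i) h

theorem ip_single (i : ι) (y : ι → ℤ) : ip y (Pi.single i 1) = y i := by
  unfold ip
  rw [Finset.sum_eq_single i]
  · simp
  · intro j _ hj
    simp [hj]
  · intro h; exact absurd (Finset.mem_univ i) h

theorem ip_ne_zero {f : ι → ℤ} (hf : ∀ i, 0 < f i) {u : ι → ℤ} (hu : ip u u = 1) : ip u f ≠ 0 := by
  obtain ⟨i, rfl | rfl⟩ := unit_cases hu
  · rw [ip_comm, ip_single]; exact (hf i).ne'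
  · rw [ip_neg_left, ip_comm, ip_single]; exact neg_ne_zero.2 (hf i).ne'

theorem Phi_unit {f : ι → ℤ} (c d : ι → F) {u : ι → ℤ} (hu : ip u u = 1) :
    Phi f c d u = lin c u * lin d u / (ip u f : F) := by
  obtain ⟨i, rfl | rfl⟩ := unit_cases hu
  · rw [Phi, lin_single, lin_single, lin_single, ip_comm, ip_single]
  · rw [Phi_neg, Phi, lin_neg, lin_neg, lin_single, lin_single, lin_single, ip_neg_left, ip_comm,
      ip_single]
    push_cast
    rw [neg_mul_neg, div_neg]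

end

/-- The data: inner products, values and class sums of the six generalized characters. -/
structure Dat {F : Type*} [Field F] [DecidableEq ι] (o : ι) (f : ι → ℤ) (g h : ι → F) (l k : F)
    (β γ A B P R : ι → ℤ) : Prop where
  fpos : ∀ i, 0 < f i
  fo : f o = 1
  l0 : l ≠ 0
  k0 : k ≠ 0
  bb : ip β β = 2
  cc : ip γ γ = 2
  AA : ip A A = 3
  BB : ip B B = 3
  PP : ip P P = 4
  RR : ip R R = 4
  bc : ip β γ = 0
  Ab : ip A β = 0
  Ac : ip A γ = -1
  Bb : ip B β = -1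
  Bc : ip B γ = 1
  AB : ip A B = -1
  Pb : ip P β = 1
  Pc : ip P γ = 0
  PA : ip P A = -1
  PB : ip P B = -1
  Rb : ip R β = 1
  Rc : ip R γ = 0
  RA : ip R A = 1
  RB : ip R B = -1
  RP : ip R P = 1
  bo : β o = 0
  co : γ o = 0
  Ao : A o = 0
  Bo : B o = 0
  Po : P o = 1
  Ro : R o = 1
  fb : ip β f = 0
  fc : ip γ f = 0
  fA : ip A f = 0
  fB : ip B f = 0
  fP : ip P f = 0
  fR : ip R f = 0
  gb : lin g β = 0
  gc : lin g γ = 0
  gA : lin g A = 0
  gB : lin g B = 0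
  gP : lin g P = 0
  gR : lin g R = 0
  hb : lin h β = 0
  hc : lin h γ = 0
  hA : lin h A = 0
  hB : lin h B = 0
  hP : lin h P = 0
  hR : lin h R = 0
  Agg : Phi f g g A = 0
  Ahh : Phi f h h A = 2 * k ^ 2
  Bgg : Phi f g g B = 2 * l ^ 2
  Bhh : Phi f h h B = 0
  Pgg : Phi f g g P = 0
  Pgh : Phi f g h P = 2 * (l * k)
  Phh : Phi f h h P = 2 * k ^ 2
  Rgg : Phi f g g R = l ^ 2
  Rgh : Phi f g h R = l * k

namespace Dat

variable {F : Type*} [Field F] [CharZero F] [DecidableEq ι] {o : ι} {f : ι → ℤ} {g h : ι → F} {l k : F}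
  {β γ A B P R : ι → ℤ}

/-- shifting the two functionals -/
theorem shift (D : Dat o f g h l k β γ A B P R) (a b : F) :
    Dat o f (fun i => g i - a * f i) (fun i => h i - b * f i) l k β γ A B P R :=
  { D with
    gb := by rw [lin_sub_smul, D.gb, D.fb]; simp
    gc := by rw [lin_sub_smul, D.gc, D.fc]; simp
    gA := by rw [lin_sub_smul, D.gA, D.fA]; simp
    gB := by rw [lin_sub_smul, D.gB, D.fB]; simp
    gP := by rw [lin_sub_smul, D.gP, D.fP]; simp
    gR := by rw [lin_sub_smul, D.gR, D.fR]; simp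
    hb := by rw [lin_sub_smul, D.hb, D.fb]; simp
    hc := by rw [lin_sub_smul, D.hc, D.fc]; simp
    hA := by rw [lin_sub_smul, D.hA, D.fA]; simp
    hB := by rw [lin_sub_smul, D.hB, D.fB]; simp
    hP := by rw [lin_sub_smul, D.hP, D.fP]; simp
    hR := by rw [lin_sub_smul, D.hR, D.fR]; simp
    Agg := by rw [Phi_shift D.fpos _ _ _ _ D.fA D.gA D.gA, D.Agg]
    Ahh := by rw [Phi_shift D.fpos _ _ _ _ D.fA D.hA D.hA, D.Ahh]
    Bgg := by rw [Phi_shift D.fpos _ _ _ _ D.fB D.gB D.gB, D.Bgg]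
    Bhh := by rw [Phi_shift D.fpos _ _ _ _ D.fB D.hB D.hB, D.Bhh]
    Pgg := by rw [Phi_shift D.fpos _ _ _ _ D.fP D.gP D.gP, D.Pgg]
    Pgh := by rw [Phi_shift D.fpos _ _ _ _ D.fP D.gP D.hP, D.Pgh]
    Phh := by rw [Phi_shift D.fpos _ _ _ _ D.fP D.hP D.hP, D.Phh]
    Rgg := by rw [Phi_shift D.fpos _ _ _ _ D.fR D.gR D.gR, D.Rgg]
    Rgh := by rw [Phi_shift D.fpos _ _ _ _ D.fR D.gR D.hR, D.Rgh] }

end Dat

end Cfsg.Agent.H431.Alt
end

-- part: H431/AltFrame2
section
/-!
# The decomposition of the exceptional characters, second part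
-/

set_option autoImplicit false

namespace Cfsg.Agent.H431.Alt

variable {ι : Type*} [Fintype ι]

theorem int_small {a : ℤ} (h : a ^ 2 ≤ 1) : a = -1 ∨ a = 0 ∨ a = 1 := by
  have h1 : a ≤ 1 := by nlinarith
  have h2 : -1 ≤ a := by nlinarith
  omega

theorem eq_neg_of_ip {w t : ι → ℤ} (hw : ip w w = 1) (ht : ip t t = 1) (h : ip w t = -1) :
    w = -t := by
  have h4 : ip (w + t) (w + t) = 0 := by
    rw [ip_add_left, ip_add_right, ip_add_right, ip_comm t w, h, hw, ht]; norm_num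
  exact eq_neg_of_add_eq_zero_left (eq_zero_of_ip_self h4)

theorem eq_of_ip {w t : ι → ℤ} (hw : ip w w = 1) (ht : ip t t = 1) (h : ip w t = 1) :
    w = t := by
  have h4 : ip (w - t) (w - t) = 0 := by
    rw [ip_sub_left, ip_sub_right, ip_sub_right, ip_comm t w, h, hw, ht]; norm_num
  exact sub_eq_zero.1 (eq_zero_of_ip_self h4)

namespace Dat

variable {F : Type*} [Field F] [CharZero F] [DecidableEq ι] {o : ι} {f : ι → ℤ} {g h : ι → F} {l k : F}
  {β γ A B P R : ι → ℤ}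

set_option maxHeartbeats 2000000 in
/-- the frame of orthonormal vectors occurring in `β`, `γ`, `A`, `B` -/
theorem exists_frame (D : Dat o f g h l k β γ A B P R) :
    ∃ x x' y y' r s e : ι → ℤ, ip x x = 1 ∧ ip x' x' = 1 ∧ ip y y = 1 ∧ ip y' y' = 1 ∧
      ip r r = 1 ∧ ip s s = 1 ∧ ip e e = 1 ∧ ip x x' = 0 ∧ ip x y = 0 ∧ ip x y' = 0 ∧
      ip x r = 0 ∧ ip x s = 0 ∧ ip x e = 0 ∧ ip x' y = 0 ∧ ip x' y' = 0 ∧ ip x' r = 0 ∧
      ip x' s = 0 ∧ ip x' e = 0 ∧ ip y y' = 0 ∧ ip y r = 0 ∧ ip y s = 0 ∧ ip y e = 0 ∧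
      ip y' r = 0 ∧ ip y' s = 0 ∧ ip y' e = 0 ∧ ip r s = 0 ∧ ip r e = 0 ∧ ip s e = 0 ∧
      β = x - x' ∧ γ = y - y' ∧ A = r + s - y ∧ B = y - x + e := by
  obtain ⟨x, x', hx, hx', hxx', hβ, hBx, hBx'⟩ := split D.bb (by rw [D.BB]) D.Bb
  obtain ⟨y, y', hy, hy', hyy', hγ, hAy, hAy'⟩ := split D.cc (by rw [D.AA]) D.Ac
  have hfx : ip x f = ip x' f := by
    have := D.fb
    rw [hβ, ip_sub_left] at this
    linarith
  have hhx : lin h x = lin h x' := by
    have := D.hb
    rw [hβ, lin_sub] at this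
    linear_combination this
  have hfy : ip y f = ip y' f := by
    have := D.fc
    rw [hγ, ip_sub_left] at this
    linarith
  have hgy : lin g y = lin g y' := by
    have := D.gc
    rw [hγ, lin_sub] at this
    linear_combination this
  have fx0 : (ip x f : F) ≠ 0 := by exact_mod_cast ip_ne_zero D.fpos hx
  -- `A ⟂ x`
  have hAx' : ip A x = ip A x' := by
    have := D.Ab
    rw [hβ, ip_sub_right] at this
    linarith
  have hAx : ip A x = 0 := by
    by_contra hne
    have h1 := bes2 hx hx' hxx' A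
    rw [← hAx', D.AA] at h1
    have h2 : ip A x ^ 2 = 1 := by
      rcases int_small (by linarith : ip A x ^ 2 ≤ 1) with h | h | h
      · rw [h]; norm_num
      · exact absurd h hne
      · rw [h]; norm_num
    obtain ⟨c, hc⟩ : ∃ c, c = ip A x := ⟨_, rfl⟩
    rw [← hc] at h2
    have hw : ip (A - c • x - c • x') (A - c • x - c • x') = 1 := by
      simp only [ip_sub_left, ip_sub_right, ip_smul_left, ip_smul_right, hx, hx', hxx',
        ip_comm x' x, ip_comm x A, ip_comm x' A, ← hAx', ← hc, D.AA]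
      linarith
    have hA : A = (A - c • x - c • x') + (c • x + c • x') := by abel
    have h3 := D.Ahh
    have h4 := D.fA
    have h5 := D.hA
    rw [hA] at h3 h4 h5
    rw [Phi_add, Phi_add, Phi_smul, Phi_smul, Phi_unit _ _ hw, Phi_unit _ _ hx, Phi_unit _ _ hx'] at h3
    rw [ip_add_left, ip_add_left, ip_smul_left, ip_smul_left] at h4
    rw [lin_add, lin_add, lin_smul, lin_smul] at h5
    rw [← hfx] at h3 h4
    rw [← hhx] at h3 h5
    have h6 : ip (A - c • x - c • x') f = - (2 * c * ip x f) := by linarith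
    have h7 : lin h (A - c • x - c • x') = - (2 * c * lin h x) := by linear_combination h5
    rw [h6, h7] at h3
    have hc0 : (c : F) ≠ 0 := by
      intro h
      have : c = 0 := by exact_mod_cast h
      rw [this] at h2
      exact absurd h2 (by norm_num)
    have hk : 2 * k ^ 2 = 0 := by
      rw [← h3]
      push_cast
      field_simp
      ring
    exact mul_ne_zero two_ne_zero (pow_ne_zero 2 D.k0) hk
  rw [hAx] at hAx'
  -- the constituents of `A`
  have hAy2 : ip (A + y) (A + y) = 2 := by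
    simp only [ip_add_left, ip_add_right, ip_comm y A, hAy, hy, D.AA]
    norm_num
  obtain ⟨r, s, hr, hs, hrs, hA⟩ := two_cases hAy2
  have hA' : A = r + s - y := by rw [← hA]; abel
  have hry : ip y r = 0 ∧ ip y s = 0 := by
    have h1 := bes2 hr hs hrs y
    have h2 : ip y (r + s) = 0 := by
      rw [← hA, ip_add_right, ip_comm, hAy, hy]; norm_num
    rw [ip_add_right] at h2
    rw [hy] at h1
    rcases int_small (by nlinarith [sq_nonneg (ip y s)] : ip y r ^ 2 ≤ 1) with h | h | h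
    · have : ip y s = 1 := by omega
      rw [h, this] at h1; norm_num at h1
    · exact ⟨h, by omega⟩
    · have : ip y s = -1 := by omega
      rw [h, this] at h1; norm_num at h1
  -- a unit vector orthogonal to `A` is orthogonal to `r`, `s`, `y`
  have key : ∀ w : ι → ℤ, ip w w = 1 → ip A w = 0 → ip w r = 0 ∧ ip w s = 0 ∧ ip w y = 0 := by
    intro w hw h1
    have h2 := bes3 hr hs hy hrs (by rw [ip_comm]; exact hry.1) (by rw [ip_comm]; exact hry.2) w
    rw [hw] at h2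
    rw [hA', ip_sub_left, ip_add_left, ip_comm r w, ip_comm s w, ip_comm y w] at h1
    have e1 := int_small (by nlinarith [sq_nonneg (ip w s), sq_nonneg (ip w y)] : ip w r ^ 2 ≤ 1)
    have e2 := int_small (by nlinarith [sq_nonneg (ip w r), sq_nonneg (ip w y)] : ip w s ^ 2 ≤ 1)
    have e3 := int_small (by nlinarith [sq_nonneg (ip w r), sq_nonneg (ip w s)] : ip w y ^ 2 ≤ 1)
    rcases e1 with e1 | e1 | e1 <;> rcases e2 with e2 | e2 | e2 <;> rcases e3 with e3 | e3 | e3 <;>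
      first
      | exact ⟨e1, e2, e3⟩
      | (exfalso; rw [e1, e2, e3] at h1; omega)
      | (exfalso; rw [e1, e2, e3] at h2; norm_num at h2)
  obtain ⟨hxr, hxs, hxy⟩ := key x hx hAx
  obtain ⟨hx'r, hx's, hx'y⟩ := key x' hx' hAx'.symm
  obtain ⟨hy'r, hy's, -⟩ := key y' hy' hAy'
  -- `x ⟂ y'`
  have hxy' : ip x y' = 0 ∧ ip x' y' = 0 := by
    have h1 := D.bc
    rw [hβ, hγ, ip_sub_left, ip_sub_right, ip_sub_right, hxy, hx'y] at h1
    have h2 := bes2 hx hx' hxx' y'
    rw [hy', ip_comm y' x, ip_comm y' x'] at h2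
    have h3 : ip x' y' = ip x y' := by linarith
    rw [h3] at h2 ⊢
    have h4 : ip x y' = 0 := by
      rcases int_small (by nlinarith : ip x y' ^ 2 ≤ 1) with h | h | h
      · rw [h] at h2; norm_num at h2
      · exact h
      · rw [h] at h2; norm_num at h2
    exact ⟨h4, h4⟩
  have hBy : ip B y - ip B y' = 1 := by
    rw [← ip_sub_right, ← hγ]; exact D.Bc
  have hBy1 : (ip B y = 1 ∧ ip B y' = 0) ∨ (ip B y = 0 ∧ ip B y' = -1) := by
    have h1 := bes2 hy hy' hyy' B
    rw [D.BB] at h1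
    have h3 : ip B y ≤ 1 := by nlinarith
    have h4 : -1 ≤ ip B y := by nlinarith
    have h5 : ip B y' ≤ 1 := by nlinarith
    have h6 : -1 ≤ ip B y' := by nlinarith
    omega
  rcases hBy1 with ⟨hBy, hBy'⟩ | ⟨hBy, hBy'⟩
  · -- the natural case
    have he : ip (B + x - y) (B + x - y) = 1 := by
      simp only [ip_add_left, ip_add_right, ip_sub_left, ip_sub_right, ip_comm x B, ip_comm y B,
        ip_comm y x, hBx, hBy, hxy, hx, hy, D.BB]
      norm_num
    have hAe : ip A (B + x - y) = 0 := by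
      rw [ip_sub_right, ip_add_right, D.AB, hAx, hAy]; norm_num
    obtain ⟨her, hes, hey⟩ := key _ he hAe
    refine ⟨x, x', y, y', r, s, B + x - y, hx, hx', hy, hy', hr, hs, he, hxx', hxy, hxy'.1, hxr, hxs,
      ?_, hx'y, hxy'.2, hx'r, hx's, ?_, hyy', hry.1, hry.2, ?_, hy'r, hy's, ?_, hrs, ?_, ?_, hβ, hγ,
      hA', by abel⟩
    · rw [ip_sub_right, ip_add_right, ip_comm x B, hBx, hx, hxy]; norm_num
    · rw [ip_sub_right, ip_add_right, ip_comm x' B, hBx', ip_comm x' x, hxx', hx'y]; norm_num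
    · rw [ip_comm]; exact hey
    · rw [ip_sub_right, ip_add_right, ip_comm y' B, hBy', ip_comm y' x, hxy'.1, ip_comm y' y, hyy']
      norm_num
    · rw [ip_comm]; exact her
    · rw [ip_comm]; exact hes
  · -- the excluded case
    exfalso
    have he : ip (B + x + y') (B + x + y') = 1 := by
      simp only [ip_add_left, ip_add_right, ip_comm x B, ip_comm y' B,
        ip_comm y' x, hBx, hBy', hxy'.1, hx, hy', D.BB]
      norm_num
    have hAe : ip A (B + x + y') = -1 := by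
      rw [ip_add_right, ip_add_right, D.AB, hAx, hAy']; norm_num
    have hye : ip (B + x + y') y = 0 := by
      rw [ip_add_left, ip_add_left, hBy, hxy, ip_comm y' y, hyy']; norm_num
    have h1 : ip (B + x + y') r + ip (B + x + y') s = -1 := by
      rw [hA', ip_sub_left, ip_add_left, ip_comm y, hye, ip_comm r, ip_comm s] at hAe
      linarith
    have h2 := bes2 hr hs hrs (B + x + y')
    rw [he] at h2
    -- values of `g` on `r`, `s`, `y`
    have hY := ip_ne_zero D.fpos hs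
    have hX := ip_ne_zero D.fpos hr
    have hZ := ip_ne_zero D.fpos hy
    have hfA := D.fA
    have hgA := D.gA
    have hPA := D.Agg
    rw [hA', ip_sub_left, ip_add_left] at hfA
    rw [hA', lin_sub, lin_add] at hgA
    rw [hA', Phi_sub, Phi_add, Phi_unit _ _ hr, Phi_unit _ _ hs, Phi_unit _ _ hy] at hPA
    have hX' : (ip r f : F) ≠ 0 := by exact_mod_cast hX
    have hY' : (ip s f : F) ≠ 0 := by exact_mod_cast hY
    have hZ' : (ip y f : F) ≠ 0 := by exact_mod_cast hZ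
    have hfA' : (ip y f : F) = ip r f + ip s f := by
      have : ip y f = ip r f + ip s f := by linarith
      rw [this]; push_cast; ring
    have hgA' : lin g y = lin g r + lin g s := by linear_combination -hgA
    have hratio : lin g r * (ip s f : F) = lin g s * (ip r f : F) := by
      have h3 : (lin g r * (ip s f : F) - lin g s * (ip r f : F)) ^ 2 = 0 := by
        rw [hfA', hgA'] at hPA
        rw [hfA'] at hZ'
        field_simp at hPA
        linear_combination hPA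
      have h4 := pow_eq_zero_iff (two_ne_zero) |>.1 h3
      linear_combination h4
    have hry' : lin g r * (ip y f : F) = lin g y * (ip r f : F) := by
      rw [hfA', hgA']; linear_combination hratio
    have hsy' : lin g s * (ip y f : F) = lin g y * (ip s f : F) := by
      rw [hfA', hgA']; linear_combination -hratio
    -- the final contradiction
    have fin : ∀ t : ι → ℤ, ip t t = 1 → lin g t * (ip y f : F) = lin g y * (ip t f : F) →
        B = - t - x - y' → False := by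
      intro t ht hty hB
      have ht0 : (ip t f : F) ≠ 0 := by exact_mod_cast ip_ne_zero D.fpos ht
      have h3 := D.fB
      have h4 := D.gB
      have h5 := D.Bgg
      rw [hB] at h3 h4 h5
      rw [ip_sub_left, ip_sub_left, ip_neg_left, ← hfy] at h3
      rw [lin_sub, lin_sub, lin_neg, ← hgy] at h4
      rw [Phi_sub, Phi_sub, Phi_neg, Phi_unit _ _ ht, Phi_unit _ _ hx, Phi_unit _ _ hy', ← hgy,
        ← hfy] at h5
      have h6 : (ip x f : F) = - ip t f - ip y f := by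
        have : ip x f = - ip t f - ip y f := by linarith
        rw [this]; push_cast; ring
      have h7 : lin g x = - lin g t - lin g y := by linear_combination -h4
      have h8 : lin g t = lin g y * (ip t f : F) / (ip y f : F) := by
        field_simp; exact hty
      have hl : 2 * l ^ 2 = 0 := by
        rw [← h5, h7, h6, h8]
        rw [h6] at fx0
        field_simp
        ring
      exact mul_ne_zero two_ne_zero (pow_ne_zero 2 D.l0) hl
    have h3 : (ip (B + x + y') r = -1 ∧ ip (B + x + y') s = 0) ∨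
        (ip (B + x + y') r = 0 ∧ ip (B + x + y') s = -1) := by
      rcases int_small (by nlinarith [sq_nonneg (ip (B + x + y') s)] : ip (B + x + y') r ^ 2 ≤ 1) with
        h | h | h
      · left; exact ⟨h, by omega⟩
      · right; exact ⟨h, by omega⟩
      · have : ip (B + x + y') s = -2 := by omega
        rw [h, this] at h2; norm_num at h2
    rcases h3 with ⟨h3, -⟩ | ⟨-, h3⟩
    · apply fin r hr hry'
      rw [← eq_neg_of_ip he hr h3]; abel
    · apply fin s hs hsy'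
      rw [← eq_neg_of_ip he hs h3]; abel

end Dat

end Cfsg.Agent.H431.Alt
end

-- part: H431/AltEmbed
section
/-!
# The decomposition of the exceptional characters, third part
-/

set_option autoImplicit false

namespace Cfsg.Agent.H431.Alt

theorem int_abs_le_one {a : ℤ} (h : a ^ 2 ≤ 3) : a = -1 ∨ a = 0 ∨ a = 1 := by
  have h1 : a ≤ 1 := by nlinarith
  have h2 : -1 ≤ a := by nlinarith
  omega

theorem intP {q1 q2 q3 q4 q5 q6 q7 : ℤ}
    (h : q1 ^ 2 + q2 ^ 2 + q3 ^ 2 + q4 ^ 2 + q5 ^ 2 + q6 ^ 2 + q7 ^ 2 ≤ 3)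
    (h1 : q1 - q2 = 1) (h2 : q3 = q4) (h3 : q5 + q6 - q3 = -1) (h4 : q3 - q1 + q7 = -1) :
    ((q1 = 1 ∧ q2 = 0 ∧ q7 = 0) ∨ (q1 = 0 ∧ q2 = -1 ∧ q7 = -1)) ∧ q3 = 0 ∧ q4 = 0 ∧
      ((q5 = -1 ∧ q6 = 0) ∨ (q5 = 0 ∧ q6 = -1)) := by
  have s1 := sq_nonneg q1
  have s2 := sq_nonneg q2
  have s3 := sq_nonneg q3
  have s4 := sq_nonneg q4
  have s5 := sq_nonneg q5
  have s6 := sq_nonneg q6
  have s7 := sq_nonneg q7
  have e1 := int_abs_le_one (by linarith : q1 ^ 2 ≤ 3)
  have e3 := int_abs_le_one (by linarith : q3 ^ 2 ≤ 3)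
  have e5 := int_abs_le_one (by linarith : q5 ^ 2 ≤ 3)
  clear s1 s2 s3 s4 s5 s6 s7
  obtain rfl : q2 = q1 - 1 := by omega
  obtain rfl : q6 = q3 - 1 - q5 := by omega
  obtain rfl : q7 = q1 - q3 - 1 := by omega
  obtain rfl : q4 = q3 := by omega
  rcases e1 with rfl | rfl | rfl <;> rcases e3 with rfl | rfl | rfl <;>
    rcases e5 with rfl | rfl | rfl <;> first | (norm_num at h; done) | norm_num

theorem intR {q1 q2 q3 q4 q5 q6 q7 : ℤ}
    (h : q1 ^ 2 + q2 ^ 2 + q3 ^ 2 + q4 ^ 2 + q5 ^ 2 + q6 ^ 2 + q7 ^ 2 ≤ 3)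
    (h1 : q1 - q2 = 1) (h2 : q3 = q4) (h3 : q5 + q6 - q3 = 1) (h4 : q3 - q1 + q7 = -1) :
    (((q1 = 1 ∧ q2 = 0 ∧ q7 = 0) ∨ (q1 = 0 ∧ q2 = -1 ∧ q7 = -1)) ∧ q3 = 0 ∧ q4 = 0 ∧
      ((q5 = 1 ∧ q6 = 0) ∨ (q5 = 0 ∧ q6 = 1))) ∨
    (q1 = 0 ∧ q2 = -1 ∧ q3 = -1 ∧ q4 = -1 ∧ q5 = 0 ∧ q6 = 0 ∧ q7 = 0) := by
  have s1 := sq_nonneg q1
  have s2 := sq_nonneg q2
  have s3 := sq_nonneg q3
  have s4 := sq_nonneg q4
  have s5 := sq_nonneg q5
  have s6 := sq_nonneg q6
  have s7 := sq_nonneg q7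
  have e1 := int_abs_le_one (by linarith : q1 ^ 2 ≤ 3)
  have e3 := int_abs_le_one (by linarith : q3 ^ 2 ≤ 3)
  have e5 := int_abs_le_one (by linarith : q5 ^ 2 ≤ 3)
  clear s1 s2 s3 s4 s5 s6 s7
  obtain rfl : q2 = q1 - 1 := by omega
  obtain rfl : q6 = q3 + 1 - q5 := by omega
  obtain rfl : q7 = q1 - q3 - 1 := by omega
  obtain rfl : q4 = q3 := by omega
  rcases e1 with rfl | rfl | rfl <;> rcases e3 with rfl | rfl | rfl <;>
    rcases e5 with rfl | rfl | rfl <;> first | (norm_num at h; done) | norm_num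

attribute [local irreducible] ip lin

variable {ι : Type*} [Fintype ι]

/-- the normalized frame -/
structure Fr {F : Type*} [Field F] [DecidableEq ι] (o : ι) (g h : ι → F)
    (β γ A B : ι → ℤ) (u : Fin 8 → ι → ℤ) : Prop where
  on : ∀ a b, ip (u a) (u b) = if a = b then 1 else 0
  u0 : u 0 = Pi.single o 1
  hβ : β = u 1 - u 2
  hγ : γ = u 3 - u 4
  hA : A = u 5 + u 6 - u 3
  hB : B = u 3 - u 1 + u 7
  g3 : lin g (u 3) = 0
  g5 : lin g (u 5) = 0
  g6 : lin g (u 6) = 0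
  h3 : lin h (u 3) = 0
  h7 : lin h (u 7) = 0

namespace Dat

variable {F : Type*} [Field F] [CharZero F] [DecidableEq ι] {o : ι} {f : ι → ℤ} {g h : ι → F} {l k : F}
  {β γ A B P R : ι → ℤ}

set_option maxHeartbeats 1000000 in
theorem exists_Fr (D : Dat o f g h l k β γ A B P R) : ∃ (a b : F) (u : Fin 8 → ι → ℤ),
    Fr o (fun i => g i - a * f i) (fun i => h i - b * f i) β γ A B u := by
  obtain ⟨x, x', y, y', r, s, e, hx, hx', hy, hy', hr, hs, he, xx', xy, xy', xr, xs, xe, x'y, x'y',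
    x'r, x's, x'e, yy', yr, ys, ye, y'r, y's, y'e, rs, re, se, hβ, hγ, hA, hB⟩ := D.exists_frame
  have hω : ip (Pi.single o 1 : ι → ℤ) (Pi.single o 1) = 1 := by
    rw [ip_single]; simp
  have hval : ∀ m : ι → ℤ, ip (Pi.single o 1) m = m o := by
    intro m; rw [ip_comm, ip_single]
  have two : ∀ u v : ι → ℤ, ip u u = 1 → ip v v = 1 → ip u v = 0 → (u o) ^ 2 + (v o) ^ 2 ≤ 1 := by
    intro u v h1 h2 h3
    have := bes2 h1 h2 h3 (Pi.single o 1)
    rwa [hω, hval, hval] at this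
  have ox : x o = 0 ∧ x' o = 0 := by
    have h1 := D.bo
    rw [hβ, Pi.sub_apply] at h1
    have h2 := two x x' hx hx' xx'
    rcases int_small (by nlinarith [sq_nonneg (x' o)] : (x o) ^ 2 ≤ 1) with h | h | h
    · have : x' o = -1 := by omega
      rw [h, this] at h2; norm_num at h2
    · exact ⟨h, by omega⟩
    · have : x' o = 1 := by omega
      rw [h, this] at h2; norm_num at h2
  have oy : y o = 0 ∧ y' o = 0 := by
    have h1 := D.co
    rw [hγ, Pi.sub_apply] at h1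
    have h2 := two y y' hy hy' yy'
    rcases int_small (by nlinarith [sq_nonneg (y' o)] : (y o) ^ 2 ≤ 1) with h | h | h
    · have : y' o = -1 := by omega
      rw [h, this] at h2; norm_num at h2
    · exact ⟨h, by omega⟩
    · have : y' o = 1 := by omega
      rw [h, this] at h2; norm_num at h2
  have ors : r o = 0 ∧ s o = 0 := by
    have h1 := D.Ao
    rw [hA, Pi.sub_apply, Pi.add_apply, oy.1] at h1
    have h2 := two r s hr hs rs
    rcases int_small (by nlinarith [sq_nonneg (s o)] : (r o) ^ 2 ≤ 1) with h | h | h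
    · have : s o = 1 := by omega
      rw [h, this] at h2; norm_num at h2
    · exact ⟨h, by omega⟩
    · have : s o = -1 := by omega
      rw [h, this] at h2; norm_num at h2
  have oe : e o = 0 := by
    have h1 := D.Bo
    rw [hB, Pi.add_apply, Pi.sub_apply, oy.1, ox.1] at h1
    omega
  -- ratios
  have hX := ip_ne_zero D.fpos hr
  have hY := ip_ne_zero D.fpos hs
  have hZ := ip_ne_zero D.fpos hy
  have hE := ip_ne_zero D.fpos he
  have hC := ip_ne_zero D.fpos hx
  have hX' : (ip r f : F) ≠ 0 := by exact_mod_cast hX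
  have hY' : (ip s f : F) ≠ 0 := by exact_mod_cast hY
  have hZ' : (ip y f : F) ≠ 0 := by exact_mod_cast hZ
  have hE' : (ip e f : F) ≠ 0 := by exact_mod_cast hE
  have hC' : (ip x f : F) ≠ 0 := by exact_mod_cast hC
  have hratio : lin g r * (ip y f : F) = lin g y * (ip r f : F) ∧
      lin g s * (ip y f : F) = lin g y * (ip s f : F) := by
    have hfA := D.fA
    have hgA := D.gA
    have hPA := D.Agg
    rw [hA, ip_sub_left, ip_add_left] at hfA
    rw [hA, lin_sub, lin_add] at hgA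
    rw [hA, Phi_sub, Phi_add, Phi_unit _ _ hr, Phi_unit _ _ hs, Phi_unit _ _ hy] at hPA
    have hfA' : (ip y f : F) = ip r f + ip s f := by
      have : ip y f = ip r f + ip s f := by linarith
      rw [this]; push_cast; ring
    have hgA' : lin g y = lin g r + lin g s := by linear_combination -hgA
    have hratio : lin g r * (ip s f : F) = lin g s * (ip r f : F) := by
      have h3 : (lin g r * (ip s f : F) - lin g s * (ip r f : F)) ^ 2 = 0 := by
        rw [hfA', hgA'] at hPA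
        rw [hfA'] at hZ'
        field_simp at hPA
        linear_combination hPA
      have h4 := pow_eq_zero_iff (two_ne_zero) |>.1 h3
      linear_combination h4
    constructor
    · rw [hfA', hgA']; linear_combination hratio
    · rw [hfA', hgA']; linear_combination -hratio
  have hratioB : lin h e * (ip y f : F) = lin h y * (ip e f : F) := by
    have hfB := D.fB
    have hhB := D.hB
    have hPB := D.Bhh
    rw [hB, ip_add_left, ip_sub_left] at hfB
    rw [hB, lin_add, lin_sub] at hhB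
    rw [hB, Phi_add, Phi_sub, Phi_unit _ _ hy, Phi_unit _ _ hx, Phi_unit _ _ he] at hPB
    have hfB' : (ip x f : F) = ip y f + ip e f := by
      have : ip x f = ip y f + ip e f := by linarith
      rw [this]; push_cast; ring
    have hhB' : lin h x = lin h y + lin h e := by linear_combination -hhB
    have h3 : (lin h e * (ip y f : F) - lin h y * (ip e f : F)) ^ 2 = 0 := by
      rw [hfB', hhB'] at hPB
      rw [hfB'] at hC'
      field_simp at hPB
      linear_combination hPB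
    have h4 := pow_eq_zero_iff (two_ne_zero) |>.1 h3
    linear_combination h4
  refine ⟨lin g y / ip y f, lin h y / ip y f, ![Pi.single o 1, x, x', y, y', r, s, e], ?_⟩
  constructor
  · have c := fun (p q : ι → ℤ) => ip_comm p q
    intro a b
    fin_cases a <;> fin_cases b <;>
      first
      | exact hω | exact hx | exact hx' | exact hy | exact hy' | exact hr | exact hs | exact he
      | exact (hval _).trans ox.1 | exact (hval _).trans ox.2 | exact (hval _).trans oy.1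
      | exact (hval _).trans oy.2 | exact (hval _).trans ors.1 | exact (hval _).trans ors.2
      | exact (hval _).trans oe
      | exact (ip_single _ _).trans ox.1 | exact (ip_single _ _).trans ox.2
      | exact (ip_single _ _).trans oy.1
      | exact (ip_single _ _).trans oy.2 | exact (ip_single _ _).trans ors.1
      | exact (ip_single _ _).trans ors.2 | exact (ip_single _ _).trans oe
      | exact xx' | exact xy | exact xy' | exact xr | exact xs | exact xe
      | exact x'y | exact x'y' | exact x'r | exact x's | exact x'e | exact yy' | exact yr | exact ys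
      | exact ye | exact y'r | exact y's | exact y'e | exact rs | exact re | exact se
      | exact (c _ _).trans xx' | exact (c _ _).trans xy | exact (c _ _).trans xy'
      | exact (c _ _).trans xr | exact (c _ _).trans xs | exact (c _ _).trans xe
      | exact (c _ _).trans x'y | exact (c _ _).trans x'y' | exact (c _ _).trans x'r
      | exact (c _ _).trans x's | exact (c _ _).trans x'e | exact (c _ _).trans yy'
      | exact (c _ _).trans yr | exact (c _ _).trans ys | exact (c _ _).trans ye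
      | exact (c _ _).trans y'r | exact (c _ _).trans y's | exact (c _ _).trans y'e
      | exact (c _ _).trans rs | exact (c _ _).trans re | exact (c _ _).trans se
  · rfl
  · exact hβ
  · exact hγ
  · exact hA
  · exact hB
  · show lin _ y = 0
    rw [lin_sub_smul]; field_simp; ring
  · show lin _ r = 0
    rw [lin_sub_smul]; field_simp; linear_combination hratio.1
  · show lin _ s = 0
    rw [lin_sub_smul]; field_simp; linear_combination hratio.2
  · show lin _ y = 0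
    rw [lin_sub_smul]; field_simp; ring
  · show lin _ e = 0
    rw [lin_sub_smul]; field_simp; linear_combination hratioB

omit [CharZero F] in
/-- the swapped frame -/
theorem _root_.Cfsg.Agent.H431.Alt.Fr.swap {u : Fin 8 → ι → ℤ} (U : Fr o g h β γ A B u) :
    Fr o g h β γ A B (u ∘ Equiv.swap 5 6) where
  on := by
    intro a b
    rw [Function.comp, Function.comp, U.on]
    simp
  u0 := U.u0
  hβ := U.hβ
  hγ := U.hγ
  hA := by
    show A = u 6 + u 5 - u 3
    rw [U.hA]; abel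
  hB := U.hB
  g3 := U.g3
  g5 := U.g6
  g6 := U.g5
  h3 := U.h3
  h7 := U.h7

omit [CharZero F] in
theorem _root_.Cfsg.Agent.H431.Alt.Fr.bessel {u : Fin 8 → ι → ℤ} (U : Fr o g h β γ A B u) (m : ι → ℤ) :
    ip m (u 0) ^ 2 + ip m (u 1) ^ 2 + ip m (u 2) ^ 2 + ip m (u 3) ^ 2 + ip m (u 4) ^ 2 +
      ip m (u 5) ^ 2 + ip m (u 6) ^ 2 + ip m (u 7) ^ 2 ≤ ip m m := by
  have := ip_bessel u U.on m
  rwa [Fin.sum_univ_eight] at this

/-- the coefficients of `P` -/
theorem coefP (D : Dat o f g h l k β γ A B P R) {u : Fin 8 → ι → ℤ} (U : Fr o g h β γ A B u) :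
    ip P (u 0) = 1 ∧ ((ip P (u 1) = 1 ∧ ip P (u 2) = 0 ∧ ip P (u 7) = 0) ∨
      (ip P (u 1) = 0 ∧ ip P (u 2) = -1 ∧ ip P (u 7) = -1)) ∧ ip P (u 3) = 0 ∧ ip P (u 4) = 0 ∧
      ((ip P (u 5) = -1 ∧ ip P (u 6) = 0) ∨ (ip P (u 5) = 0 ∧ ip P (u 6) = -1)) := by
  have h0 : ip P (u 0) = 1 := by rw [U.u0, ip_single, D.Po]
  have h1 := D.Pb
  have h2 := D.Pc
  have h3 := D.PA
  have h4 := D.PB
  rw [U.hβ, ip_sub_right] at h1
  rw [U.hγ, ip_sub_right] at h2
  rw [U.hA, ip_sub_right, ip_add_right] at h3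
  rw [U.hB, ip_add_right, ip_sub_right] at h4
  have h5 := U.bessel P
  rw [D.PP, h0] at h5
  exact ⟨h0, intP (by linarith) h1 (by linarith) h3 h4⟩

/-- the coefficients of `R` -/
theorem coefR (D : Dat o f g h l k β γ A B P R) {u : Fin 8 → ι → ℤ} (U : Fr o g h β γ A B u) :
    ip R (u 0) = 1 ∧ (((ip R (u 1) = 1 ∧ ip R (u 2) = 0 ∧ ip R (u 7) = 0) ∨
      (ip R (u 1) = 0 ∧ ip R (u 2) = -1 ∧ ip R (u 7) = -1)) ∧ ip R (u 3) = 0 ∧ ip R (u 4) = 0 ∧
      ((ip R (u 5) = 1 ∧ ip R (u 6) = 0) ∨ (ip R (u 5) = 0 ∧ ip R (u 6) = 1)) ∨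
      (ip R (u 1) = 0 ∧ ip R (u 2) = -1 ∧ ip R (u 3) = -1 ∧ ip R (u 4) = -1 ∧ ip R (u 5) = 0 ∧
        ip R (u 6) = 0 ∧ ip R (u 7) = 0)) := by
  have h0 : ip R (u 0) = 1 := by rw [U.u0, ip_single, D.Ro]
  have h1 := D.Rb
  have h2 := D.Rc
  have h3 := D.RA
  have h4 := D.RB
  rw [U.hβ, ip_sub_right] at h1
  rw [U.hγ, ip_sub_right] at h2
  rw [U.hA, ip_sub_right, ip_add_right] at h3
  rw [U.hB, ip_add_right, ip_sub_right] at h4
  have h5 := U.bessel R
  rw [D.RR, h0] at h5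
  exact ⟨h0, intR (by linarith) h1 (by linarith) h3 h4⟩

omit [CharZero F] in
/-- a vector of norm at most the sum of the squares of its coefficients -/
theorem _root_.Cfsg.Agent.H431.Alt.Fr.eq_sum {u : Fin 8 → ι → ℤ} (U : Fr o g h β γ A B u)
    (c : Fin 8 → ℤ) (m : ι → ℤ) (hm : ∀ a, ip m (u a) = c a) (hn : ip m m = ∑ a, c a ^ 2) :
    m = ∑ a, c a • u a := by
  have hsum : ∀ (z : ι → ℤ), ip z (∑ a, c a • u a) = ∑ a, c a * ip z (u a) := by
    intro z
    simp only [Fin.sum_univ_eight, ip_add_right, ip_smul_right]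
  have h1 : ip (m - ∑ a, c a • u a) (m - ∑ a, c a • u a) = 0 := by
    rw [ip_sub_left, ip_sub_right, ip_sub_right, ip_comm (∑ a, c a • u a) m, hsum m, hsum, hn]
    have h2 : ∀ b, ip (∑ a, c a • u a) (u b) = c b := by
      intro b
      rw [ip_comm, hsum]
      rw [Finset.sum_congr rfl fun a _ => by rw [U.on b a]]
      simp
    simp only [h2, hm]
    have h3 : ∑ a, c a ^ 2 = ∑ a, c a * c a := Finset.sum_congr rfl fun a _ => sq _
    rw [h3]
    ring
  exact sub_eq_zero.1 (eq_zero_of_ip_self h1)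

end Dat

end Cfsg.Agent.H431.Alt
end

-- part: H431/AltLatMain
section
/-!
# The lattice theorem

`Dat.exists_char`: the data of the six exceptional characters yield an irreducible character of
degree 2.
-/

set_option autoImplicit false

namespace Cfsg.Agent.H431.Alt

attribute [local irreducible] ip lin

variable {ι : Type*} [Fintype ι]

namespace Dat

variable {F : Type*} [Field F] [CharZero F] [DecidableEq ι] {o : ι} {f : ι → ℤ} {g h : ι → F} {l k : F}
  {β γ A B P R : ι → ℤ}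

omit [CharZero F] in
/-- common facts on the values on the frame -/
theorem vals (D : Dat o f g h l k β γ A B P R) {u : Fin 8 → ι → ℤ} (U : Fr o g h β γ A B u) :
    (∀ a, ip (u a) (u a) = 1) ∧ ip (u 0) f = 1 ∧ ip (u 2) f = ip (u 1) f ∧ ip (u 4) f = ip (u 3) f ∧
    ip (u 1) f = ip (u 7) f + ip (u 3) f ∧ ip (u 3) f = ip (u 5) f + ip (u 6) f ∧
    lin g (u 0) = g o ∧ lin g (u 1) = lin g (u 7) ∧ lin g (u 2) = lin g (u 7) ∧ lin g (u 4) = 0 ∧
    lin h (u 0) = h o ∧ lin h (u 1) = 0 ∧ lin h (u 6) = - lin h (u 5) := by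
  have hu : ∀ a, ip (u a) (u a) = 1 := fun a => by rw [U.on, if_pos rfl]
  have fb := D.fb
  have fc := D.fc
  have fA := D.fA
  have fB := D.fB
  rw [U.hβ, ip_sub_left] at fb
  rw [U.hγ, ip_sub_left] at fc
  rw [U.hA, ip_sub_left, ip_add_left] at fA
  rw [U.hB, ip_add_left, ip_sub_left] at fB
  have gb := D.gb
  have gc := D.gc
  have gB := D.gB
  rw [U.hβ, lin_sub] at gb
  rw [U.hγ, lin_sub, U.g3] at gc
  rw [U.hB, lin_add, lin_sub, U.g3] at gB
  have hA := D.hA
  have hB := D.hB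
  rw [U.hA, lin_sub, lin_add, U.h3] at hA
  rw [U.hB, lin_add, lin_sub, U.h3, U.h7] at hB
  refine ⟨hu, ?_, by linarith, by linarith, by linarith, by linarith, ?_, by linear_combination -gB,
    by linear_combination -gb - gB, by linear_combination -gc, ?_, by linear_combination -hB,
    by linear_combination hA⟩
  · rw [U.u0, ip_comm, ip_single, D.fo]
  · rw [U.u0, lin_single]
  · rw [U.u0, lin_single]

/-- the equation of `B` -/
theorem eqB (D : Dat o f g h l k β γ A B P R) {u : Fin 8 → ι → ℤ} (U : Fr o g h β γ A B u) :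
    lin g (u 7) ^ 2 / (ip (u 7) f : F) - lin g (u 7) ^ 2 / (ip (u 1) f : F) = 2 * l ^ 2 ∧
      lin g (u 7) ≠ 0 := by
  obtain ⟨hu, -, -, -, -, -, -, g1, -, -, -, -, -⟩ := D.vals U
  have h1 := D.Bgg
  rw [U.hB, Phi_add, Phi_sub, Phi_unit _ _ (hu 3), Phi_unit _ _ (hu 1), Phi_unit _ _ (hu 7), U.g3, g1] at h1
  have h2 : lin g (u 7) ^ 2 / (ip (u 7) f : F) - lin g (u 7) ^ 2 / (ip (u 1) f : F) = 2 * l ^ 2 := by
    rw [← h1]; ring
  refine ⟨h2, ?_⟩
  intro h3
  rw [h3] at h2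
  have : 2 * l ^ 2 = 0 := by rw [← h2]; simp
  exact mul_ne_zero two_ne_zero (pow_ne_zero 2 D.l0) this

theorem cast_inv {C E : ℤ} (hC : C ≠ 0) (hE : E ≠ 0) {a b c : ℕ}
    (h : (a : F) * (1 / (C : F)) + b * (1 / (E : F)) = c) : (a : ℚ) * (1 / (C : ℚ)) + b * (1 / (E : ℚ)) = c := by
  have hC' : (C : F) ≠ 0 := by exact_mod_cast hC
  have hE' : (E : F) ≠ 0 := by exact_mod_cast hE
  have hC'' : (C : ℚ) ≠ 0 := by exact_mod_cast hC
  have hE'' : (E : ℚ) ≠ 0 := by exact_mod_cast hE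
  field_simp at h ⊢
  exact_mod_cast h

/-- `P` has the natural form -/
theorem formP (D : Dat o f g h l k β γ A B P R) {u : Fin 8 → ι → ℤ} (U : Fr o g h β γ A B u) :
    ∃ (u : Fin 8 → ι → ℤ) (z : ι → ℤ), Fr o g h β γ A B u ∧ ip z z = 1 ∧ P = u 0 + u 1 - u 5 - z ∧
      (∀ a, ip z (u a) = 0) := by
  have key : ∀ u : Fin 8 → ι → ℤ, Fr o g h β γ A B u → ip P (u 5) = -1 → ip P (u 6) = 0 →
      ∃ (z : ι → ℤ), ip z z = 1 ∧ P = u 0 + u 1 - u 5 - z ∧ (∀ a, ip z (u a) = 0) := by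
    intro u U p5 p6
    obtain ⟨p0, hp, p3, p4, -⟩ := D.coefP U
    rcases hp with ⟨p1, p2, p7⟩ | ⟨p1, p2, p7⟩
    · refine ⟨u 0 + u 1 - u 5 - P, ?_, by abel, ?_⟩
      · simp only [ip_sub_left, ip_sub_right, ip_add_left, ip_add_right, U.on, ip_comm _ P, p0, p1, p5,
          D.PP]
        simp
      · intro a
        rw [ip_sub_left, ip_sub_left, ip_add_left, U.on, U.on, U.on]
        fin_cases a <;> simp [p0, p1, p2, p3, p4, p5, p6, p7]
    · exfalso
      have hP : P = u 0 - u 2 - u 5 - u 7 := by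
        rw [U.eq_sum ![1, 0, -1, 0, 0, -1, 0, -1] P
          (by intro a; fin_cases a <;> simp [p0, p1, p2, p3, p4, p5, p6, p7])
          (by rw [D.PP, Fin.sum_univ_eight]; simp), Fin.sum_univ_eight]
        simp
        abel
      obtain ⟨hu, f0, f2, f4, f1, f3, g0, g1, g2, g4, h0, h1, h6⟩ := D.vals U
      obtain ⟨hB, hG⟩ := D.eqB U
      have hg := D.gP
      have hgg := D.Pgg
      rw [hP, lin_sub, lin_sub, lin_sub, g0, g2, U.g5] at hg
      rw [hP, Phi_sub, Phi_sub, Phi_sub, Phi_unit _ _ (hu 0), Phi_unit _ _ (hu 2), Phi_unit _ _ (hu 5),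
        Phi_unit _ _ (hu 7), g0, g2, U.g5, f0, f2] at hgg
      have hg' : g o = 2 * lin g (u 7) := by linear_combination hg
      rw [hg'] at hgg
      have c1 := ip_ne_zero D.fpos (hu 1)
      have c7 := ip_ne_zero D.fpos (hu 7)
      have e1 : (1 : F) * (1 / (ip (u 1) f : F)) + 1 * (1 / (ip (u 7) f : F)) = 4 := by
        have : lin g (u 7) ^ 2 * ((1 : F) * (1 / (ip (u 1) f : F)) + 1 * (1 / (ip (u 7) f : F)) - 4) = 0 := by
          push_cast at hgg
          linear_combination -hgg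
        have := (mul_eq_zero.1 this).resolve_left (pow_ne_zero 2 hG)
        linear_combination this
      have e2 := cast_inv (F := F) c1 c7 (a := 1) (b := 1) (c := 4) (by push_cast; exact e1)
      have e3 := (int_inv_bound c1 c7).2
      apply e3
      push_cast at e2
      linarith
  obtain ⟨-, -, -, -, h⟩ := D.coefP U
  rcases h with ⟨h5, h6⟩ | ⟨h5, h6⟩
  · obtain ⟨z, h1, h2, h3⟩ := key u U h5 h6
    exact ⟨u, z, U, h1, h2, h3⟩
  · obtain ⟨z, h1, h2, h3⟩ := key _ U.swap h6 h5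
    exact ⟨_, z, U.swap, h1, h2, h3⟩

/-- `R` has the natural form -/
theorem formR (D : Dat o f g h l k β γ A B P R) {u : Fin 8 → ι → ℤ} (U : Fr o g h β γ A B u)
    {z : ι → ℤ} (hz : ip z z = 1) (hP : P = u 0 + u 1 - u 5 - z) (hzu : ∀ a, ip z (u a) = 0) :
    ∃ w, ip w w = 1 ∧ R = u 0 + u 1 + u 5 - w := by
  obtain ⟨hu, f0, f2, f4, f1, f3, g0, g1, g2, g4, h0, h1, h6⟩ := D.vals U
  obtain ⟨hB, hG⟩ := D.eqB U
  have c1 := ip_ne_zero D.fpos (hu 1)
  have c7 := ip_ne_zero D.fpos (hu 7)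
  have c3 := ip_ne_zero D.fpos (hu 3)
  have hRP := D.RP
  rw [hP, ip_sub_right, ip_sub_right, ip_add_right] at hRP
  obtain ⟨r0, hR⟩ := D.coefR U
  rcases hR with ⟨hr, r3, r4, h56⟩ | ⟨r1, r2, r3, r4, r5, r6, r7⟩
  · rcases hr with ⟨r1, r2, r7⟩ | ⟨r1, r2, r7⟩
    · rcases h56 with ⟨r5, r6⟩ | ⟨r5, r6⟩
      · refine ⟨u 0 + u 1 + u 5 - R, ?_, by abel⟩
        simp only [ip_sub_left, ip_sub_right, ip_add_left, ip_add_right, U.on, ip_comm _ R, r0, r1, r5,
          D.RR]
        simp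
      · exfalso
        have rz : ip R z = 1 := by rw [r0, r1, r5] at hRP; linarith
        have hR : R = u 0 + u 1 + u 6 + z := by
          have h1 : ip (R - u 0 - u 1 - u 6 - z) (R - u 0 - u 1 - u 6 - z) = 0 := by
            have hz' : ∀ a, ip (u a) z = 0 := fun a => by rw [ip_comm, hzu]
            simp only [ip_sub_left, ip_sub_right, U.on, ip_comm _ R, r0, r1, r6,
              D.RR, hzu, hz', rz, hz]
            simp
          have h2 := eq_zero_of_ip_self h1
          have h3 : R = (R - u 0 - u 1 - u 6 - z) + (u 0 + u 1 + u 6 + z) := by abel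
          rw [h2, zero_add] at h3
          exact h3
        have hgP := D.gP
        have hgR := D.gR
        have hgg := D.Pgg
        have hgg' := D.Rgg
        rw [hP, lin_sub, lin_sub, lin_add, g0, g1, U.g5] at hgP
        rw [hR, lin_add, lin_add, lin_add, g0, g1, U.g6] at hgR
        have gz : lin g z = 0 := by
          have : 2 * lin g z = 0 := by linear_combination hgR - hgP
          exact (mul_eq_zero.1 this).resolve_left two_ne_zero
        rw [hP, Phi_sub, Phi_sub, Phi_add, Phi_unit _ _ (hu 0), Phi_unit _ _ (hu 1), Phi_unit _ _ (hu 5),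
          Phi_unit _ _ hz, g0, g1, U.g5, gz] at hgg
        rw [hR, Phi_add, Phi_add, Phi_add, Phi_unit _ _ (hu 0), Phi_unit _ _ (hu 1), Phi_unit _ _ (hu 6),
          Phi_unit _ _ hz, g0, g1, U.g6, gz] at hgg'
        have : l ^ 2 = 0 := by linear_combination hgg - hgg'
        exact pow_ne_zero 2 D.l0 this
    · exfalso
      rcases h56 with ⟨r5, r6⟩ | ⟨r5, r6⟩
      · have hR : R = u 0 - u 2 + u 5 - u 7 := by
          rw [U.eq_sum ![1, 0, -1, 0, 0, 1, 0, -1] R
            (by intro a; fin_cases a <;> simp [r0, r1, r2, r3, r4, r5, r6, r7])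
            (by rw [D.RR, Fin.sum_univ_eight]; simp), Fin.sum_univ_eight]
          simp
          abel
        have rz : ip R z = 0 := by
          rw [hR, ip_sub_left, ip_add_left, ip_sub_left]
          simp only [ip_comm _ z, hzu]
          norm_num
        rw [r0, r1, r5, rz] at hRP
        norm_num at hRP
      · have hR : R = u 0 - u 2 + u 6 - u 7 := by
          rw [U.eq_sum ![1, 0, -1, 0, 0, 0, 1, -1] R
            (by intro a; fin_cases a <;> simp [r0, r1, r2, r3, r4, r5, r6, r7])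
            (by rw [D.RR, Fin.sum_univ_eight]; simp), Fin.sum_univ_eight]
          simp
          abel
        have hg := D.gR
        have hgg := D.Rgg
        rw [hR, lin_sub, lin_add, lin_sub, g0, g2, U.g6] at hg
        rw [hR, Phi_sub, Phi_add, Phi_sub, Phi_unit _ _ (hu 0), Phi_unit _ _ (hu 2), Phi_unit _ _ (hu 6),
          Phi_unit _ _ (hu 7), g0, g2, U.g6, f0, f2] at hgg
        have hg' : g o = 2 * lin g (u 7) := by linear_combination hg
        rw [hg'] at hgg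
        have e1 : (1 : F) * (1 / (ip (u 1) f : F)) + 3 * (1 / (ip (u 7) f : F)) = 8 := by
          have : lin g (u 7) ^ 2 * ((1 : F) * (1 / (ip (u 1) f : F)) + 3 * (1 / (ip (u 7) f : F)) - 8) = 0 := by
            push_cast at hgg
            linear_combination -2 * hgg + hB
          have := (mul_eq_zero.1 this).resolve_left (pow_ne_zero 2 hG)
          linear_combination this
        have e2 := cast_inv (F := F) c1 c7 (a := 1) (b := 3) (c := 8) (by push_cast; exact e1)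
        have e3 := (int_inv_bound c1 c7).1
        apply e3
        push_cast at e2
        linear_combination e2
  · exfalso
    have hR : R = u 0 - u 2 - u 3 - u 4 := by
      rw [U.eq_sum ![1, 0, -1, -1, -1, 0, 0, 0] R
        (by intro a; fin_cases a <;> simp [r0, r1, r2, r3, r4, r5, r6, r7])
        (by rw [D.RR, Fin.sum_univ_eight]; simp), Fin.sum_univ_eight]
      simp
      abel
    have hf := D.fR
    have hg := D.gR
    have hgg := D.Rgg
    rw [hR, ip_sub_left, ip_sub_left, ip_sub_left, f0, f2, f4] at hf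
    rw [hR, lin_sub, lin_sub, lin_sub, g0, g2, U.g3, g4] at hg
    rw [hR, Phi_sub, Phi_sub, Phi_sub, Phi_unit _ _ (hu 0), Phi_unit _ _ (hu 2), Phi_unit _ _ (hu 3),
      Phi_unit _ _ (hu 4), g0, g2, U.g3, g4, f0, f2] at hgg
    have hg' : g o = lin g (u 7) := by linear_combination hg
    rw [hg'] at hgg
    replace hgg : lin g (u 7) ^ 2 - lin g (u 7) ^ 2 / (ip (u 1) f : F) = l ^ 2 := by
      rw [← hgg]; push_cast; ring
    have c1' : (ip (u 1) f : F) ≠ 0 := by exact_mod_cast c1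
    have c7' : (ip (u 7) f : F) ≠ 0 := by exact_mod_cast c7
    have e1 : (ip (u 7) f : F) * (2 * (ip (u 1) f : F) - 1) = (ip (u 1) f : F) := by
      rw [← hgg] at hB
      field_simp at hB
      linear_combination -hB
    have e2 : ip (u 7) f * (2 * ip (u 1) f - 1) = ip (u 1) f := by exact_mod_cast e1
    have e3 : (6 * ip (u 1) f - 1) * (ip (u 1) f - 1) = 0 := by
      have : 2 * ip (u 7) f = 3 * ip (u 1) f - 1 := by linarith
      linear_combination 2 * e2 - (2 * ip (u 1) f - 1) * this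
    rcases mul_eq_zero.1 e3 with h | h
    · omega
    · apply c3
      omega

/-- **The lattice theorem.** -/
theorem exists_char (D : Dat o f g h l k β γ A B P R) :
    ∃ i, f i = 2 ∧ g i = 2 * g o ∧ A i = 0 ∧ B i = 1 := by
  obtain ⟨a, b, u₀, U₀⟩ := D.exists_Fr
  obtain ⟨g', hg'⟩ : ∃ g' : ι → F, g' = fun i => g i - a * f i := ⟨_, rfl⟩
  obtain ⟨h', hh'⟩ : ∃ h' : ι → F, h' = fun i => h i - b * f i := ⟨_, rfl⟩
  have D' : Dat o f g' h' l k β γ A B P R := by rw [hg', hh']; exact D.shift a b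
  rw [← hg', ← hh'] at U₀
  obtain ⟨u, z, U, hz, hP, hzu⟩ := D'.formP U₀
  obtain ⟨w, hw, hR⟩ := D'.formR U hz hP hzu
  obtain ⟨hu, f0, f2, f4, f1, f3, g0, g1, g2, g4, h0, h1, h6⟩ := D'.vals U
  have c1 := ip_ne_zero D.fpos (hu 1)
  have c3 := ip_ne_zero D.fpos (hu 3)
  have c5 := ip_ne_zero D.fpos (hu 5)
  have c6 := ip_ne_zero D.fpos (hu 6)
  have c7 := ip_ne_zero D.fpos (hu 7)
  have cz := ip_ne_zero D.fpos hz
  have cw := ip_ne_zero D.fpos hw
  have hl := D.l0
  have hk := D.k0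
  -- the values on `z` and `w`
  have fz : ip z f = 1 + ip (u 7) f + ip (u 6) f := by
    have := D.fP
    rw [hP, ip_sub_left, ip_sub_left, ip_add_left, f0] at this
    linarith
  have fw : ip w f = 1 + ip (u 7) f + 2 * ip (u 5) f + ip (u 6) f := by
    have := D.fR
    rw [hR, ip_sub_left, ip_add_left, ip_add_left, f0] at this
    linarith
  have gz : lin g' z = g' o + lin g' (u 7) := by
    have := D'.gP
    rw [hP, lin_sub, lin_sub, lin_add, g0, g1, U.g5] at this
    linear_combination -this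
  have gw : lin g' w = g' o + lin g' (u 7) := by
    have := D'.gR
    rw [hR, lin_sub, lin_add, lin_add, g0, g1, U.g5] at this
    linear_combination -this
  have hz' : lin h' z = h' o - lin h' (u 5) := by
    have := D'.hP
    rw [hP, lin_sub, lin_sub, lin_add, h0, h1] at this
    linear_combination -this
  have hw' : lin h' w = h' o + lin h' (u 5) := by
    have := D'.hR
    rw [hR, lin_sub, lin_add, lin_add, h0, h1] at this
    linear_combination -this
  have E1 := (D'.eqB U).1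
  have E2 := D'.Ahh
  have E3 := D'.Pgg
  have E4 := D'.Pgh
  have E5 := D'.Phh
  have E6 := D'.Rgg
  have E7 := D'.Rgh
  rw [U.hA, Phi_sub, Phi_add, Phi_unit _ _ (hu 5), Phi_unit _ _ (hu 6), Phi_unit _ _ (hu 3), h6, U.h3] at E2
  rw [hP, Phi_sub, Phi_sub, Phi_add, Phi_unit _ _ (hu 0), Phi_unit _ _ (hu 1), Phi_unit _ _ (hu 5),
    Phi_unit _ _ hz, f0] at E3 E4 E5
  rw [hR, Phi_sub, Phi_add, Phi_add, Phi_unit _ _ (hu 0), Phi_unit _ _ (hu 1), Phi_unit _ _ (hu 5),
    Phi_unit _ _ hw, f0] at E6 E7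
  rw [g0, g1, U.g5, gz] at E3 E4
  rw [h0, h1, hz'] at E4 E5
  rw [g0, g1, U.g5, gw] at E6 E7
  rw [h0, h1, hw'] at E7
  have c1' : (ip (u 1) f : F) ≠ 0 := by exact_mod_cast c1
  have c3' : (ip (u 3) f : F) ≠ 0 := by exact_mod_cast c3
  have c5' : (ip (u 5) f : F) ≠ 0 := by exact_mod_cast c5
  have c6' : (ip (u 6) f : F) ≠ 0 := by exact_mod_cast c6
  have c7' : (ip (u 7) f : F) ≠ 0 := by exact_mod_cast c7
  have cz' : (ip z f : F) ≠ 0 := by exact_mod_cast cz
  have cw' : (ip w f : F) ≠ 0 := by exact_mod_cast cw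
  have hN := alg_norm (D := (ip (u 7) f : F)) (X := (ip (u 5) f : F)) (Y := (ip (u 6) f : F))
    (Z := (ip (u 3) f : F)) (C := (ip (u 1) f : F)) (T := (ip z f : F)) (W := (ip w f : F))
    (ε := g' o / l) (G := lin g' (u 7) / l) (E := h' o / k) (K := lin h' (u 5) / k)
    c7' c5' c6' c3' c1' cz' cw' (by rw [f3]; push_cast; ring) (by rw [f1]; push_cast; ring)
    (by rw [fz]; push_cast; ring) (by rw [fw]; push_cast; ring)
    (by
      have : ∀ c : F, (lin g' (u 7) / l) ^ 2 / c = (lin g' (u 7) ^ 2 / c) / l ^ 2 := by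
        intro c; ring
      rw [this, this, ← sub_div, E1]
      field_simp)
    (by
      have : (g' o / l) ^ 2 + (lin g' (u 7) / l) ^ 2 / (ip (u 1) f : F) -
          (g' o / l + lin g' (u 7) / l) ^ 2 / (ip z f : F) = (g' o ^ 2 + lin g' (u 7) ^ 2 / (ip (u 1) f : F) -
          (g' o + lin g' (u 7)) ^ 2 / (ip z f : F)) / l ^ 2 := by ring
      rw [this]
      have h9 : g' o ^ 2 + lin g' (u 7) ^ 2 / (ip (u 1) f : F) -
          (g' o + lin g' (u 7)) ^ 2 / (ip z f : F) = 0 := by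
        rw [← E3]; push_cast; ring
      rw [h9, zero_div])
    (by
      have : (g' o / l) ^ 2 + (lin g' (u 7) / l) ^ 2 / (ip (u 1) f : F) -
          (g' o / l + lin g' (u 7) / l) ^ 2 / (ip w f : F) = (g' o ^ 2 + lin g' (u 7) ^ 2 / (ip (u 1) f : F) -
          (g' o + lin g' (u 7)) ^ 2 / (ip w f : F)) / l ^ 2 := by ring
      rw [this]
      have h9 : g' o ^ 2 + lin g' (u 7) ^ 2 / (ip (u 1) f : F) -
          (g' o + lin g' (u 7)) ^ 2 / (ip w f : F) = l ^ 2 := by
        rw [← E6]; push_cast; ring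
      rw [h9, div_self (pow_ne_zero 2 hl)])
    (by
      have : (lin h' (u 5) / k) ^ 2 / (ip (u 5) f : F) + (lin h' (u 5) / k) ^ 2 / (ip (u 6) f : F) =
        (lin h' (u 5) ^ 2 / (ip (u 5) f : F) + lin h' (u 5) ^ 2 / (ip (u 6) f : F)) / k ^ 2 := by ring
      rw [this]
      have h9 : lin h' (u 5) ^ 2 / (ip (u 5) f : F) + lin h' (u 5) ^ 2 / (ip (u 6) f : F) = 2 * k ^ 2 := by
        rw [← E2]; ring
      rw [h9]
      field_simp)
    (by
      have : (h' o / k) ^ 2 - (lin h' (u 5) / k) ^ 2 / (ip (u 5) f : F) -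
          (h' o / k - lin h' (u 5) / k) ^ 2 / (ip z f : F) = (h' o ^ 2 - lin h' (u 5) ^ 2 / (ip (u 5) f : F) -
          (h' o - lin h' (u 5)) ^ 2 / (ip z f : F)) / k ^ 2 := by ring
      rw [this]
      have h9 : h' o ^ 2 - lin h' (u 5) ^ 2 / (ip (u 5) f : F) -
          (h' o - lin h' (u 5)) ^ 2 / (ip z f : F) = 2 * k ^ 2 := by
        rw [← E5]; push_cast; ring
      rw [h9]
      field_simp)
    (by
      have : (g' o / l) * (h' o / k) -
          (g' o / l + lin g' (u 7) / l) * (h' o / k - lin h' (u 5) / k) / (ip z f : F) =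
          (g' o * h' o - (g' o + lin g' (u 7)) * (h' o - lin h' (u 5)) / (ip z f : F)) / (l * k) := by ring
      rw [this]
      have h9 : g' o * h' o - (g' o + lin g' (u 7)) * (h' o - lin h' (u 5)) / (ip z f : F) =
          2 * (l * k) := by
        rw [← E4]; push_cast; ring
      rw [h9]
      field_simp)
    (by
      have : (g' o / l) * (h' o / k) -
          (g' o / l + lin g' (u 7) / l) * (h' o / k + lin h' (u 5) / k) / (ip w f : F) =
          (g' o * h' o - (g' o + lin g' (u 7)) * (h' o + lin h' (u 5)) / (ip w f : F)) / (l * k) := by ring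
      rw [this]
      have h9 : g' o * h' o - (g' o + lin g' (u 7)) * (h' o + lin h' (u 5)) / (ip w f : F) =
          l * k := by
        rw [← E7]; push_cast; ring
      rw [h9, div_self (mul_ne_zero hl hk)])
  obtain ⟨n1, n2⟩ := hN
  have n1' : ip (u 7) f = 2 := by exact_mod_cast n1
  have n2' : lin g' (u 7) = 2 * g' o := by
    field_simp at n2
    linear_combination n2
  obtain ⟨i, hi | hi⟩ := unit_cases (hu 7)
  · refine ⟨i, ?_, ?_, ?_, ?_⟩
    · rw [hi, ip_comm, ip_single] at n1'; exact n1'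
    · rw [hi, lin_single, hg'] at n2'
      beta_reduce at n2'
      rw [hi, ip_comm, ip_single] at n1'
      rw [n1', D.fo] at n2'
      push_cast at n2'
      linear_combination n2'
    · have : A i = ip A (u 7) := by rw [hi, ip_single]
      rw [this, U.hA, ip_sub_left, ip_add_left, U.on, U.on, U.on]
      simp
    · have : B i = ip B (u 7) := by rw [hi, ip_single]
      rw [this, U.hB, ip_add_left, ip_sub_left, U.on, U.on, U.on]
      simp
  · exfalso
    rw [hi, ip_neg_left, ip_comm, ip_single] at n1'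
    have := D.fpos i
    omega

end Dat

end Cfsg.Agent.H431.Alt
end

-- part: H431/AltInd
section
/-!
# Induction from a subgroup `3^3 : S_4` with controlled fusion
-/

set_option autoImplicit false

open Cfsg

namespace Cfsg.Agent.H431.Alt

open Cfsg.Agent.Characters.Core Cfsg.Agent.OddOrderCharacters.VChar
open Cfsg.Agent.H431.ExcChar Cfsg.Agent.OddOrderCharacters.IndRes

open scoped ComplexConjugate

attribute [local irreducible] cl EE NN af

theorem Cyc.supp {n : ℕ} [NeZero n] {c : Fin n → Q} {l : V3} {v : Fin n → ℂ} (h : Cyc c l v)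
    (hD : ∀ k u, dt l u ≠ 0 → DD ⟨u, c k⟩) {x : Md} (hx : h.ch x ≠ 0) : DD x := by
  rw [Cyc.ch, h.linDat.th_apply] at hx
  obtain ⟨y, -, hy⟩ := Finset.exists_ne_zero_of_sum_ne_zero (right_ne_zero_of_mul hx)
  apply DD_conj y
  generalize y⁻¹ * x * y = z at hy
  unfold af at hy
  have h1 := left_ne_zero_of_mul hy
  have h2 := right_ne_zero_of_mul hy
  have h3 : z.M ∈ h.sub := by
    by_contra hcon
    exact h2 (h.linDat.out _ hcon)
  obtain ⟨k, hk⟩ := h3
  have h4 : z = ⟨z.u, c k⟩ := Sd.ext rfl hk.symm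
  rw [h4]
  apply hD
  intro h5
  apply h1
  rw [lam_apply, h5]
  simp

section

variable {G : Type*} [Group G]

variable {H : Subgroup G} (E : H ≃* Md)

/-- the two involutions -/
def kk (x : Md) : G := ((E.symm x : H) : G)

theorem kk_mul (x y : Md) : kk E (x * y) = kk E x * kk E y := by
  unfold kk
  rw [map_mul]
  rfl

theorem kk_mem (x : Md) : kk E x ∈ H := (E.symm x).2

theorem kk_injective : Function.Injective (kk E) := fun _ _ h =>
  E.symm.injective (Subtype.ext h)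

theorem kk_inv (x : Md) : kk E x⁻¹ = (kk E x)⁻¹ := by
  unfold kk
  rw [map_inv]
  rfl

theorem kk_one : kk E 1 = 1 := by
  unfold kk
  rw [map_one]
  rfl

theorem kk_pow (x : Md) (n : ℕ) : kk E (x ^ n) = (kk E x) ^ n := by
  unfold kk
  rw [map_pow]
  rfl

theorem exists_kk {g : G} (hg : g ∈ H) : ∃ x, kk E x = g :=
  ⟨E ⟨g, hg⟩, by unfold kk; rw [MulEquiv.symm_apply_apply]⟩

/-- the hypotheses on fusion -/
structure Fus3 : Prop where
  fus : ∀ x : Md, DD x → ∀ g : G, g * kk E x * g⁻¹ ∈ H → g ∈ H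
  vt : ∀ g : G, g * kk E xv * g⁻¹ ≠ kk E xt

variable [Fintype G] [Fintype H]

/-- the induced function -/
noncomputable def YY3 (θ : Md → ℂ) : G → ℂ := indFun H (fun y => θ (E y))

variable {E} {θ θ' : Md → ℂ}

omit [Fintype H] in
theorem gen_YY3 (hθ : IsGeneralizedCharacter Md θ) : IsGeneralizedCharacter G (YY3 E θ) :=
  isGeneralizedCharacter_indFun H (gen_comp (E : H →* Md) hθ)

omit [Fintype H] in
theorem YY3_sub (θ θ' : Md → ℂ) : YY3 E (θ - θ') = YY3 E θ - YY3 E θ' :=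
  indFun_sub H (fun y => θ (E y)) (fun y => θ' (E y))

omit [Fintype G] in
theorem inner_comp (θ θ' : Md → ℂ) :
    classInner (fun y : H => θ (E y)) (fun y : H => θ' (E y)) = classInner θ θ' := by
  rw [classInner_def, classInner_def, Nat.card_congr E.toEquiv]
  congr 1
  exact Equiv.sum_comp E.toEquiv (fun x => θ x * conj (θ' x))

theorem inner_YY3 (F : Fus3 E) (hθ' : IsGeneralizedCharacter Md θ') (hs : ∀ x, θ x ≠ 0 → DD x) :
    classInner (YY3 E θ) (YY3 E θ') = classInner θ θ' := by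
  have hcl : IsClassFunction H (fun y : H => θ' (E y)) :=
    gen_isClassFunction (gen_comp (E : H →* Md) hθ')
  rw [YY3, YY3, classInner_ind_ind H hcl, inner_comp]
  intro y hy g hg
  apply F.fus (E y) (hs _ hy)
  unfold kk
  rw [MulEquiv.symm_apply_apply]
  exact hg

theorem inner_YY3_one : classInner (YY3 E θ) 1 = classInner θ 1 := by
  rw [YY3, classInner_indFun_left H _ (isIrr_isClassFunction isIrr_one)]
  exact inner_comp θ 1

omit [Fintype G] [Fintype H] in
theorem kk_mul_self {x : Md} (hx : x * x = 1) : kk E x * kk E x = 1 := by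
  rw [← kk_mul, hx, kk_one]

omit [Fintype H] in
/-- the value at elements of order at most 2 -/
theorem YY3_eq_zero (hs : ∀ x, θ x ≠ 0 → DD x) {g : G} (hg : g * g = 1) : YY3 E θ g = 0 := by
  rw [YY3, indFun_apply, Finset.sum_eq_zero, mul_zero]
  intro x _
  by_cases hx : x⁻¹ * g * x ∈ H
  · rw [extendByZero_of_mem H _ hx]
    by_contra hcon
    apply not_DD _ (hs _ hcon)
    rw [← map_mul, ← map_one E]
    congr 1
    apply Subtype.ext
    show x⁻¹ * g * x * (x⁻¹ * g * x) = 1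
    calc _ = x⁻¹ * (g * g) * x := by group
      _ = 1 := by rw [hg]; group
  · exact extendByZero_of_notMem H _ hx

/-- number of elements conjugating `k` to `p` -/
theorem card_conj (k g : G) [DecidableEq G] :
    (Finset.univ.filter (fun a => a * k * a⁻¹ = g * k * g⁻¹)).card =
      Nat.card (Subgroup.centralizer ({k} : Set G)) := by
  classical
  rw [Nat.card_eq_fintype_card, Fintype.card_subtype]
  refine Finset.card_bij' (fun a _ => g⁻¹ * a) (fun a _ => g * a) ?_ ?_ ?_ ?_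
  · intro a ha
    rw [Finset.mem_filter] at ha ⊢
    refine ⟨Finset.mem_univ _, ?_⟩
    rw [Subgroup.mem_centralizer_singleton_iff]
    have h := ha.2
    calc g⁻¹ * a * k = g⁻¹ * (a * k * a⁻¹) * a := by group
      _ = g⁻¹ * (g * k * g⁻¹) * a := by rw [h]
      _ = k * (g⁻¹ * a) := by group
  · intro a ha
    rw [Finset.mem_filter, Subgroup.mem_centralizer_singleton_iff] at ha
    rw [Finset.mem_filter]
    refine ⟨Finset.mem_univ _, ?_⟩
    have h := ha.2
    calc g * a * k * (g * a)⁻¹ = g * (a * k) * a⁻¹ * g⁻¹ := by group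
      _ = g * (k * a) * a⁻¹ * g⁻¹ := by rw [h]
      _ = g * k * g⁻¹ := by group
  · intro a _; group
  · intro a _; group

/-- representatives of the classes of involutions -/
structure Rep (E : H ≃* Md) (T : Finset Q) (x₀ : Md) : Prop where
  mem : x₀ ∈ cl T
  trans : ∀ x ∈ cl T, ∃ y : Md, y * x * y⁻¹ = x₀
  fus : ∀ g : G, g * kk E x₀ * g⁻¹ ∈ H → ∃ x ∈ cl T, kk E x = g * kk E x₀ * g⁻¹

omit [Fintype G] [Fintype H] in
theorem invol_of_conj {x₀ : Md} (h2 : x₀ * x₀ = 1) (h1 : x₀ ≠ 1) {g : G}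
    {x : Md} (hx : kk E x = g * kk E x₀ * g⁻¹) : x * x = 1 ∧ x ≠ 1 := by
  constructor
  · apply kk_injective E
    rw [kk_mul, kk_one, hx]
    calc g * kk E x₀ * g⁻¹ * (g * kk E x₀ * g⁻¹) = g * (kk E x₀ * kk E x₀) * g⁻¹ := by group
      _ = 1 := by rw [kk_mul_self h2]; group
  · rintro rfl
    apply h1
    apply kk_injective E
    rw [kk_one] at hx ⊢
    calc kk E x₀ = g⁻¹ * (g * kk E x₀ * g⁻¹) * g := by group
      _ = 1 := by rw [← hx]; group

omit [Fintype G] [Fintype H] in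
theorem rep_v (F : Fus3 E) : Rep E Tv xv := by
  refine ⟨xv_mem, fun x hx => trans_cl Tv_trans hx, fun g hg => ?_⟩
  obtain ⟨x, hx⟩ := exists_kk E hg
  have h2 : xv * xv = 1 := (mem_cl.1 xv_mem).2
  have h1 : xv ≠ 1 := fun h => by
    have : xv.M = (1 : Md).M := by rw [h]
    exact absurd this (by decide)
  obtain ⟨h3, h4⟩ := invol_of_conj h2 h1 hx
  rcases exists_cl h3 h4 with h | h
  · exact ⟨x, h, hx⟩
  · exfalso
    obtain ⟨y, hy⟩ := trans_cl Tt_trans h
    apply F.vt (kk E y * g)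
    have : kk E (y * x * y⁻¹) = kk E xt := by rw [hy]; rfl
    rw [kk_mul, kk_mul, kk_inv, hx] at this
    rw [← this]
    group

omit [Fintype G] [Fintype H] in
theorem rep_t (F : Fus3 E) : Rep E Tt xt := by
  refine ⟨xt_mem, fun x hx => trans_cl Tt_trans hx, fun g hg => ?_⟩
  obtain ⟨x, hx⟩ := exists_kk E hg
  have h2 : xt * xt = 1 := (mem_cl.1 xt_mem).2
  have h1 : xt ≠ 1 := fun h => by
    have : xt.M = (1 : Md).M := by rw [h]
    exact absurd this (by decide)
  obtain ⟨h3, h4⟩ := invol_of_conj h2 h1 hx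
  rcases exists_cl h3 h4 with h | h
  · exfalso
    obtain ⟨y, hy⟩ := trans_cl Tv_trans h
    apply F.vt (kk E y * g)⁻¹
    have : kk E (y * x * y⁻¹) = kk E xv := by rw [hy]; rfl
    rw [kk_mul, kk_mul, kk_inv, hx] at this
    rw [← this]
    group
  · exact ⟨x, h, hx⟩

omit [Fintype H] in
theorem sum_conj_eq [DecidableEq G] (k : G) (f : G → ℂ) : ∑ a : G, f (a * k * a⁻¹) =
    ∑ p : G, ((Finset.univ.filter (fun a => a * k * a⁻¹ = p)).card : ℂ) * f p := by
  rw [← Finset.sum_fiberwise Finset.univ (fun a => a * k * a⁻¹)]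
  refine Finset.sum_congr rfl fun p _ => ?_
  rw [Finset.sum_congr rfl (fun a ha => by rw [(Finset.mem_filter.1 ha).2]), Finset.sum_const,
    nsmul_eq_mul]

omit [Fintype H] in
theorem class_sum_aux (θ : Md → ℂ) (k k' : G) :
    ∑ a : G, ∑ b : G, YY3 E θ (a * k * a⁻¹ * (b * k' * b⁻¹)) = (Nat.card H : ℂ)⁻¹ * ((Nat.card G : ℂ) *
      ∑ a : G, ∑ b : G, extendByZero H (fun y => θ (E y)) (a * k * a⁻¹ * (b * k' * b⁻¹))) := by
  have e1 : ∀ a b : G, YY3 E θ (a * k * a⁻¹ * (b * k' * b⁻¹)) = (Nat.card H : ℂ)⁻¹ *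
      ∑ x : G, extendByZero H (fun y => θ (E y)) (x⁻¹ * (a * k * a⁻¹ * (b * k' * b⁻¹)) * x) :=
    fun a b => indFun_apply H _ _
  rw [Finset.sum_congr rfl fun a _ => Finset.sum_congr rfl fun b _ => e1 a b]
  simp only [← Finset.mul_sum]
  congr 1
  rw [sum3 Finset.univ Finset.univ (fun x a b =>
    extendByZero H (fun y => θ (E y)) (x⁻¹ * (a * k * a⁻¹ * (b * k' * b⁻¹)) * x))]
  have e2 : ∀ x : G, ∑ a : G, ∑ b : G,
      extendByZero H (fun y => θ (E y)) (x⁻¹ * (a * k * a⁻¹ * (b * k' * b⁻¹)) * x) =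
      ∑ a : G, ∑ b : G, extendByZero H (fun y => θ (E y)) (a * k * a⁻¹ * (b * k' * b⁻¹)) := by
    intro x
    rw [← Equiv.sum_comp (Equiv.mulLeft x)]
    refine Finset.sum_congr rfl fun a _ => ?_
    rw [← Equiv.sum_comp (Equiv.mulLeft x)]
    refine Finset.sum_congr rfl fun b _ => ?_
    congr 1
    simp only [Equiv.coe_mulLeft]
    group
  rw [Finset.sum_congr rfl fun x _ => e2 x, Finset.sum_const, Finset.card_univ, nsmul_eq_mul,
    Nat.card_eq_fintype_card]

omit [Fintype H] in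
/-- **the class sums** -/
theorem class_sum (F : Fus3 E) {θ : Md → ℂ} (hs : ∀ x, θ x ≠ 0 → DD x) {T T' : Finset Q}
    {x₀ x₀' : Md} (R : Rep E T x₀) (R' : Rep E T' x₀') :
    ∑ a : G, ∑ b : G, YY3 E θ (a * kk E x₀ * a⁻¹ * (b * kk E x₀' * b⁻¹)) =
      (Nat.card G : ℂ) / (Nat.card H : ℂ) *
      ((Nat.card (Subgroup.centralizer ({kk E x₀} : Set G)) : ℂ) *
        (Nat.card (Subgroup.centralizer ({kk E x₀'} : Set G)) : ℂ)) *
      ∑ x ∈ cl T, ∑ y ∈ cl T', θ (x * y) := by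
  classical
  have h2 : x₀ * x₀ = 1 := (mem_cl.1 R.mem).2
  have h2' : x₀' * x₀' = 1 := (mem_cl.1 R'.mem).2
  rw [class_sum_aux]
  obtain ⟨ex, hex⟩ : ∃ ex : G → ℂ, ex = extendByZero H (fun y => θ (E y)) := ⟨_, rfl⟩
  obtain ⟨N, hN⟩ : ∃ N : G → ℂ, N = fun p =>
    ((Finset.univ.filter (fun a => a * kk E x₀ * a⁻¹ = p)).card : ℂ) := ⟨_, rfl⟩
  obtain ⟨N', hN'⟩ : ∃ N' : G → ℂ, N' = fun p =>
    ((Finset.univ.filter (fun a => a * kk E x₀' * a⁻¹ = p)).card : ℂ) := ⟨_, rfl⟩
  have e1 : ∑ a : G, ∑ b : G, extendByZero H (fun y => θ (E y))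
      (a * kk E x₀ * a⁻¹ * (b * kk E x₀' * b⁻¹)) = ∑ p : G, ∑ q : G, N p * N' q * ex (p * q) := by
    rw [← hex, sum_conj_eq (kk E x₀) (fun p => ∑ b : G, ex (p * (b * kk E x₀' * b⁻¹)))]
    refine Finset.sum_congr rfl fun p _ => ?_
    rw [sum_conj_eq (kk E x₀') (fun q => ex (p * q)), Finset.mul_sum, hN, hN']
    refine Finset.sum_congr rfl fun q _ => ?_
    ring
  have hNz : ∀ p, N p ≠ 0 → ∃ g : G, g * kk E x₀ * g⁻¹ = p := by
    intro p hp
    rw [hN] at hp
    beta_reduce at hp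
    have hp' : (Finset.univ.filter (fun a => a * kk E x₀ * a⁻¹ = p)).card ≠ 0 := by exact_mod_cast hp
    obtain ⟨a, ha⟩ := Finset.card_ne_zero.1 hp'
    exact ⟨a, (Finset.mem_filter.1 ha).2⟩
  have hNz' : ∀ p, N' p ≠ 0 → ∃ g : G, g * kk E x₀' * g⁻¹ = p := by
    intro p hp
    rw [hN'] at hp
    beta_reduce at hp
    have hp' : (Finset.univ.filter (fun a => a * kk E x₀' * a⁻¹ = p)).card ≠ 0 := by exact_mod_cast hp
    obtain ⟨a, ha⟩ := Finset.card_ne_zero.1 hp'
    exact ⟨a, (Finset.mem_filter.1 ha).2⟩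
  have hsq : ∀ {x : Md} (_ : x * x = 1) (g : G), (g * kk E x * g⁻¹) * (g * kk E x * g⁻¹) = 1 := by
    intro x hx g
    calc g * kk E x * g⁻¹ * (g * kk E x * g⁻¹) = g * (kk E x * kk E x) * g⁻¹ := by group
      _ = 1 := by rw [kk_mul_self hx]; group
  -- the nonzero terms
  have key : ∀ p q : G, N p * N' q * ex (p * q) ≠ 0 → p ∈ (cl T).image (kk E) ∧ q ∈ (cl T').image (kk E) := by
    intro p q h
    obtain ⟨g, hg⟩ := hNz p (left_ne_zero_of_mul (left_ne_zero_of_mul h))
    obtain ⟨g', hg'⟩ := hNz' q (right_ne_zero_of_mul (left_ne_zero_of_mul h))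
    have h3 := right_ne_zero_of_mul h
    have hpq : p * q ∈ H := by
      by_contra hcon
      rw [hex] at h3
      exact h3 (extendByZero_of_notMem H _ hcon)
    rw [hex, extendByZero_of_mem H _ hpq] at h3
    have hpp : p * p = 1 := by rw [← hg]; exact hsq h2 g
    have hqq : q * q = 1 := by rw [← hg']; exact hsq h2' g'
    have hkk : kk E (E ⟨p * q, hpq⟩) = p * q := by
      unfold kk
      rw [MulEquiv.symm_apply_apply]
    have hpH : p ∈ H := by
      apply F.fus _ (hs _ h3)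
      rw [hkk]
      have : p * (p * q) * p⁻¹ = (p * q)⁻¹ := by
        have hp' : p⁻¹ = p := inv_eq_of_mul_eq_one_left hpp
        have hq' : q⁻¹ = q := inv_eq_of_mul_eq_one_left hqq
        rw [mul_inv_rev, hp', hq', ← mul_assoc, hpp, one_mul]
      rw [this]
      exact inv_mem hpq
    have hqH : q ∈ H := (Subgroup.mul_mem_cancel_left H hpH).1 hpq
    rw [← hg] at hpH
    rw [← hg'] at hqH
    obtain ⟨x, hx, hx'⟩ := R.fus g hpH
    obtain ⟨y, hy, hy'⟩ := R'.fus g' hqH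
    exact ⟨Finset.mem_image.2 ⟨x, hx, hx'.trans hg⟩, Finset.mem_image.2 ⟨y, hy, hy'.trans hg'⟩⟩
  have e2 : ∑ p : G, ∑ q : G, N p * N' q * ex (p * q) =
      ∑ x ∈ cl T, ∑ y ∈ cl T', N (kk E x) * N' (kk E y) * ex (kk E x * kk E y) := by
    rw [← Finset.sum_subset (Finset.subset_univ ((cl T).image (kk E)))]
    · rw [Finset.sum_image (fun x _ y _ h => kk_injective E h)]
      refine Finset.sum_congr rfl fun x _ => ?_
      rw [← Finset.sum_subset (Finset.subset_univ ((cl T').image (kk E)))]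
      · rw [Finset.sum_image (fun x _ y _ h => kk_injective E h)]
      · intro q _ hq
        by_contra hcon
        exact hq (key _ _ hcon).2
    · intro p _ hp
      apply Finset.sum_eq_zero
      intro q _
      by_contra hcon
      exact hp (key _ _ hcon).1
  have hNx : ∀ x ∈ cl T, N (kk E x) = (Nat.card (Subgroup.centralizer ({kk E x₀} : Set G)) : ℂ) := by
    intro x hx
    obtain ⟨y, hy⟩ := R.trans x hx
    have h5 : kk E x = (kk E y)⁻¹ * kk E x₀ * ((kk E y)⁻¹)⁻¹ := by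
      rw [← hy, kk_mul, kk_mul, kk_inv]; group
    rw [hN, h5]
    beta_reduce
    exact_mod_cast card_conj (kk E x₀) (kk E y)⁻¹
  have hNx' : ∀ x ∈ cl T', N' (kk E x) = (Nat.card (Subgroup.centralizer ({kk E x₀'} : Set G)) : ℂ) := by
    intro x hx
    obtain ⟨y, hy⟩ := R'.trans x hx
    have h5 : kk E x = (kk E y)⁻¹ * kk E x₀' * ((kk E y)⁻¹)⁻¹ := by
      rw [← hy, kk_mul, kk_mul, kk_inv]; group
    rw [hN', h5]
    beta_reduce
    exact_mod_cast card_conj (kk E x₀') (kk E y)⁻¹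
  have hexx : ∀ x y : Md, ex (kk E x * kk E y) = θ (x * y) := by
    intro x y
    rw [← kk_mul, hex, extendByZero_of_mem H _ (kk_mem E _)]
    congr 1
    apply E.symm.injective
    rw [MulEquiv.symm_apply_apply]
    rfl
  rw [e1, e2]
  have e3 : ∑ x ∈ cl T, ∑ y ∈ cl T', N (kk E x) * N' (kk E y) * ex (kk E x * kk E y) =
      ((Nat.card (Subgroup.centralizer ({kk E x₀} : Set G)) : ℂ) *
        (Nat.card (Subgroup.centralizer ({kk E x₀'} : Set G)) : ℂ)) *
        ∑ x ∈ cl T, ∑ y ∈ cl T', θ (x * y) := by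
    rw [Finset.mul_sum]
    refine Finset.sum_congr rfl fun x hx => ?_
    rw [Finset.mul_sum]
    refine Finset.sum_congr rfl fun y hy => ?_
    rw [hNx x hx, hNx' y hy, hexx]
  rw [e3]
  ring

end

end Cfsg.Agent.H431.Alt
end

-- part: H431/AltTab
section
/-!
# The six exceptional characters of `3^3 : S_4`
-/

set_option autoImplicit false

open Cfsg

namespace Cfsg.Agent.H431.Alt

open Cfsg.Agent.Characters.Core Cfsg.Agent.OddOrderCharacters.VChar
open Cfsg.Agent.H431.ExcChar Cfsg.Agent.OddOrderCharacters.IndRes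

open scoped ComplexConjugate

open Complex

/-- a primitive cube root of unity -/
noncomputable def om : ℂ := ZMod.stdAddChar (1 : ZMod 3)

theorem om_sum : 1 + om + om ^ 2 = 0 := by
  have h := sum_std
  have e : ∑ r : ZMod 3, (ZMod.stdAddChar r : ℂ) = ZMod.stdAddChar (0 : ZMod 3) +
      ZMod.stdAddChar (1 : ZMod 3) + ZMod.stdAddChar (1 + 1 : ZMod 3) := by
    exact Fin.sum_univ_three (fun r : ZMod 3 => (ZMod.stdAddChar r : ℂ))
  rw [e, AddChar.map_zero_eq_one, AddChar.map_add_eq_mul] at h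
  rw [om]
  linear_combination h

theorem om_cube : om ^ 3 = 1 := by
  linear_combination (om - 1) * om_sum

theorem om_ne_one : om ≠ 1 := by
  intro h
  have := om_sum
  rw [h] at this
  norm_num at this

theorem om_ne_zero : om ≠ 0 := by
  intro h
  have := om_sum
  rw [h] at this
  norm_num at this

theorem conj_om : conj om = om ^ 2 := by
  have h1 : conj om = ZMod.stdAddChar (-1 : ZMod 3) := by
    rw [om, AddChar.map_neg_eq_conj]
  rw [h1, om]
  have : (-1 : ZMod 3) = 1 + 1 := by decide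
  rw [this, AddChar.map_add_eq_mul, sq]

/-- the values of the linear characters -/
noncomputable def vA : Fin 4 → ℂ := ![1, I, -1, -I]
noncomputable def vA' : Fin 4 → ℂ := ![1, -I, -1, I]
noncomputable def vP : Fin 4 → ℂ := ![1, 1, 1, 1]
noncomputable def vF : Fin 3 → ℂ := ![1, om, om ^ 2]
noncomputable def vF' : Fin 3 → ℂ := ![1, om ^ 2, om]
noncomputable def vG : Fin 2 → ℂ := ![1, 1]

theorem cU_inj : Function.Injective cU := by decide +kernel
theorem cU_zero : cU 0 = 1 := by decide +kernel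
theorem cU_add : ∀ i j, cU (i + j) = cU i * cU j := by decide +kernel
theorem cU_fix : ∀ i, cU i • lU = lU := by decide +kernel
theorem lU_ne : lU ≠ 0 := by decide +kernel
theorem cV_inj : Function.Injective cV := by decide +kernel
theorem cV_zero : cV 0 = 1 := by decide +kernel
theorem cV_add : ∀ i j, cV (i + j) = cV i * cV j := by decide +kernel
theorem cV_fix : ∀ i, cV i • lV = lV := by decide +kernel
theorem lV_ne : lV ≠ 0 := by decide +kernel
theorem cT_inj : Function.Injective cT := by decide +kernel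
theorem cT_zero : cT 0 = 1 := by decide +kernel
theorem cT_add : ∀ i j, cT (i + j) = cT i * cT j := by decide +kernel
theorem cT_fix : ∀ i, cT i • lT = lT := by decide +kernel
theorem lT_ne : lT ≠ 0 := by decide +kernel

theorem cycA : Cyc cU lU vA := ⟨cU_inj, cU_zero, cU_add, cU_fix, rfl, by
  intro i j
  have h : I * I = -1 := I_mul_I
  fin_cases i <;> fin_cases j <;> simp [vA, h], lU_ne⟩

theorem cycA' : Cyc cU lU vA' := ⟨cU_inj, cU_zero, cU_add, cU_fix, rfl, by
  intro i j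
  have h : I * I = -1 := I_mul_I
  fin_cases i <;> fin_cases j <;> simp [vA', h], lU_ne⟩

theorem cycP : Cyc cU lU vP := ⟨cU_inj, cU_zero, cU_add, cU_fix, rfl, by
  intro i j
  fin_cases i <;> fin_cases j <;> simp [vP], lU_ne⟩

theorem cycF : Cyc cV lV vF := ⟨cV_inj, cV_zero, cV_add, cV_fix, rfl, by
  intro i j
  have h3 := om_cube
  fin_cases i <;> fin_cases j <;> simp [vF] <;> first | ring1 | linear_combination -h3 |
    linear_combination -om * h3, lV_ne⟩

theorem cycF' : Cyc cV lV vF' := ⟨cV_inj, cV_zero, cV_add, cV_fix, rfl, by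
  intro i j
  have h3 := om_cube
  fin_cases i <;> fin_cases j <;> simp [vF'] <;> first | ring1 | linear_combination -h3 |
    linear_combination -om * h3, lV_ne⟩

theorem cycG : Cyc cT lT vG := ⟨cT_inj, cT_zero, cT_add, cT_fix, rfl, by
  intro i j
  fin_cases i <;> fin_cases j <;> simp [vG], lT_ne⟩

/-! ### supports -/

theorem cU_pow : ∀ k : Fin 4, ∀ u : V3, dt lU u ≠ 0 →
    ((⟨u, cU k⟩ : Md) * ⟨u, cU k⟩ * ⟨u, cU k⟩ * ⟨u, cU k⟩).M = 1 ∧
    ((⟨u, cU k⟩ : Md) * ⟨u, cU k⟩ * ⟨u, cU k⟩ * ⟨u, cU k⟩).u ≠ 0 := by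
  decide +kernel

theorem cV_pow : ∀ k : Fin 3, ∀ u : V3, dt lV u ≠ 0 → (cV k = 1 ∧ u ≠ 0) ∨
    (((⟨u, cV k⟩ : Md) * ⟨u, cV k⟩ * ⟨u, cV k⟩).M = 1 ∧
    ((⟨u, cV k⟩ : Md) * ⟨u, cV k⟩ * ⟨u, cV k⟩).u ≠ 0) := by
  decide +kernel

theorem cT_pow : ∀ k : Fin 2, ∀ u : V3, dt lT u ≠ 0 →
    ((⟨u, cT k⟩ : Md) * ⟨u, cT k⟩).M = 1 ∧
    ((⟨u, cT k⟩ : Md) * ⟨u, cT k⟩).u ≠ 0 := by
  decide +kernel

theorem DD_of {x : Md} (n : ℕ) (h1 : (x ^ n).M = 1) (h2 : (x ^ n).u ≠ 0) : DD x :=
  ⟨n, h1, fun h => h2 (by rw [h]; rfl)⟩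

theorem DU (k : Fin 4) (u : V3) (h : dt lU u ≠ 0) : DD ⟨u, cU k⟩ := by
  obtain ⟨h1, h2⟩ := cU_pow k u h
  have e : (⟨u, cU k⟩ : Md) ^ 4 = ⟨u, cU k⟩ * ⟨u, cU k⟩ * ⟨u, cU k⟩ * ⟨u, cU k⟩ := by
    rw [pow_succ, pow_succ, pow_succ, pow_one]
  exact DD_of 4 (by rw [e]; exact h1) (by rw [e]; exact h2)

theorem DV (k : Fin 3) (u : V3) (h : dt lV u ≠ 0) : DD ⟨u, cV k⟩ := by
  rcases cV_pow k u h with ⟨h1, h2⟩ | ⟨h1, h2⟩
  · exact DD_of 1 (by rw [pow_one]; exact h1) (by rw [pow_one]; exact h2)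
  · have e : (⟨u, cV k⟩ : Md) ^ 3 = ⟨u, cV k⟩ * ⟨u, cV k⟩ * ⟨u, cV k⟩ := by
      rw [pow_succ, pow_succ, pow_one]
    exact DD_of 3 (by rw [e]; exact h1) (by rw [e]; exact h2)

theorem DT (k : Fin 2) (u : V3) (h : dt lT u ≠ 0) : DD ⟨u, cT k⟩ := by
  obtain ⟨h1, h2⟩ := cT_pow k u h
  have e : (⟨u, cT k⟩ : Md) ^ 2 = ⟨u, cT k⟩ * ⟨u, cT k⟩ := by
    rw [pow_succ, pow_one]
  exact DD_of 2 (by rw [e]; exact h1) (by rw [e]; exact h2)

/-! ### the Gram matrix -/

theorem W_UU : ∀ k j, W cU lU cU lU k j =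
    ![![28, 0, 0, 0], ![0, 8, 0, 4], ![0, 0, 12, 0], ![0, 4, 0, 8]] k j := by
  decide +kernel
theorem W_VV : ∀ k j, W cV lV cV lV k j =
    ![![27, 0, 0], ![0, 6, 3], ![0, 3, 6]] k j := by
  decide +kernel
theorem W_TT : ∀ k j, W cT lT cT lT k j = ![![26, 0], ![0, 6]] k j := by
  decide +kernel
theorem W_UV : ∀ k j, W cU lU cV lV k j =
    ![![24, 0, 0], ![0, 0, 0], ![0, 0, 0], ![0, 0, 0]] k j := by
  decide +kernel
theorem W_UT : ∀ k j, W cU lU cT lT k j = ![![24, 0], ![0, 0], ![0, 0], ![0, 0]] k j := by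
  decide +kernel
theorem W_VT : ∀ k j, W cV lV cT lT k j = ![![24, 0], ![0, 0], ![0, 0]] k j := by
  decide +kernel

/-! evaluation of the inner products -/

theorem g_AA : classInner cycA.ch cycA.ch = 3 := by
  rw [cycA.inner_ch cycA]
  simp only [W_UU, Fin.sum_univ_four, vA]
  simp
  norm_num

theorem g_AA2 : classInner cycA.ch cycA'.ch = 2 := by
  rw [cycA.inner_ch cycA']
  simp only [W_UU, Fin.sum_univ_four, vA, vA']
  simp
  norm_num

theorem g_AP : classInner cycA.ch cycP.ch = 1 := by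
  rw [cycA.inner_ch cycP]
  simp only [W_UU, Fin.sum_univ_four, vA, vP]
  simp
  norm_num
  ring

theorem g_AF : classInner cycA.ch cycF.ch = 2 := by
  rw [cycA.inner_ch cycF]
  simp only [W_UV, Fin.sum_univ_four, Fin.sum_univ_three, vA, vF]
  simp
  norm_num

theorem g_AF2 : classInner cycA.ch cycF'.ch = 2 := by
  rw [cycA.inner_ch cycF']
  simp only [W_UV, Fin.sum_univ_four, Fin.sum_univ_three, vA, vF']
  simp
  norm_num

theorem g_AG : classInner cycA.ch cycG.ch = 3 := by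
  rw [cycA.inner_ch cycG]
  simp only [W_UT, Fin.sum_univ_four, Fin.sum_univ_two, vA, vG]
  simp
  norm_num

theorem g_A2A2 : classInner cycA'.ch cycA'.ch = 3 := by
  rw [cycA'.inner_ch cycA']
  simp only [W_UU, Fin.sum_univ_four, vA']
  simp
  norm_num

theorem g_A2P : classInner cycA'.ch cycP.ch = 1 := by
  rw [cycA'.inner_ch cycP]
  simp only [W_UU, Fin.sum_univ_four, vA', vP]
  simp
  norm_num
  ring

theorem g_A2F : classInner cycA'.ch cycF.ch = 2 := by
  rw [cycA'.inner_ch cycF]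
  simp only [W_UV, Fin.sum_univ_four, Fin.sum_univ_three, vA', vF]
  simp
  norm_num

theorem g_A2F2 : classInner cycA'.ch cycF'.ch = 2 := by
  rw [cycA'.inner_ch cycF']
  simp only [W_UV, Fin.sum_univ_four, Fin.sum_univ_three, vA', vF']
  simp
  norm_num

theorem g_A2G : classInner cycA'.ch cycG.ch = 3 := by
  rw [cycA'.inner_ch cycG]
  simp only [W_UT, Fin.sum_univ_four, Fin.sum_univ_two, vA', vG]
  simp
  norm_num

theorem g_PP : classInner cycP.ch cycP.ch = 4 := by
  rw [cycP.inner_ch cycP]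
  simp only [W_UU, Fin.sum_univ_four, vP]
  simp
  norm_num

theorem g_PF : classInner cycP.ch cycF.ch = 2 := by
  rw [cycP.inner_ch cycF]
  simp only [W_UV, Fin.sum_univ_four, Fin.sum_univ_three, vF, vP]
  simp
  norm_num

theorem g_PF2 : classInner cycP.ch cycF'.ch = 2 := by
  rw [cycP.inner_ch cycF']
  simp only [W_UV, Fin.sum_univ_four, Fin.sum_univ_three, vF', vP]
  simp
  norm_num

theorem g_PG : classInner cycP.ch cycG.ch = 3 := by
  rw [cycP.inner_ch cycG]
  simp only [W_UT, Fin.sum_univ_four, Fin.sum_univ_two, vG, vP]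
  simp
  norm_num

theorem g_FF : classInner cycF.ch cycF.ch = 4 := by
  rw [cycF.inner_ch cycF]
  simp only [W_VV, Fin.sum_univ_three, vF]
  simp [conj_om]
  have h3 := om_cube
  have h1 := om_sum
  linear_combination (1 / 9) * (6 + 3 * om ^ 2 + 3 * om + 6 * (om ^ 3 + 1)) * h3 + (1 / 3) * h1

theorem g_FF2 : classInner cycF.ch cycF'.ch = 3 := by
  rw [cycF.inner_ch cycF']
  simp only [W_VV, Fin.sum_univ_three, vF, vF']
  simp [conj_om]
  have h3 := om_cube
  have h1 := om_sum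
  linear_combination (1 / 9) * (6 * om ^ 2 + 3 + 3 * (om ^ 3 + 1) + 6 * om) * h3 + (6 / 9) * h1

theorem g_FG : classInner cycF.ch cycG.ch = 4 := by
  rw [cycF.inner_ch cycG]
  simp only [W_VT, Fin.sum_univ_three, Fin.sum_univ_two, vF, vG]
  simp
  norm_num

theorem g_F2F2 : classInner cycF'.ch cycF'.ch = 4 := by
  rw [cycF'.inner_ch cycF']
  simp only [W_VV, Fin.sum_univ_three, vF']
  simp [conj_om]
  have h3 := om_cube
  have h1 := om_sum
  linear_combination (1 / 9) * (6 + 3 * om ^ 2 + 3 * om + 6 * (om ^ 3 + 1)) * h3 + (1 / 3) * h1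

theorem g_F2G : classInner cycF'.ch cycG.ch = 4 := by
  rw [cycF'.inner_ch cycG]
  simp only [W_VT, Fin.sum_univ_three, Fin.sum_univ_two, vF', vG]
  simp
  norm_num

theorem g_GG : classInner cycG.ch cycG.ch = 8 := by
  rw [cycG.inner_ch cycG]
  simp only [W_TT, Fin.sum_univ_two, vG]
  simp
  norm_num

/-! ### inner products with the trivial character -/

theorem o_A : classInner cycA.ch 1 = 0 := by
  rw [cycA.inner_ch_one]
  simp only [Fin.sum_univ_four, vA]
  simp

theorem o_A2 : classInner cycA'.ch 1 = 0 := by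
  rw [cycA'.inner_ch_one]
  simp only [Fin.sum_univ_four, vA']
  simp

theorem o_P : classInner cycP.ch 1 = 1 := by
  rw [cycP.inner_ch_one]
  simp only [Fin.sum_univ_four, vP]
  simp
  norm_num

theorem o_F : classInner cycF.ch 1 = 0 := by
  rw [cycF.inner_ch_one]
  simp only [Fin.sum_univ_three, vF]
  simp
  have h1 := om_sum
  linear_combination h1

theorem o_F2 : classInner cycF'.ch 1 = 0 := by
  rw [cycF'.inner_ch_one]
  simp only [Fin.sum_univ_three, vF']
  simp
  have h1 := om_sum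
  linear_combination h1

theorem o_G : classInner cycG.ch 1 = 1 := by
  rw [cycG.inner_ch_one]
  simp only [Fin.sum_univ_two, vG]
  simp
  norm_num

/-! ### sums over pairs of involutions -/

theorem N_U : ∀ k, NN Tv Tv cU lU k = ![2, 0, 2, 0] k ∧ NN Tv Tt cU lU k = ![0, 2, 0, 2] k ∧
    NN Tt Tt cU lU k = ![6, 0, 2, 0] k := by
  decide +kernel
theorem N_V : ∀ k, NN Tv Tv cV lV k = ![3, 0, 0] k ∧ NN Tv Tt cV lV k = ![0, 0, 0] k ∧
    NN Tt Tt cV lV k = ![6, 3, 3] k := by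
  decide +kernel
theorem N_T : ∀ k, NN Tv Tv cT lT k = ![3, 0] k ∧ NN Tv Tt cT lT k = ![0, 1] k ∧
    NN Tt Tt cT lT k = ![5, 0] k := by
  decide +kernel

theorem s_A_vv : ∑ p ∈ cl Tv, ∑ q ∈ cl Tv, cycA.ch (p * q) = 1944 * (0 : ℂ) := by
  rw [cycA.sum_ch Tv_sub Tv_sub Tv_conj Tv_conj]
  have h : ∀ k, NN Tv Tv cU lU k = _ := fun k => (N_U k).1
  simp only [h, Fin.sum_univ_four, vA]
  simp
  try norm_num

theorem s_A_tt : ∑ p ∈ cl Tt, ∑ q ∈ cl Tt, cycA.ch (p * q) = 1944 * (1 : ℂ) := by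
  rw [cycA.sum_ch Tt_sub Tt_sub Tt_conj Tt_conj]
  have h : ∀ k, NN Tt Tt cU lU k = _ := fun k => (N_U k).2.2
  simp only [h, Fin.sum_univ_four, vA]
  simp
  try norm_num

theorem s_P_vv : ∑ p ∈ cl Tv, ∑ q ∈ cl Tv, cycP.ch (p * q) = 1944 * (1 : ℂ) := by
  rw [cycP.sum_ch Tv_sub Tv_sub Tv_conj Tv_conj]
  have h : ∀ k, NN Tv Tv cU lU k = _ := fun k => (N_U k).1
  simp only [h, Fin.sum_univ_four, vP]
  simp
  try norm_num

theorem s_P_vt : ∑ p ∈ cl Tv, ∑ q ∈ cl Tt, cycP.ch (p * q) = 1944 * (1 : ℂ) := by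
  rw [cycP.sum_ch Tv_sub Tt_sub Tv_conj Tt_conj]
  have h : ∀ k, NN Tv Tt cU lU k = _ := fun k => (N_U k).2.1
  simp only [h, Fin.sum_univ_four, vP]
  simp
  try norm_num

theorem s_P_tt : ∑ p ∈ cl Tt, ∑ q ∈ cl Tt, cycP.ch (p * q) = 1944 * (2 : ℂ) := by
  rw [cycP.sum_ch Tt_sub Tt_sub Tt_conj Tt_conj]
  have h : ∀ k, NN Tt Tt cU lU k = _ := fun k => (N_U k).2.2
  simp only [h, Fin.sum_univ_four, vP]
  simp
  try norm_num

theorem s_F_vv : ∑ p ∈ cl Tv, ∑ q ∈ cl Tv, cycF.ch (p * q) = 1944 * (1 : ℂ) := by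
  rw [cycF.sum_ch Tv_sub Tv_sub Tv_conj Tv_conj]
  have h : ∀ k, NN Tv Tv cV lV k = _ := fun k => (N_V k).1
  simp only [h, Fin.sum_univ_three, vF]
  simp
  try norm_num

theorem s_F_vt : ∑ p ∈ cl Tv, ∑ q ∈ cl Tt, cycF.ch (p * q) = 1944 * (0 : ℂ) := by
  rw [cycF.sum_ch Tv_sub Tt_sub Tv_conj Tt_conj]
  have h : ∀ k, NN Tv Tt cV lV k = _ := fun k => (N_V k).2.1
  simp only [h, Fin.sum_univ_three, vF]
  simp
  try norm_num

theorem s_F_tt : ∑ p ∈ cl Tt, ∑ q ∈ cl Tt, cycF.ch (p * q) = 1944 * (1 : ℂ) := by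
  rw [cycF.sum_ch Tt_sub Tt_sub Tt_conj Tt_conj]
  have h : ∀ k, NN Tt Tt cV lV k = _ := fun k => (N_V k).2.2
  simp only [h, Fin.sum_univ_three, vF]
  simp
  have h1 := om_sum
  linear_combination 1944 * h1

theorem s_G_vv : ∑ p ∈ cl Tv, ∑ q ∈ cl Tv, cycG.ch (p * q) = 1944 * (3 / 2 : ℂ) := by
  rw [cycG.sum_ch Tv_sub Tv_sub Tv_conj Tv_conj]
  have h : ∀ k, NN Tv Tv cT lT k = _ := fun k => (N_T k).1
  simp only [h, Fin.sum_univ_two, vG]
  simp
  try norm_num

theorem s_G_vt : ∑ p ∈ cl Tv, ∑ q ∈ cl Tt, cycG.ch (p * q) = 1944 * (1 / 2 : ℂ) := by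
  rw [cycG.sum_ch Tv_sub Tt_sub Tv_conj Tt_conj]
  have h : ∀ k, NN Tv Tt cT lT k = _ := fun k => (N_T k).2.1
  simp only [h, Fin.sum_univ_two, vG]
  simp
  try norm_num

theorem s_G_tt : ∑ p ∈ cl Tt, ∑ q ∈ cl Tt, cycG.ch (p * q) = 1944 * (5 / 2 : ℂ) := by
  rw [cycG.sum_ch Tt_sub Tt_sub Tt_conj Tt_conj]
  have h : ∀ k, NN Tt Tt cT lT k = _ := fun k => (N_T k).2.2
  simp only [h, Fin.sum_univ_two, vG]
  simp
  try norm_num

end Cfsg.Agent.H431.Alt
end

-- part: H431/AltChar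
section
/-!
# The exceptional characters of a group with a subgroup `3^3 : S_4`

Main result `exists_normal`: the involution `v` lies in a normal subgroup which does not contain the
element `σ` of order 3.
-/

set_option autoImplicit false
set_option linter.unusedSimpArgs false
set_option linter.unusedVariables false

open Cfsg

namespace Cfsg.Agent.H431.Alt

open Cfsg.Agent.Characters.Core Cfsg.Agent.OddOrderCharacters.VChar
open Cfsg.Agent.H431.ExcChar Cfsg.Agent.OddOrderCharacters.IndRes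
open Cfsg.Agent.Characters.Central

open scoped ComplexConjugate

attribute [local irreducible] cl EE NN af

section

variable {G : Type*} [Group G] [Fintype G] [Fintype (IrrCharacter G)]

/-- the degree -/
noncomputable def deg (χ : IrrCharacter G) : ℤ := ((isIrr_apply_one χ.2).choose : ℕ)

omit [Fintype G] [Fintype (IrrCharacter G)] in
theorem deg_pos (χ : IrrCharacter G) : 0 < deg χ := by
  unfold deg
  exact_mod_cast (isIrr_apply_one χ.2).choose_spec.1

omit [Fintype G] [Fintype (IrrCharacter G)] in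
theorem deg_eq (χ : IrrCharacter G) : (deg χ : ℂ) = (χ : G → ℂ) 1 := by
  have h := (isIrr_apply_one χ.2).choose_spec.2
  unfold deg
  push_cast
  exact h.symm

/-- the vector of multiplicities -/
structure IsMult (Y : G → ℂ) (m : IrrCharacter G → ℤ) : Prop where
  eq : Y = ∑ χ : IrrCharacter G, m χ • (χ : G → ℂ)

variable {Y Y' : G → ℂ} {m m' : IrrCharacter G → ℤ}

omit [Fintype G] in
theorem exists_isMult [Finite G] (h : IsGeneralizedCharacter G Y) : ∃ m, IsMult Y m := by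
  obtain ⟨m, hm⟩ := isGeneralizedCharacter_iff.1 h
  exact ⟨m, ⟨hm⟩⟩

theorem IsMult.inner (h : IsMult Y m) (χ : IrrCharacter G) : classInner Y χ = m χ := by
  rw [h.eq, classInner_sum_zsmul_irr]

theorem IsMult.ip_eq (h : IsMult Y m) (h' : IsMult Y' m') {n : ℤ} (hn : classInner Y Y' = n) :
    ip m m' = n := by
  have h1 : ((ip m m' : ℤ) : ℂ) = n := by
    rw [← hn]
    conv_rhs => rw [h'.eq]
    rw [classInner_sum_right]
    unfold ip
    push_cast
    refine Finset.sum_congr rfl fun χ _ => ?_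
    rw [classInner_zsmul_right, h.inner]
    ring
  exact_mod_cast h1

omit [Fintype G] in
theorem IsMult.apply (h : IsMult Y m) (g : G) : Y g = lin (fun χ : IrrCharacter G => (χ : G → ℂ) g) m := by
  rw [h.eq]
  unfold lin
  rw [Finset.sum_apply]
  refine Finset.sum_congr rfl fun χ _ => ?_
  rw [Pi.smul_apply, zsmul_eq_mul]

omit [Fintype G] in
theorem IsMult.ip_deg (h : IsMult Y m) (h1 : Y 1 = 0) : ip m deg = 0 := by
  have h2 : ((ip m deg : ℤ) : ℂ) = 0 := by
    rw [← h1, h.apply]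
    unfold ip lin
    push_cast
    exact Finset.sum_congr rfl fun χ _ => by rw [deg_eq]
  exact_mod_cast h2

/-- class sums -/
theorem IsMult.sum_eq (h : IsMult Y m) (k k' : G) :
    ∑ a : G, ∑ b : G, Y (a * k * a⁻¹ * (b * k' * b⁻¹)) = (Nat.card G : ℂ) ^ 2 *
      Phi deg (fun χ : IrrCharacter G => (χ : G → ℂ) k) (fun χ : IrrCharacter G => (χ : G → ℂ) k') m := by
  have key : ∀ χ : IrrCharacter G, ∑ a : G, ∑ b : G, (χ : G → ℂ) (a * k * a⁻¹ * (b * k' * b⁻¹)) =
      (Nat.card G : ℂ) ^ 2 * ((χ : G → ℂ) k * (χ : G → ℂ) k' / (deg χ : ℂ)) := by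
    intro χ
    rw [Finset.sum_comm]
    have e2 : ∀ b : G, ∑ a : G, (χ : G → ℂ) (a * k * a⁻¹ * (b * k' * b⁻¹)) =
        (Nat.card G : ℂ) * ((χ : G → ℂ) k * (χ : G → ℂ) k' / (deg χ : ℂ)) := by
      intro b
      rw [sum_char_conj_mul χ.2, isIrr_isClassFunction χ.2 k' b, deg_eq]
      ring
    simp_rw [e2]
    rw [Finset.sum_const, Finset.card_univ, nsmul_eq_mul, ← Nat.card_eq_fintype_card]
    ring
  have e1 : ∀ a b : G, Y (a * k * a⁻¹ * (b * k' * b⁻¹)) =
      ∑ χ : IrrCharacter G, (m χ : ℂ) * (χ : G → ℂ) (a * k * a⁻¹ * (b * k' * b⁻¹)) := by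
    intro a b
    rw [h.apply]
    rfl
  rw [Finset.sum_congr rfl fun a _ => Finset.sum_congr rfl fun b _ => e1 a b,
    sum3 Finset.univ Finset.univ (fun (χ : IrrCharacter G) a b =>
      (m χ : ℂ) * (χ : G → ℂ) (a * k * a⁻¹ * (b * k' * b⁻¹)))]
  simp only [← Finset.mul_sum]
  rw [Phi, lin, Finset.mul_sum]
  refine Finset.sum_congr rfl fun χ _ => ?_
  rw [key]
  ring

end

section

variable {G : Type*} [Group G] [Fintype G] {H : Subgroup G} [Fintype H] {E : H ≃* Md}

omit [Fintype H] in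
/-- the value of the quadratic functional -/
theorem phi_eq [Fintype (IrrCharacter G)] (F : Fus3 E) {θ : Md → ℂ} (hs : ∀ x, θ x ≠ 0 → DD x)
    {m : IrrCharacter G → ℤ} (hm : IsMult (YY3 E θ) m) {T T' : Finset Q}
    {x₀ x₀' : Md} (R : Rep E T x₀) (R' : Rep E T' x₀') {N s : ℂ}
    (hN : ∑ x ∈ cl T, ∑ y ∈ cl T', θ (x * y) = 1944 * N) (hs2 : s ^ 2 = 3 / (2 * (Nat.card G : ℂ))) :
    Phi deg (fun χ : IrrCharacter G => (χ : G → ℂ) (kk E x₀))
      (fun χ : IrrCharacter G => (χ : G → ℂ) (kk E x₀')) m =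
      2 * N * (((Nat.card (Subgroup.centralizer ({kk E x₀} : Set G)) : ℂ) * s) *
        ((Nat.card (Subgroup.centralizer ({kk E x₀'} : Set G)) : ℂ) * s)) := by
  have h1 := hm.sum_eq (kk E x₀) (kk E x₀')
  rw [class_sum F hs R R', hN, Nat.card_congr E.toEquiv, card_Md] at h1
  have hG : (Nat.card G : ℂ) ≠ 0 := card_ne_zero_complex
  have h2 : ((Nat.card (Subgroup.centralizer ({kk E x₀} : Set G)) : ℂ) * s) *
        ((Nat.card (Subgroup.centralizer ({kk E x₀'} : Set G)) : ℂ) * s) =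
      (Nat.card (Subgroup.centralizer ({kk E x₀} : Set G)) : ℂ) *
        (Nat.card (Subgroup.centralizer ({kk E x₀'} : Set G)) : ℂ) * (3 / (2 * (Nat.card G : ℂ))) := by
    rw [← hs2]; ring
  rw [h2]
  have h3 : (Nat.card G : ℂ) ^ 2 ≠ 0 := pow_ne_zero 2 hG
  apply mul_left_cancel₀ h3
  rw [← h1]
  push_cast
  field_simp
  ring

theorem exists_chi (F : Fus3 E) : ∃ χ : IrrCharacter G, (χ : G → ℂ) 1 = 2 ∧
    (χ : G → ℂ) (kk E xv) = 2 ∧ classInner (YY3 E cycF.ch) χ = 1 := by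
  classical
  have := finite_irr (G := G)
  have := Fintype.ofFinite (IrrCharacter G)
  have hG : (Nat.card G : ℂ) ≠ 0 := card_ne_zero_complex
  obtain ⟨s, hs2⟩ : ∃ s : ℂ, s ^ 2 = 3 / (2 * (Nat.card G : ℂ)) := by
    obtain ⟨s, hs⟩ := IsAlgClosed.exists_pow_nat_eq (3 / (2 * (Nat.card G : ℂ))) (n := 2) (by norm_num)
    exact ⟨s, hs⟩
  have hs0 : s ≠ 0 := by
    intro h
    rw [h] at hs2
    have : (3 : ℂ) / (2 * (Nat.card G : ℂ)) ≠ 0 :=
      div_ne_zero (by norm_num) (mul_ne_zero two_ne_zero hG)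
    exact this (by rw [← hs2]; norm_num)
  have sA : ∀ x, cycA.ch x ≠ 0 → DD x := fun x h => cycA.supp DU h
  have sA2 : ∀ x, cycA'.ch x ≠ 0 → DD x := fun x h => cycA'.supp DU h
  have sP : ∀ x, cycP.ch x ≠ 0 → DD x := fun x h => cycP.supp DU h
  have sF : ∀ x, cycF.ch x ≠ 0 → DD x := fun x h => cycF.supp DV h
  have sF2 : ∀ x, cycF'.ch x ≠ 0 → DD x := fun x h => cycF'.supp DV h
  have sG : ∀ x, cycG.ch x ≠ 0 → DD x := fun x h => cycG.supp DT h
  obtain ⟨mA, hA⟩ := exists_isMult (gen_YY3 (E := E) cycA.gen_ch)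
  obtain ⟨mA2, hA2⟩ := exists_isMult (gen_YY3 (E := E) cycA'.gen_ch)
  obtain ⟨mP, hP⟩ := exists_isMult (gen_YY3 (E := E) cycP.gen_ch)
  obtain ⟨mF, hF⟩ := exists_isMult (gen_YY3 (E := E) cycF.gen_ch)
  obtain ⟨mF2, hF2⟩ := exists_isMult (gen_YY3 (E := E) cycF'.gen_ch)
  obtain ⟨mG, hG⟩ := exists_isMult (gen_YY3 (E := E) cycG.gen_ch)
  have iAA : ip mA mA = 3 := hA.ip_eq hA (by
    rw [inner_YY3 F cycA.gen_ch sA, g_AA]; norm_num)
  have iAA2 : ip mA mA2 = 2 := hA.ip_eq hA2 (by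
    rw [inner_YY3 F cycA'.gen_ch sA, g_AA2]; norm_num)
  have iA2A : ip mA2 mA = 2 := by rw [ip_comm, iAA2]
  have iAP : ip mA mP = 1 := hA.ip_eq hP (by
    rw [inner_YY3 F cycP.gen_ch sA, g_AP]; norm_num)
  have iPA : ip mP mA = 1 := by rw [ip_comm, iAP]
  have iAF : ip mA mF = 2 := hA.ip_eq hF (by
    rw [inner_YY3 F cycF.gen_ch sA, g_AF]; norm_num)
  have iFA : ip mF mA = 2 := by rw [ip_comm, iAF]
  have iAF2 : ip mA mF2 = 2 := hA.ip_eq hF2 (by
    rw [inner_YY3 F cycF'.gen_ch sA, g_AF2]; norm_num)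
  have iF2A : ip mF2 mA = 2 := by rw [ip_comm, iAF2]
  have iAG : ip mA mG = 3 := hA.ip_eq hG (by
    rw [inner_YY3 F cycG.gen_ch sA, g_AG]; norm_num)
  have iGA : ip mG mA = 3 := by rw [ip_comm, iAG]
  have iA2A2 : ip mA2 mA2 = 3 := hA2.ip_eq hA2 (by
    rw [inner_YY3 F cycA'.gen_ch sA2, g_A2A2]; norm_num)
  have iA2P : ip mA2 mP = 1 := hA2.ip_eq hP (by
    rw [inner_YY3 F cycP.gen_ch sA2, g_A2P]; norm_num)
  have iPA2 : ip mP mA2 = 1 := by rw [ip_comm, iA2P]
  have iA2F : ip mA2 mF = 2 := hA2.ip_eq hF (by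
    rw [inner_YY3 F cycF.gen_ch sA2, g_A2F]; norm_num)
  have iFA2 : ip mF mA2 = 2 := by rw [ip_comm, iA2F]
  have iA2F2 : ip mA2 mF2 = 2 := hA2.ip_eq hF2 (by
    rw [inner_YY3 F cycF'.gen_ch sA2, g_A2F2]; norm_num)
  have iF2A2 : ip mF2 mA2 = 2 := by rw [ip_comm, iA2F2]
  have iA2G : ip mA2 mG = 3 := hA2.ip_eq hG (by
    rw [inner_YY3 F cycG.gen_ch sA2, g_A2G]; norm_num)
  have iGA2 : ip mG mA2 = 3 := by rw [ip_comm, iA2G]
  have iPP : ip mP mP = 4 := hP.ip_eq hP (by
    rw [inner_YY3 F cycP.gen_ch sP, g_PP]; norm_num)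
  have iPF : ip mP mF = 2 := hP.ip_eq hF (by
    rw [inner_YY3 F cycF.gen_ch sP, g_PF]; norm_num)
  have iFP : ip mF mP = 2 := by rw [ip_comm, iPF]
  have iPF2 : ip mP mF2 = 2 := hP.ip_eq hF2 (by
    rw [inner_YY3 F cycF'.gen_ch sP, g_PF2]; norm_num)
  have iF2P : ip mF2 mP = 2 := by rw [ip_comm, iPF2]
  have iPG : ip mP mG = 3 := hP.ip_eq hG (by
    rw [inner_YY3 F cycG.gen_ch sP, g_PG]; norm_num)
  have iGP : ip mG mP = 3 := by rw [ip_comm, iPG]
  have iFF : ip mF mF = 4 := hF.ip_eq hF (by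
    rw [inner_YY3 F cycF.gen_ch sF, g_FF]; norm_num)
  have iFF2 : ip mF mF2 = 3 := hF.ip_eq hF2 (by
    rw [inner_YY3 F cycF'.gen_ch sF, g_FF2]; norm_num)
  have iF2F : ip mF2 mF = 3 := by rw [ip_comm, iFF2]
  have iFG : ip mF mG = 4 := hF.ip_eq hG (by
    rw [inner_YY3 F cycG.gen_ch sF, g_FG]; norm_num)
  have iGF : ip mG mF = 4 := by rw [ip_comm, iFG]
  have iF2F2 : ip mF2 mF2 = 4 := hF2.ip_eq hF2 (by
    rw [inner_YY3 F cycF'.gen_ch sF2, g_F2F2]; norm_num)
  have iF2G : ip mF2 mG = 4 := hF2.ip_eq hG (by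
    rw [inner_YY3 F cycG.gen_ch sF2, g_F2G]; norm_num)
  have iGF2 : ip mG mF2 = 4 := by rw [ip_comm, iF2G]
  have iGG : ip mG mG = 8 := hG.ip_eq hG (by
    rw [inner_YY3 F cycG.gen_ch sG, g_GG]; norm_num)
  have h11 : (1 : G) * 1 = 1 := one_mul 1
  have hv1 : kk E xv * kk E xv = 1 := kk_mul_self (mem_cl.1 xv_mem).2
  have ht1 : kk E xt * kk E xt = 1 := kk_mul_self (mem_cl.1 xt_mem).2
  have fA : ip mA deg = 0 := hA.ip_deg (YY3_eq_zero sA h11)
  have gvA : lin (fun χ : IrrCharacter G => (χ : G → ℂ) (kk E xv)) mA = 0 := by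
    rw [← hA.apply, YY3_eq_zero sA hv1]
  have gtA : lin (fun χ : IrrCharacter G => (χ : G → ℂ) (kk E xt)) mA = 0 := by
    rw [← hA.apply, YY3_eq_zero sA ht1]
  have oA : mA ⟨1, isIrr_one⟩ = 0 := by
    have h := hA.inner ⟨1, isIrr_one⟩
    have h' : classInner (YY3 E cycA.ch) 1 = 0 := by rw [inner_YY3_one, o_A]
    have h'' : ((mA ⟨1, isIrr_one⟩ : ℤ) : ℂ) = 0 := by rw [← h]; exact h'
    exact_mod_cast h''
  have fA2 : ip mA2 deg = 0 := hA2.ip_deg (YY3_eq_zero sA2 h11)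
  have gvA2 : lin (fun χ : IrrCharacter G => (χ : G → ℂ) (kk E xv)) mA2 = 0 := by
    rw [← hA2.apply, YY3_eq_zero sA2 hv1]
  have gtA2 : lin (fun χ : IrrCharacter G => (χ : G → ℂ) (kk E xt)) mA2 = 0 := by
    rw [← hA2.apply, YY3_eq_zero sA2 ht1]
  have oA2 : mA2 ⟨1, isIrr_one⟩ = 0 := by
    have h := hA2.inner ⟨1, isIrr_one⟩
    have h' : classInner (YY3 E cycA'.ch) 1 = 0 := by rw [inner_YY3_one, o_A2]
    have h'' : ((mA2 ⟨1, isIrr_one⟩ : ℤ) : ℂ) = 0 := by rw [← h]; exact h'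
    exact_mod_cast h''
  have fP : ip mP deg = 0 := hP.ip_deg (YY3_eq_zero sP h11)
  have gvP : lin (fun χ : IrrCharacter G => (χ : G → ℂ) (kk E xv)) mP = 0 := by
    rw [← hP.apply, YY3_eq_zero sP hv1]
  have gtP : lin (fun χ : IrrCharacter G => (χ : G → ℂ) (kk E xt)) mP = 0 := by
    rw [← hP.apply, YY3_eq_zero sP ht1]
  have oP : mP ⟨1, isIrr_one⟩ = 1 := by
    have h := hP.inner ⟨1, isIrr_one⟩
    have h' : classInner (YY3 E cycP.ch) 1 = 1 := by rw [inner_YY3_one, o_P]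
    have h'' : ((mP ⟨1, isIrr_one⟩ : ℤ) : ℂ) = 1 := by rw [← h]; exact h'
    exact_mod_cast h''
  have fF : ip mF deg = 0 := hF.ip_deg (YY3_eq_zero sF h11)
  have gvF : lin (fun χ : IrrCharacter G => (χ : G → ℂ) (kk E xv)) mF = 0 := by
    rw [← hF.apply, YY3_eq_zero sF hv1]
  have gtF : lin (fun χ : IrrCharacter G => (χ : G → ℂ) (kk E xt)) mF = 0 := by
    rw [← hF.apply, YY3_eq_zero sF ht1]
  have oF : mF ⟨1, isIrr_one⟩ = 0 := by
    have h := hF.inner ⟨1, isIrr_one⟩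
    have h' : classInner (YY3 E cycF.ch) 1 = 0 := by rw [inner_YY3_one, o_F]
    have h'' : ((mF ⟨1, isIrr_one⟩ : ℤ) : ℂ) = 0 := by rw [← h]; exact h'
    exact_mod_cast h''
  have fF2 : ip mF2 deg = 0 := hF2.ip_deg (YY3_eq_zero sF2 h11)
  have gvF2 : lin (fun χ : IrrCharacter G => (χ : G → ℂ) (kk E xv)) mF2 = 0 := by
    rw [← hF2.apply, YY3_eq_zero sF2 hv1]
  have gtF2 : lin (fun χ : IrrCharacter G => (χ : G → ℂ) (kk E xt)) mF2 = 0 := by
    rw [← hF2.apply, YY3_eq_zero sF2 ht1]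
  have oF2 : mF2 ⟨1, isIrr_one⟩ = 0 := by
    have h := hF2.inner ⟨1, isIrr_one⟩
    have h' : classInner (YY3 E cycF'.ch) 1 = 0 := by rw [inner_YY3_one, o_F2]
    have h'' : ((mF2 ⟨1, isIrr_one⟩ : ℤ) : ℂ) = 0 := by rw [← h]; exact h'
    exact_mod_cast h''
  have fG : ip mG deg = 0 := hG.ip_deg (YY3_eq_zero sG h11)
  have gvG : lin (fun χ : IrrCharacter G => (χ : G → ℂ) (kk E xv)) mG = 0 := by
    rw [← hG.apply, YY3_eq_zero sG hv1]
  have gtG : lin (fun χ : IrrCharacter G => (χ : G → ℂ) (kk E xt)) mG = 0 := by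
    rw [← hG.apply, YY3_eq_zero sG ht1]
  have oG : mG ⟨1, isIrr_one⟩ = 1 := by
    have h := hG.inner ⟨1, isIrr_one⟩
    have h' : classInner (YY3 E cycG.ch) 1 = 1 := by rw [inner_YY3_one, o_G]
    have h'' : ((mG ⟨1, isIrr_one⟩ : ℤ) : ℂ) = 1 := by rw [← h]; exact h'
    exact_mod_cast h''
  have Rv := rep_v F
  have Rt := rep_t F
  have pAvv := phi_eq F sA hA Rv Rv s_A_vv hs2
  have pAtt := phi_eq F sA hA Rt Rt s_A_tt hs2
  have pPvv := phi_eq F sP hP Rv Rv s_P_vv hs2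
  have pPvt := phi_eq F sP hP Rv Rt s_P_vt hs2
  have pPtt := phi_eq F sP hP Rt Rt s_P_tt hs2
  have pFvv := phi_eq F sF hF Rv Rv s_F_vv hs2
  have pFvt := phi_eq F sF hF Rv Rt s_F_vt hs2
  have pFtt := phi_eq F sF hF Rt Rt s_F_tt hs2
  have pGvv := phi_eq F sG hG Rv Rv s_G_vv hs2
  have pGvt := phi_eq F sG hG Rv Rt s_G_vt hs2
  have pGtt := phi_eq F sG hG Rt Rt s_G_tt hs2
  obtain ⟨l, hl⟩ : ∃ l : ℂ, l = (Nat.card (Subgroup.centralizer ({kk E xv} : Set G)) : ℂ) * s := ⟨_, rfl⟩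
  obtain ⟨k, hk⟩ : ∃ k : ℂ, k = (Nat.card (Subgroup.centralizer ({kk E xt} : Set G)) : ℂ) * s := ⟨_, rfl⟩
  rw [← hl] at pAvv
  rw [← hk] at pAtt
  rw [← hl] at pPvv
  rw [← hl, ← hk] at pPvt
  rw [← hk] at pPtt
  rw [← hl] at pFvv
  rw [← hl, ← hk] at pFvt
  rw [← hk] at pFtt
  rw [← hl] at pGvv
  rw [← hl, ← hk] at pGvt
  rw [← hk] at pGtt
  have l0 : l ≠ 0 := by
    rw [hl]
    exact mul_ne_zero (Nat.cast_ne_zero.2 Nat.card_pos.ne') hs0
  have k0 : k ≠ 0 := by
    rw [hk]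
    exact mul_ne_zero (Nat.cast_ne_zero.2 Nat.card_pos.ne') hs0
  have D : Dat (⟨1, isIrr_one⟩ : IrrCharacter G) deg (fun χ : IrrCharacter G => (χ : G → ℂ) (kk E xv))
      (fun χ : IrrCharacter G => (χ : G → ℂ) (kk E xt)) l k (mF2 - mF) (mA2 - mA) mA (mF - mA)
      (mP - mF) (mG - mF) :=
    { fpos := deg_pos
      fo := by
        have h := deg_eq (⟨1, isIrr_one⟩ : IrrCharacter G)
        have h' : ((deg (⟨1, isIrr_one⟩ : IrrCharacter G) : ℤ) : ℂ) = (1 : ℤ) := by rw [h]; simp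
        exact_mod_cast h'
      l0 := l0
      k0 := k0
      bb := by simp only [ip_sub_left, ip_sub_right, iAA, iAA2, iAP, iAF, iAF2, iAG, iA2A, iA2A2, iA2P, iA2F, iA2F2, iA2G, iPA, iPA2, iPP, iPF, iPF2, iPG, iFA, iFA2, iFP, iFF, iFF2, iFG, iF2A, iF2A2, iF2P, iF2F, iF2F2, iF2G, iGA, iGA2, iGP, iGF, iGF2, iGG]; try norm_num
      cc := by simp only [ip_sub_left, ip_sub_right, iAA, iAA2, iAP, iAF, iAF2, iAG, iA2A, iA2A2, iA2P, iA2F, iA2F2, iA2G, iPA, iPA2, iPP, iPF, iPF2, iPG, iFA, iFA2, iFP, iFF, iFF2, iFG, iF2A, iF2A2, iF2P, iF2F, iF2F2, iF2G, iGA, iGA2, iGP, iGF, iGF2, iGG]; try norm_num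
      AA := by simp only [ip_sub_left, ip_sub_right, iAA, iAA2, iAP, iAF, iAF2, iAG, iA2A, iA2A2, iA2P, iA2F, iA2F2, iA2G, iPA, iPA2, iPP, iPF, iPF2, iPG, iFA, iFA2, iFP, iFF, iFF2, iFG, iF2A, iF2A2, iF2P, iF2F, iF2F2, iF2G, iGA, iGA2, iGP, iGF, iGF2, iGG]; try norm_num
      BB := by simp only [ip_sub_left, ip_sub_right, iAA, iAA2, iAP, iAF, iAF2, iAG, iA2A, iA2A2, iA2P, iA2F, iA2F2, iA2G, iPA, iPA2, iPP, iPF, iPF2, iPG, iFA, iFA2, iFP, iFF, iFF2, iFG, iF2A, iF2A2, iF2P, iF2F, iF2F2, iF2G, iGA, iGA2, iGP, iGF, iGF2, iGG]; try norm_num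
      PP := by simp only [ip_sub_left, ip_sub_right, iAA, iAA2, iAP, iAF, iAF2, iAG, iA2A, iA2A2, iA2P, iA2F, iA2F2, iA2G, iPA, iPA2, iPP, iPF, iPF2, iPG, iFA, iFA2, iFP, iFF, iFF2, iFG, iF2A, iF2A2, iF2P, iF2F, iF2F2, iF2G, iGA, iGA2, iGP, iGF, iGF2, iGG]; try norm_num
      RR := by simp only [ip_sub_left, ip_sub_right, iAA, iAA2, iAP, iAF, iAF2, iAG, iA2A, iA2A2, iA2P, iA2F, iA2F2, iA2G, iPA, iPA2, iPP, iPF, iPF2, iPG, iFA, iFA2, iFP, iFF, iFF2, iFG, iF2A, iF2A2, iF2P, iF2F, iF2F2, iF2G, iGA, iGA2, iGP, iGF, iGF2, iGG]; try norm_num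
      bc := by simp only [ip_sub_left, ip_sub_right, iAA, iAA2, iAP, iAF, iAF2, iAG, iA2A, iA2A2, iA2P, iA2F, iA2F2, iA2G, iPA, iPA2, iPP, iPF, iPF2, iPG, iFA, iFA2, iFP, iFF, iFF2, iFG, iF2A, iF2A2, iF2P, iF2F, iF2F2, iF2G, iGA, iGA2, iGP, iGF, iGF2, iGG]; try norm_num
      Ab := by simp only [ip_sub_left, ip_sub_right, iAA, iAA2, iAP, iAF, iAF2, iAG, iA2A, iA2A2, iA2P, iA2F, iA2F2, iA2G, iPA, iPA2, iPP, iPF, iPF2, iPG, iFA, iFA2, iFP, iFF, iFF2, iFG, iF2A, iF2A2, iF2P, iF2F, iF2F2, iF2G, iGA, iGA2, iGP, iGF, iGF2, iGG]; try norm_num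
      Ac := by simp only [ip_sub_left, ip_sub_right, iAA, iAA2, iAP, iAF, iAF2, iAG, iA2A, iA2A2, iA2P, iA2F, iA2F2, iA2G, iPA, iPA2, iPP, iPF, iPF2, iPG, iFA, iFA2, iFP, iFF, iFF2, iFG, iF2A, iF2A2, iF2P, iF2F, iF2F2, iF2G, iGA, iGA2, iGP, iGF, iGF2, iGG]; try norm_num
      Bb := by simp only [ip_sub_left, ip_sub_right, iAA, iAA2, iAP, iAF, iAF2, iAG, iA2A, iA2A2, iA2P, iA2F, iA2F2, iA2G, iPA, iPA2, iPP, iPF, iPF2, iPG, iFA, iFA2, iFP, iFF, iFF2, iFG, iF2A, iF2A2, iF2P, iF2F, iF2F2, iF2G, iGA, iGA2, iGP, iGF, iGF2, iGG]; try norm_num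
      Bc := by simp only [ip_sub_left, ip_sub_right, iAA, iAA2, iAP, iAF, iAF2, iAG, iA2A, iA2A2, iA2P, iA2F, iA2F2, iA2G, iPA, iPA2, iPP, iPF, iPF2, iPG, iFA, iFA2, iFP, iFF, iFF2, iFG, iF2A, iF2A2, iF2P, iF2F, iF2F2, iF2G, iGA, iGA2, iGP, iGF, iGF2, iGG]; try norm_num
      AB := by simp only [ip_sub_left, ip_sub_right, iAA, iAA2, iAP, iAF, iAF2, iAG, iA2A, iA2A2, iA2P, iA2F, iA2F2, iA2G, iPA, iPA2, iPP, iPF, iPF2, iPG, iFA, iFA2, iFP, iFF, iFF2, iFG, iF2A, iF2A2, iF2P, iF2F, iF2F2, iF2G, iGA, iGA2, iGP, iGF, iGF2, iGG]; try norm_num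
      Pb := by simp only [ip_sub_left, ip_sub_right, iAA, iAA2, iAP, iAF, iAF2, iAG, iA2A, iA2A2, iA2P, iA2F, iA2F2, iA2G, iPA, iPA2, iPP, iPF, iPF2, iPG, iFA, iFA2, iFP, iFF, iFF2, iFG, iF2A, iF2A2, iF2P, iF2F, iF2F2, iF2G, iGA, iGA2, iGP, iGF, iGF2, iGG]; try norm_num
      Pc := by simp only [ip_sub_left, ip_sub_right, iAA, iAA2, iAP, iAF, iAF2, iAG, iA2A, iA2A2, iA2P, iA2F, iA2F2, iA2G, iPA, iPA2, iPP, iPF, iPF2, iPG, iFA, iFA2, iFP, iFF, iFF2, iFG, iF2A, iF2A2, iF2P, iF2F, iF2F2, iF2G, iGA, iGA2, iGP, iGF, iGF2, iGG]; try norm_num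
      PA := by simp only [ip_sub_left, ip_sub_right, iAA, iAA2, iAP, iAF, iAF2, iAG, iA2A, iA2A2, iA2P, iA2F, iA2F2, iA2G, iPA, iPA2, iPP, iPF, iPF2, iPG, iFA, iFA2, iFP, iFF, iFF2, iFG, iF2A, iF2A2, iF2P, iF2F, iF2F2, iF2G, iGA, iGA2, iGP, iGF, iGF2, iGG]; try norm_num
      PB := by simp only [ip_sub_left, ip_sub_right, iAA, iAA2, iAP, iAF, iAF2, iAG, iA2A, iA2A2, iA2P, iA2F, iA2F2, iA2G, iPA, iPA2, iPP, iPF, iPF2, iPG, iFA, iFA2, iFP, iFF, iFF2, iFG, iF2A, iF2A2, iF2P, iF2F, iF2F2, iF2G, iGA, iGA2, iGP, iGF, iGF2, iGG]; try norm_num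
      Rb := by simp only [ip_sub_left, ip_sub_right, iAA, iAA2, iAP, iAF, iAF2, iAG, iA2A, iA2A2, iA2P, iA2F, iA2F2, iA2G, iPA, iPA2, iPP, iPF, iPF2, iPG, iFA, iFA2, iFP, iFF, iFF2, iFG, iF2A, iF2A2, iF2P, iF2F, iF2F2, iF2G, iGA, iGA2, iGP, iGF, iGF2, iGG]; try norm_num
      Rc := by simp only [ip_sub_left, ip_sub_right, iAA, iAA2, iAP, iAF, iAF2, iAG, iA2A, iA2A2, iA2P, iA2F, iA2F2, iA2G, iPA, iPA2, iPP, iPF, iPF2, iPG, iFA, iFA2, iFP, iFF, iFF2, iFG, iF2A, iF2A2, iF2P, iF2F, iF2F2, iF2G, iGA, iGA2, iGP, iGF, iGF2, iGG]; try norm_num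
      RA := by simp only [ip_sub_left, ip_sub_right, iAA, iAA2, iAP, iAF, iAF2, iAG, iA2A, iA2A2, iA2P, iA2F, iA2F2, iA2G, iPA, iPA2, iPP, iPF, iPF2, iPG, iFA, iFA2, iFP, iFF, iFF2, iFG, iF2A, iF2A2, iF2P, iF2F, iF2F2, iF2G, iGA, iGA2, iGP, iGF, iGF2, iGG]; try norm_num
      RB := by simp only [ip_sub_left, ip_sub_right, iAA, iAA2, iAP, iAF, iAF2, iAG, iA2A, iA2A2, iA2P, iA2F, iA2F2, iA2G, iPA, iPA2, iPP, iPF, iPF2, iPG, iFA, iFA2, iFP, iFF, iFF2, iFG, iF2A, iF2A2, iF2P, iF2F, iF2F2, iF2G, iGA, iGA2, iGP, iGF, iGF2, iGG]; try norm_num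
      RP := by simp only [ip_sub_left, ip_sub_right, iAA, iAA2, iAP, iAF, iAF2, iAG, iA2A, iA2A2, iA2P, iA2F, iA2F2, iA2G, iPA, iPA2, iPP, iPF, iPF2, iPG, iFA, iFA2, iFP, iFF, iFF2, iFG, iF2A, iF2A2, iF2P, iF2F, iF2F2, iF2G, iGA, iGA2, iGP, iGF, iGF2, iGG]; try norm_num
      bo := by simp only [Pi.sub_apply, oA, oA2, oP, oF, oF2, oG]; try norm_num
      co := by simp only [Pi.sub_apply, oA, oA2, oP, oF, oF2, oG]; try norm_num
      Ao := by simp only [Pi.sub_apply, oA, oA2, oP, oF, oF2, oG]; try norm_num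
      Bo := by simp only [Pi.sub_apply, oA, oA2, oP, oF, oF2, oG]; try norm_num
      Po := by simp only [Pi.sub_apply, oA, oA2, oP, oF, oF2, oG]; try norm_num
      Ro := by simp only [Pi.sub_apply, oA, oA2, oP, oF, oF2, oG]; try norm_num
      fb := by simp only [ip_sub_left, fA, fA2, fP, fF, fF2, fG]; try norm_num
      fc := by simp only [ip_sub_left, fA, fA2, fP, fF, fF2, fG]; try norm_num
      fA := by simp only [ip_sub_left, fA, fA2, fP, fF, fF2, fG]; try norm_num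
      fB := by simp only [ip_sub_left, fA, fA2, fP, fF, fF2, fG]; try norm_num
      fP := by simp only [ip_sub_left, fA, fA2, fP, fF, fF2, fG]; try norm_num
      fR := by simp only [ip_sub_left, fA, fA2, fP, fF, fF2, fG]; try norm_num
      gb := by simp only [lin_sub, gvA, gvA2, gvP, gvF, gvF2, gvG]; try norm_num
      gc := by simp only [lin_sub, gvA, gvA2, gvP, gvF, gvF2, gvG]; try norm_num
      gA := by simp only [lin_sub, gvA, gvA2, gvP, gvF, gvF2, gvG]; try norm_num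
      gB := by simp only [lin_sub, gvA, gvA2, gvP, gvF, gvF2, gvG]; try norm_num
      gP := by simp only [lin_sub, gvA, gvA2, gvP, gvF, gvF2, gvG]; try norm_num
      gR := by simp only [lin_sub, gvA, gvA2, gvP, gvF, gvF2, gvG]; try norm_num
      hb := by simp only [lin_sub, gtA, gtA2, gtP, gtF, gtF2, gtG]; try norm_num
      hc := by simp only [lin_sub, gtA, gtA2, gtP, gtF, gtF2, gtG]; try norm_num
      hA := by simp only [lin_sub, gtA, gtA2, gtP, gtF, gtF2, gtG]; try norm_num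
      hB := by simp only [lin_sub, gtA, gtA2, gtP, gtF, gtF2, gtG]; try norm_num
      hP := by simp only [lin_sub, gtA, gtA2, gtP, gtF, gtF2, gtG]; try norm_num
      hR := by simp only [lin_sub, gtA, gtA2, gtP, gtF, gtF2, gtG]; try norm_num
      Agg := by rw [pAvv]; ring
      Ahh := by rw [pAtt]; ring
      Bgg := by rw [Phi_sub, pFvv, pAvv]; ring
      Bhh := by rw [Phi_sub, pFtt, pAtt]; ring
      Pgg := by rw [Phi_sub, pPvv, pFvv]; ring
      Pgh := by rw [Phi_sub, pPvt, pFvt]; ring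
      Phh := by rw [Phi_sub, pPtt, pFtt]; ring
      Rgg := by rw [Phi_sub, pGvv, pFvv]; ring
      Rgh := by rw [Phi_sub, pGvt, pFvt]; ring }
  obtain ⟨χ, h1, h2, h3, h4⟩ := D.exists_char
  refine ⟨χ, ?_, ?_, ?_⟩
  · rw [← deg_eq, h1]; norm_num
  · rw [h2]; simp
  · rw [hF.inner]
    rw [Pi.sub_apply, h3] at h4
    have : mF χ = 1 := by omega
    rw [this]; norm_num

omit [Fintype G] [Fintype H] in
theorem cs0 : cV 1 = s0 := rfl

theorem af_mul_s0 (x : Md) : af (lam lV) (chi cV vF) (x * ⟨0, s0⟩) = om * af (lam lV) (chi cV vF) x := by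
  unfold af
  have e1 : chi cV vF (x.M * s0) = om * chi cV vF x.M := by
    by_cases hM : x.M ∈ cycF.sub
    · rw [cycF.linDat.mul _ hM _ ⟨1, cs0⟩, ← cs0, cycF.chi_apply]
      show _ * om = _
      ring
    · rw [cycF.linDat.out _ hM, mul_zero]
      apply cycF.linDat.out
      intro h
      have hs0 : s0 ∈ cycF.sub := ⟨1, cs0⟩
      exact hM ((Subgroup.mul_mem_cancel_right _ hs0).1 h)
  rw [Sd.mul_u, Sd.mul_M, smul_zero, add_zero, e1]
  ring

theorem inner_F_zero {χ : G → ℂ} (hχ : IsIrrCharacter G χ)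
    (hs : ∀ g, χ (g * kk E ⟨0, s0⟩) = χ g) : classInner (YY3 E cycF.ch) χ = 0 := by
  classical
  have hcl := isIrr_isClassFunction hχ
  have hcl' : IsClassFunction Md (fun x => χ (kk E x)) := by
    intro x y
    show χ (kk E (y * x * y⁻¹)) = χ (kk E x)
    rw [kk_mul, kk_mul, kk_inv, hcl]
  have e1 : classInner (YY3 E cycF.ch) χ = classInner cycF.ch (fun x => χ (kk E x)) := by
    rw [YY3, classInner_indFun_left H _ hcl, ← inner_comp (E := E)]
    congr 1
    funext y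
    rw [res_apply]
    unfold kk
    rw [MulEquiv.symm_apply_apply]
  have e2 : classInner cycF.ch (fun x => χ (kk E x)) = ((Nat.card V3 : ℂ) * Nat.card cycF.sub)⁻¹ *
      ∑ x : Md, af (lam lV) (chi cV vF) x * conj (χ (kk E x)) := by
    rw [Cyc.ch, th, Cfsg.Agent.S0150.classInner_indFun _ _ (fun x => χ (kk E x)) hcl', classInner_def,
      Sd.card_SC]
    push_cast
    congr 1
    exact sum_subgroup (Sd.SC cycF.sub) (fun y => af (lam lV) (chi cV vF) y * conj (χ (kk E y)))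
      (fun y hy => by
        have : af (lam lV) (chi cV vF) y = 0 := by
          unfold af
          rw [cycF.linDat.out _ (fun h' => hy (Sd.mem_SC.2 h')), mul_zero]
        rw [this, zero_mul])
  have e3 : ∑ x : Md, af (lam lV) (chi cV vF) x * conj (χ (kk E x)) =
      om * ∑ x : Md, af (lam lV) (chi cV vF) x * conj (χ (kk E x)) := by
    rw [Finset.mul_sum]
    rw [← Equiv.sum_comp (Equiv.mulRight (⟨0, s0⟩ : Md))]
    refine Finset.sum_congr rfl fun x _ => ?_
    rw [Equiv.coe_mulRight, af_mul_s0, kk_mul, hs]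
    ring
  have e4 : ∑ x : Md, af (lam lV) (chi cV vF) x * conj (χ (kk E x)) = 0 := by
    have e5 : (1 - om) * ∑ x : Md, af (lam lV) (chi cV vF) x * conj (χ (kk E x)) = 0 := by
      linear_combination e3
    rcases mul_eq_zero.1 e5 with h | h
    · exact absurd (sub_eq_zero.1 h).symm om_ne_one
    · exact h
  rw [e1, e2, e4, mul_zero]

end

/-- **Main result.** -/
theorem exists_normal {G : Type*} [Group G] [Finite G] {H : Subgroup G} {E : H ≃* Md} (F : Fus3 E) :
    ∃ N : Subgroup G, N.Normal ∧ kk E xv ∈ N ∧ kk E ⟨0, s0⟩ ∉ N := by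
  classical
  have := Fintype.ofFinite G
  have := Fintype.ofFinite H
  obtain ⟨χ, h1, h2, h3⟩ := exists_chi F
  have hmul := fun {g : G} (hg : (χ : G → ℂ) g = (χ : G → ℂ) 1) =>
    OddOrderCharacters.PF4b.Prime.char_mul_of_ker (isIrr_isCharacter χ.2) hg
  let N : Subgroup G :=
    { carrier := {g | (χ : G → ℂ) g = (χ : G → ℂ) 1}
      one_mem' := rfl
      mul_mem' := by
        intro a b ha hb
        show (χ : G → ℂ) (a * b) = (χ : G → ℂ) 1
        rw [hmul ha b]
        exact hb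
      inv_mem' := by
        intro a ha
        show (χ : G → ℂ) a⁻¹ = (χ : G → ℂ) 1
        have := hmul ha a⁻¹
        rw [mul_inv_cancel] at this
        exact this.symm }
  refine ⟨N, ⟨?_⟩, ?_, ?_⟩
  · intro n hn g
    show (χ : G → ℂ) (g * n * g⁻¹) = (χ : G → ℂ) 1
    rw [isIrr_isClassFunction χ.2]
    exact hn
  · show (χ : G → ℂ) (kk E xv) = (χ : G → ℂ) 1
    rw [h1, h2]
  · intro hs
    have h4 : classInner (YY3 E cycF.ch) χ = 0 := by
      apply inner_F_zero χ.2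
      intro g
      have hs' : (χ : G → ℂ) (kk E ⟨0, s0⟩) = (χ : G → ℂ) 1 := hs
      have h5 := hmul hs' g
      have h6 := isIrr_isClassFunction χ.2 (g * kk E ⟨0, s0⟩) (kk E ⟨0, s0⟩)
      rw [← h6, ← h5]
      group
    rw [h3] at h4
    exact one_ne_zero h4

end Cfsg.Agent.H431.Alt
end
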