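import Mathlib
import Cfsg.Agent.S0157
import Cfsg.Agent.Characters.Linear
import Cfsg.Agent.OddOrderCharacters.VChar
import Cfsg.Agent.H431.ExcChar
import Cfsg.Agent.OddOrderCharacters.PF4b.Prime
import Cfsg.Agent.S0058
import Cfsg.Agent.Classification.InvCentPL.Tri
set_option linter.all false

-- part: H431/BlockModel
section
/-!
# The group `3^3 : 2^2` of the statement S3701 as a subgroup of `Sym(3)^3`
-/

set_option autoImplicit false

namespace Cfsg.Agent.H431.Block

open Equiv Equiv.Perm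

/-- `Sym(3)^3 → Sym(9)` -/
def J : (Fin 3 → Perm (Fin 3)) →* Perm (Fin 9) where
  toFun f := (finProdFinEquiv (m := 3) (n := 3)).permCongr (Equiv.prodCongrRight f)
  map_one' := by
    apply Equiv.ext
    intro x
    show finProdFinEquiv ((prodCongrRight 1) (finProdFinEquiv.symm x)) = x
    have : (prodCongrRight (1 : Fin 3 → Perm (Fin 3))) (finProdFinEquiv.symm x) =
        finProdFinEquiv.symm x := rfl
    rw [this, Equiv.apply_symm_apply]
  map_mul' f g := by
    apply Equiv.ext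
    intro x
    show finProdFinEquiv ((prodCongrRight (f * g)) (finProdFinEquiv.symm x)) =
      finProdFinEquiv ((prodCongrRight f) (finProdFinEquiv.symm
        (finProdFinEquiv ((prodCongrRight g) (finProdFinEquiv.symm x)))))
    rw [Equiv.symm_apply_apply]
    rfl

theorem J_injective : Function.Injective J := by
  intro f g h
  funext i
  ext j
  have h1 := congrArg (fun e : Perm (Fin 9) =>
    (finProdFinEquiv (m := 3) (n := 3)).symm (e (finProdFinEquiv (i, j)))) h
  simp [J] at h1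
  exact congrArg Fin.val h1

/-- the product of the three signs -/
def sgn3 : (Fin 3 → Perm (Fin 3)) →* ℤˣ :=
  (sign.comp (Pi.evalMonoidHom (fun _ : Fin 3 => Perm (Fin 3)) 0)) *
    (sign.comp (Pi.evalMonoidHom (fun _ : Fin 3 => Perm (Fin 3)) 1)) *
    (sign.comp (Pi.evalMonoidHom (fun _ : Fin 3 => Perm (Fin 3)) 2))

theorem sgn3_apply (f : Fin 3 → Perm (Fin 3)) : sgn3 f = sign (f 0) * sign (f 1) * sign (f 2) := rfl

/-- the model group, of order 108 -/
def K : Subgroup (Fin 3 → Perm (Fin 3)) := sgn3.ker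

theorem mem_K {f : Fin 3 → Perm (Fin 3)} : f ∈ K ↔ sign (f 0) * sign (f 1) * sign (f 2) = 1 := by
  rw [K, MonoidHom.mem_ker, sgn3_apply]

/-- the group of the statement -/
def H₀ : Subgroup (Perm (Fin 9)) :=
  Subgroup.closure ({Equiv.swap (0 : Fin 9) 1 * Equiv.swap 1 2, Equiv.swap (3 : Fin 9) 4 * Equiv.swap 4 5, Equiv.swap (6 : Fin 9) 7 * Equiv.swap 7 8,
        Equiv.swap (0 : Fin 9) 1 * Equiv.swap 3 4, Equiv.swap (0 : Fin 9) 1 * Equiv.swap 6 7} : Set (Equiv.Perm (Fin 9)))

def c3 : Perm (Fin 3) := swap 0 1 * swap 1 2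

def s2 : Perm (Fin 3) := swap 0 1

theorem gen1 : J ![c3, 1, 1] = Equiv.swap (0 : Fin 9) 1 * Equiv.swap 1 2 := by decide
theorem gen2 : J ![1, c3, 1] = Equiv.swap (3 : Fin 9) 4 * Equiv.swap 4 5 := by decide
theorem gen3 : J ![1, 1, c3] = Equiv.swap (6 : Fin 9) 7 * Equiv.swap 7 8 := by decide
theorem gen4 : J ![s2, s2, 1] = Equiv.swap (0 : Fin 9) 1 * Equiv.swap 3 4 := by decide
theorem gen5 : J ![s2, 1, s2] = Equiv.swap (0 : Fin 9) 1 * Equiv.swap 6 7 := by decide

theorem eq_pow_c3 : ∀ x : Perm (Fin 3), sign x = 1 → ∃ a : Fin 3, x = c3 ^ (a : ℕ) := by decide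

theorem H₀_eq : H₀ = K.map J := by
  apply le_antisymm
  · rw [H₀, Subgroup.closure_le]
    intro x hx
    simp only [Set.mem_insert_iff, Set.mem_singleton_iff] at hx
    rcases hx with rfl | rfl | rfl | rfl | rfl
    · exact ⟨![c3, 1, 1], mem_K.2 (by decide), gen1⟩
    · exact ⟨![1, c3, 1], mem_K.2 (by decide), gen2⟩
    · exact ⟨![1, 1, c3], mem_K.2 (by decide), gen3⟩
    · exact ⟨![s2, s2, 1], mem_K.2 (by decide), gen4⟩
    · exact ⟨![s2, 1, s2], mem_K.2 (by decide), gen5⟩
  · have h1 : J ![c3, 1, 1] ∈ H₀ := Subgroup.subset_closure (by rw [gen1]; simp)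
    have h2 : J ![1, c3, 1] ∈ H₀ := Subgroup.subset_closure (by rw [gen2]; simp)
    have h3 : J ![1, 1, c3] ∈ H₀ := Subgroup.subset_closure (by rw [gen3]; simp)
    have h4 : J ![s2, s2, 1] ∈ H₀ := Subgroup.subset_closure (by rw [gen4]; simp)
    have h5 : J ![s2, 1, s2] ∈ H₀ := Subgroup.subset_closure (by rw [gen5]; simp)
    have hA : ∀ f : Fin 3 → Perm (Fin 3), sign (f 0) = 1 → sign (f 1) = 1 → sign (f 2) = 1 →
        J f ∈ H₀ := by
      intro f e0 e1 e2
      obtain ⟨a, ha⟩ := eq_pow_c3 _ e0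
      obtain ⟨b, hb⟩ := eq_pow_c3 _ e1
      obtain ⟨c, hc⟩ := eq_pow_c3 _ e2
      have : f = ![c3, 1, 1] ^ (a : ℕ) * ![1, c3, 1] ^ (b : ℕ) * ![1, 1, c3] ^ (c : ℕ) := by
        funext i
        fin_cases i
        · simpa using ha
        · simpa using hb
        · simpa using hc
      rw [this, map_mul, map_mul, map_pow, map_pow, map_pow]
      exact mul_mem (mul_mem (pow_mem h1 _) (pow_mem h2 _)) (pow_mem h3 _)
    rintro _ ⟨f, hf, rfl⟩
    rw [SetLike.mem_coe, mem_K] at hf
    have hs : sign s2 = -1 := by decide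
    rcases Int.units_eq_one_or (sign (f 0)) with e0 | e0 <;>
      rcases Int.units_eq_one_or (sign (f 1)) with e1 | e1 <;>
      rcases Int.units_eq_one_or (sign (f 2)) with e2 | e2 <;>
      rw [e0, e1, e2] at hf
    · exact hA f e0 e1 e2
    · exact absurd hf (by decide)
    · exact absurd hf (by decide)
    · have h6 := hA (f * (![s2, s2, 1] * ![s2, 1, s2])) (by simp [e0, hs]) (by simp [e1, hs]) (by simp [e2, hs])
      rw [map_mul, map_mul] at h6
      exact (Subgroup.mul_mem_cancel_right _ (mul_mem h4 h5)).1 h6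
    · exact absurd hf (by decide)
    · have h6 := hA (f * ![s2, 1, s2]) (by simp [e0, hs]) (by simp [e1]) (by simp [e2, hs])
      rw [map_mul] at h6
      exact (Subgroup.mul_mem_cancel_right _ h5).1 h6
    · have h6 := hA (f * ![s2, s2, 1]) (by simp [e0, hs]) (by simp [e1, hs]) (by simp [e2])
      rw [map_mul] at h6
      exact (Subgroup.mul_mem_cancel_right _ h4).1 h6
    · exact absurd hf (by decide)

/-- the isomorphism of the group of the statement with the model -/
noncomputable def equiv : ↥H₀ ≃* ↥K :=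
  (MulEquiv.subgroupCongr H₀_eq).trans (K.equivMapOfInjective J J_injective).symm

end Cfsg.Agent.H431.Block
end

-- part: H431/BlockSums
section
/-!
# Class functions of `3^3 : 2^2`
-/

set_option autoImplicit false

open Cfsg

namespace Cfsg.Agent.H431.Block

open Equiv Equiv.Perm Cfsg.Agent.Characters.Core Cfsg.Agent.OddOrderCharacters.VChar

open scoped ComplexConjugate

/-- the sign as a complex number -/
def sg (x : Perm (Fin 3)) : ℂ := ((sign x : ℤ) : ℂ)

/-- three times the indicator function of the 3-cycles, as an integer -/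
def phZ (x : Perm (Fin 3)) : ℤ := if x ≠ 1 ∧ sign x = 1 then 3 else 0

/-- three times the indicator function of the 3-cycles -/
def ph (x : Perm (Fin 3)) : ℂ := (phZ x : ℂ)

theorem phZ_eq : ∀ x : Perm (Fin 3),
    phZ x = 2 + (sign x : ℤ) - ((Finset.univ.filter (fun i => x i = i)).card : ℤ) := by
  decide

theorem sum_phZ : ∑ x : Perm (Fin 3), phZ x = 6 := by decide
theorem sum_sign : ∑ x : Perm (Fin 3), (sign x : ℤ) = 0 := by decide
theorem sum_phZ_sign : ∑ x : Perm (Fin 3), phZ x * (sign x : ℤ) = 6 := by decide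
theorem sum_phZ_sq : ∑ x : Perm (Fin 3), phZ x * phZ x = 18 := by decide

/-- the sum over the model group of a product function, twice -/
theorem sum_K (a : Fin 3 → Perm (Fin 3) → ℂ) [Fintype K] :
    2 * ∑ k : K, ∏ i, a i ((k : Fin 3 → Perm (Fin 3)) i) =
      ∏ i, ∑ x, a i x + ∏ i, ∑ x, a i x * sg x := by
  classical
  have h1 : ∑ k : K, ∏ i, a i ((k : Fin 3 → Perm (Fin 3)) i) =
      ∑ f : Fin 3 → Perm (Fin 3), if f ∈ K then ∏ i, a i (f i) else 0 := by
    rw [← Finset.sum_filter]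
    symm
    apply Finset.sum_subtype
    intro x
    simp
  have h2 : ∀ f : Fin 3 → Perm (Fin 3), 2 * (if f ∈ K then ∏ i, a i (f i) else 0) =
      ∏ i, a i (f i) + ∏ i, a i (f i) * sg (f i) := by
    intro f
    rw [Finset.prod_mul_distrib]
    have h3 : ∏ i, sg (f i) = (((sign (f 0) * sign (f 1) * sign (f 2) : ℤˣ) : ℤ) : ℂ) := by
      rw [Fin.prod_univ_three]
      simp [sg]
    rw [h3]
    by_cases hf : f ∈ K
    · rw [if_pos hf, mem_K.1 hf]
      simp
      ring
    · rw [if_neg hf]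
      rcases Int.units_eq_one_or (sign (f 0) * sign (f 1) * sign (f 2)) with h | h
      · exact absurd (mem_K.2 h) hf
      · rw [h]
        simp
  rw [h1, Finset.mul_sum]
  simp_rw [h2]
  rw [Finset.sum_add_distrib]
  congr 1
  · rw [Finset.prod_univ_sum]
    simp
  · rw [Finset.prod_univ_sum]
    simp

/-- integral form of `sum_K` -/
theorem sum_KZ (a : Fin 3 → Perm (Fin 3) → ℤ) [Fintype K] :
    2 * ∑ k : K, (((∏ i, a i ((k : Fin 3 → Perm (Fin 3)) i) : ℤ)) : ℂ) =
      ((∏ i, ∑ x, a i x + ∏ i, ∑ x, a i x * (sign x : ℤ) : ℤ) : ℂ) := by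
  have h := sum_K (fun i x => (a i x : ℂ))
  push_cast
  rw [h]
  simp [sg]

theorem card_K : Nat.card K = 108 := by
  classical
  have := Fintype.ofFinite K
  have h := sum_KZ (fun _ _ => 1)
  have e : (∏ i : Fin 3, ∑ x : Perm (Fin 3), (1 : ℤ) + ∏ i : Fin 3, ∑ x : Perm (Fin 3), (1 : ℤ) * (sign x : ℤ)) = 216 := by
    decide
  rw [e] at h
  simp only [Finset.prod_const_one, Int.cast_one, Finset.sum_const, Finset.card_univ, nsmul_eq_mul,
    mul_one] at h
  rw [Nat.card_eq_fintype_card]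
  have h2 : (((2 * Fintype.card K : ℕ)) : ℂ) = ((216 : ℕ) : ℂ) := by
    push_cast
    push_cast at h
    exact h
  have h3 : 2 * Fintype.card K = 216 := by exact_mod_cast h2
  omega

section

variable {X : Type*} [Group X] (E : X ≃* K)

/-- the `i`-th component -/
def cmp (i : Fin 3) : X →* Perm (Fin 3) :=
  (Pi.evalMonoidHom (fun _ : Fin 3 => Perm (Fin 3)) i).comp (K.subtype.comp E.toMonoidHom)

theorem cmp_apply (i : Fin 3) (x : X) : cmp E i x = (E x : Fin 3 → Perm (Fin 3)) i := rfl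

theorem sign_cmp (x : X) : sign (cmp E 0 x) * sign (cmp E 1 x) * sign (cmp E 2 x) = 1 :=
  mem_K.1 (E x).2

/-- product functions -/
def pf (a : Fin 3 → Perm (Fin 3) → ℤ) (x : X) : ℂ := ((∏ i, a i (cmp E i x) : ℤ) : ℂ)

theorem classInner_pf [Fintype X] (a b : Fin 3 → Perm (Fin 3) → ℤ) :
    216 * classInner (pf E a) (pf E b) =
      ((∏ i, ∑ x, a i x * b i x + ∏ i, ∑ x, a i x * b i x * (sign x : ℤ) : ℤ) : ℂ) := by
  classical
  have := Fintype.ofFinite K
  rw [classInner_def, Nat.card_congr E.toEquiv, card_K]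
  have h1 : ∑ g : X, pf E a g * conj (pf E b g) =
      ∑ k : K, (((∏ i, (a i ((k : Fin 3 → Perm (Fin 3)) i) * b i ((k : Fin 3 → Perm (Fin 3)) i)) : ℤ)) : ℂ) := by
    rw [← Equiv.sum_comp E.toEquiv]
    refine Finset.sum_congr rfl fun g _ => ?_
    rw [pf, pf, map_intCast, Finset.prod_mul_distrib]
    push_cast
    rfl
  have h2 := sum_KZ (fun i x => a i x * b i x)
  rw [h1, ← h2]
  push_cast
  ring

/-- the coordinates of `φ_i` -/
def aph (i c : Fin 3) (x : Perm (Fin 3)) : ℤ := if c = i then phZ x else 1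

/-- the coordinates of `ψ_i` -/
def aps (i c : Fin 3) (x : Perm (Fin 3)) : ℤ :=
  if c = i then phZ x else if c = i + 1 then (sign x : ℤ) else 1

/-- the coordinates of the constant 1 -/
def aone (_ : Fin 3) (_ : Perm (Fin 3)) : ℤ := 1

/-- the coordinates of the function with value 4 on the coset of `v_i` -/
def ath (i c : Fin 3) (x : Perm (Fin 3)) : ℤ :=
  if c = i then 1 + (sign x : ℤ) else if c = i + 1 then 1 - (sign x : ℤ) else 1

theorem v_phi_phi : ∀ i : Fin 3, (∏ c, ∑ x, aph i c x * aph i c x +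
    ∏ c, ∑ x, aph i c x * aph i c x * (sign x : ℤ) : ℤ) = 648 := by decide
theorem v_phi_phi' : ∀ i j : Fin 3, i ≠ j → (∏ c, ∑ x, aph i c x * aph j c x +
    ∏ c, ∑ x, aph i c x * aph j c x * (sign x : ℤ) : ℤ) = 216 := by decide
theorem v_phi_one : ∀ i : Fin 3, (∏ c, ∑ x, aph i c x * aone c x +
    ∏ c, ∑ x, aph i c x * aone c x * (sign x : ℤ) : ℤ) = 216 := by decide
theorem v_psi_psi : ∀ i : Fin 3, (∏ c, ∑ x, aps i c x * aps i c x +
    ∏ c, ∑ x, aps i c x * aps i c x * (sign x : ℤ) : ℤ) = 648 := by decide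
theorem v_psi_one : ∀ i : Fin 3, (∏ c, ∑ x, aps i c x * aone c x +
    ∏ c, ∑ x, aps i c x * aone c x * (sign x : ℤ) : ℤ) = 0 := by decide
theorem v_phi_psi : ∀ i : Fin 3, (∏ c, ∑ x, aph i c x * aps i c x +
    ∏ c, ∑ x, aph i c x * aps i c x * (sign x : ℤ) : ℤ) = 0 := by decide
theorem v_phi_psi' : ∀ i j : Fin 3, i ≠ j → (∏ c, ∑ x, aph i c x * aps j c x +
    ∏ c, ∑ x, aph i c x * aps j c x * (sign x : ℤ) : ℤ) = 216 := by decide
theorem v_th_one : ∀ i : Fin 3, (∏ c, ∑ x, ath i c x * aone c x +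
    ∏ c, ∑ x, ath i c x * aone c x * (sign x : ℤ) : ℤ) = 216 := by decide

end

end Cfsg.Agent.H431.Block
end

-- part: H431/BlockConj
section
/-!
# Conjugacy in `3^3 : 2^2`
-/

set_option autoImplicit false

namespace Cfsg.Agent.H431.Block

open Equiv Equiv.Perm

theorem exists_conj_s2 : ∀ x : Perm (Fin 3), sign x = -1 → ∀ ε : ℤˣ, ∃ g : Perm (Fin 3),
    sign g = ε ∧ g * x * g⁻¹ = s2 := by decide

theorem exists_conj_c3 : ∀ x : Perm (Fin 3), sign x = 1 → x ≠ 1 → ∃ g : Perm (Fin 3),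
    g * x * g⁻¹ = c3 := by decide

theorem sq_one : ∀ x : Perm (Fin 3), x * x = 1 → x = 1 ∨ sign x = -1 := by decide

theorem sign_s2 : sign s2 = -1 := by decide
theorem sign_c3 : sign c3 = 1 := by decide
theorem s2_mul : s2 * s2 = 1 := by decide
theorem s2_ne : s2 ≠ 1 := by decide
theorem c3_ne : c3 ≠ 1 := by decide

/-- the involution `v_i` -/
def zf (i : Fin 3) : Fin 3 → Perm (Fin 3) := fun c => if c = i then 1 else s2

/-- the element `v_i t_i` -/
def wf (i : Fin 3) : Fin 3 → Perm (Fin 3) := fun c => if c = i then c3 else s2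

theorem zf_mem (i : Fin 3) : zf i ∈ K := by
  rw [mem_K]
  revert i
  decide

theorem wf_mem (i : Fin 3) : wf i ∈ K := by
  rw [mem_K]
  revert i
  decide

theorem zf_mul (i : Fin 3) : zf i * zf i = 1 := by
  revert i
  decide

theorem zf_ne (i : Fin 3) : zf i ≠ 1 := by
  revert i
  decide

/-- three components, starting at `i` -/
def tri (i : Fin 3) (a b c : Perm (Fin 3)) : Fin 3 → Perm (Fin 3) :=
  fun j => if j = i then a else if j = i + 1 then b else c

theorem tri_mem (i : Fin 3) (a b c : Perm (Fin 3)) (h : sign a * sign b * sign c = 1) :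
    tri i a b c ∈ K := by
  rw [mem_K]
  fin_cases i
  · simpa [tri] using h
  · have : sign c * sign a * sign b = 1 := by rw [← h]; exact mul_rotate (sign c) (sign a) (sign b)
    simpa [tri] using this
  · have : sign b * sign c * sign a = 1 := by rw [← h]; exact (mul_rotate (sign a) (sign b) (sign c)).symm
    simpa [tri] using this

theorem eq_tri (i : Fin 3) (f : Fin 3 → Perm (Fin 3)) : f = tri i (f i) (f (i + 1)) (f (i + 2)) := by
  funext j
  fin_cases i <;> fin_cases j <;> simp [tri]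

theorem sign_tri (i : Fin 3) {f : Fin 3 → Perm (Fin 3)} (hf : f ∈ K) :
    sign (f i) * sign (f (i + 1)) * sign (f (i + 2)) = 1 := by
  rw [mem_K] at hf
  fin_cases i
  · exact hf
  · change sign (f 1) * sign (f 2) * sign (f 0) = 1
    rw [← hf]
    exact (mul_rotate (sign (f 0)) (sign (f 1)) (sign (f 2))).symm
  · change sign (f 2) * sign (f 0) * sign (f 1) = 1
    rw [← hf]
    exact mul_rotate (sign (f 2)) (sign (f 0)) (sign (f 1))

theorem zf_eq (i : Fin 3) : zf i = tri i 1 s2 s2 := by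
  funext j
  fin_cases i <;> fin_cases j <;> simp [tri, zf]

theorem wf_eq (i : Fin 3) : wf i = tri i c3 s2 s2 := by
  funext j
  fin_cases i <;> fin_cases j <;> simp [tri, wf]

theorem tri_mul (i : Fin 3) (a b c a' b' c' : Perm (Fin 3)) :
    tri i a b c * tri i a' b' c' = tri i (a * a') (b * b') (c * c') := by
  funext j
  fin_cases i <;> fin_cases j <;> simp [tri]

theorem tri_inv (i : Fin 3) (a b c : Perm (Fin 3)) : (tri i a b c)⁻¹ = tri i a⁻¹ b⁻¹ c⁻¹ := by
  funext j
  fin_cases i <;> fin_cases j <;> simp [tri]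

theorem tri_one (i : Fin 3) : tri i 1 1 1 = 1 := by
  funext j
  fin_cases i <;> fin_cases j <;> simp [tri]

theorem signs {i : Fin 3} {f : Fin 3 → Perm (Fin 3)} (hf : f ∈ K) (h1 : sign (f i) = 1)
    (h2 : sign (f (i + 1)) = -1) : sign (f (i + 2)) = -1 := by
  have h := sign_tri i hf
  rw [h1, h2] at h
  rcases Int.units_eq_one_or (sign (f (i + 2))) with h3 | h3
  · rw [h3] at h
    exact absurd h (by decide)
  · exact h3

/-- the elements with trivial `i`-component and odd `(i+1)`-component are conjugate to `v_i` -/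
theorem conj_zf {i : Fin 3} {f : Fin 3 → Perm (Fin 3)} (hf : f ∈ K) (h1 : f i = 1)
    (h2 : sign (f (i + 1)) = -1) : ∃ g ∈ K, g * f * g⁻¹ = zf i := by
  have h3 := signs hf (by rw [h1, map_one]) h2
  obtain ⟨a, ha, ha'⟩ := exists_conj_s2 _ h2 1
  obtain ⟨b, hb, hb'⟩ := exists_conj_s2 _ h3 1
  refine ⟨tri i 1 a b, tri_mem i _ _ _ (by rw [map_one, ha, hb]; rfl), ?_⟩
  rw [eq_tri i f, tri_inv, tri_mul, tri_mul, h1, ha', hb', zf_eq]
  simp

/-- the elements with a 3-cycle as `i`-component and odd `(i+1)`-component are conjugate -/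
theorem conj_wf {i : Fin 3} {f : Fin 3 → Perm (Fin 3)} (hf : f ∈ K) (h0 : f i ≠ 1)
    (h1 : sign (f i) = 1) (h2 : sign (f (i + 1)) = -1) : ∃ g ∈ K, g * f * g⁻¹ = wf i := by
  have h3 := signs hf h1 h2
  obtain ⟨c, hc⟩ := exists_conj_c3 _ h1 h0
  obtain ⟨a, ha, ha'⟩ := exists_conj_s2 _ h2 (sign c)
  obtain ⟨b, hb, hb'⟩ := exists_conj_s2 _ h3 1
  refine ⟨tri i c a b, tri_mem i _ _ _ (by rw [ha, hb, mul_one]; exact Int.units_mul_self _), ?_⟩
  rw [eq_tri i f, tri_inv, tri_mul, tri_mul, hc, ha', hb', wf_eq]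

/-- the involutions of the model group -/
theorem exists_zf {f : Fin 3 → Perm (Fin 3)} (hf : f ∈ K) (h1 : f * f = 1) (h2 : f ≠ 1) :
    ∃ j : Fin 3, f j = 1 ∧ sign (f (j + 1)) = -1 := by
  have h3 : ∀ c, f c = 1 ∨ sign (f c) = -1 := fun c => sq_one _ (congrFun h1 c)
  rw [mem_K] at hf
  rcases h3 0 with e0 | e0 <;> rcases h3 1 with e1 | e1 <;> rcases h3 2 with e2 | e2
  · exfalso
    apply h2
    funext c
    fin_cases c
    · exact e0
    · exact e1
    · exact e2
  · rw [e0, e1, e2] at hf; exact absurd hf (by decide)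
  · rw [e0, e1, e2] at hf; exact absurd hf (by decide)
  · exact ⟨0, e0, e1⟩
  · rw [e0, e1, e2] at hf; exact absurd hf (by decide)
  · exact ⟨1, e1, e2⟩
  · exact ⟨2, e2, e0⟩
  · rw [e0, e1, e2] at hf; exact absurd hf (by decide)

end Cfsg.Agent.H431.Block
end

-- part: H431/BlockChar
section
/-!
# Exceptional characters for `3^3 : 2^2`

Main result `exists_normal`: in a finite group `G` with a subgroup `H ≅ 3^3 : 2^2` such that the
elements of `H` with a component of order 3 have controlled fusion, each of the three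
involutions `v_i` lies in a proper normal subgroup of `G`.
-/

set_option autoImplicit false

open Cfsg

namespace Cfsg.Agent.H431.Block

open Equiv Equiv.Perm Cfsg.Agent.Characters.Core Cfsg.Agent.OddOrderCharacters.VChar
open Cfsg.Agent.H431.ExcChar Cfsg.Agent.OddOrderCharacters.IndRes

open scoped ComplexConjugate

/-! ### generalized characters of the subgroup -/

theorem gen_comp {X Y : Type*} [Group X] [Group Y] (f : X →* Y) {θ : Y → ℂ}
    (h : IsGeneralizedCharacter Y θ) : IsGeneralizedCharacter X (fun x => θ (f x)) := by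
  obtain ⟨a, b, ha, hb, rfl⟩ := h
  exact ⟨fun x => a (f x), fun x => b (f x), isCharacter_comp f ha, isCharacter_comp f hb, rfl⟩

theorem gen_sg : IsGeneralizedCharacter (Perm (Fin 3)) sg := by
  have h := Cfsg.Agent.Characters.Linear.isIrrCharacter_hom
    ((Units.map (Int.castRingHom ℂ).toMonoidHom).comp (sign : Perm (Fin 3) →* ℤˣ))
  exact gen_of_irr h

theorem gen_ph : IsGeneralizedCharacter (Perm (Fin 3)) ph := by
  have h1 : IsCharacter (Perm (Fin 3)) (fun g : Perm (Fin 3) => (Nat.card (MulAction.fixedBy (Fin 3) g) : ℂ)) :=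
    Cfsg.Agent.S0157.isCharacter_fixedBy (Fin 3)
  have h2 : ph = (1 + 1 + sg) - (fun g : Perm (Fin 3) => (Nat.card (MulAction.fixedBy (Fin 3) g) : ℂ)) := by
    funext x
    simp only [ph, phZ_eq, Pi.sub_apply, Pi.add_apply, Pi.one_apply, sg]
    have h3 : Nat.card (MulAction.fixedBy (Fin 3) x) = (Finset.univ.filter (fun i => x i = i)).card := by
      rw [Nat.card_eq_fintype_card]
      exact Fintype.card_subtype _
    rw [h3]
    push_cast
    ring
  rw [h2]
  exact gen_sub (gen_add (gen_add gen_one gen_one) gen_sg) (gen_of_char h1)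

section

variable {X : Type*} [Group X] (E : X ≃* K)

theorem pf_aph (i : Fin 3) : pf E (aph i) = fun x => ph (cmp E i x) := by
  funext x
  rw [pf, Fin.prod_univ_three]
  fin_cases i <;> simp [aph, ph]

theorem pf_aps (i : Fin 3) : pf E (aps i) = fun x => ph (cmp E i x) * sg (cmp E (i + 1) x) := by
  funext x
  rw [pf, Fin.prod_univ_three]
  fin_cases i <;> simp [aps, ph, sg] <;> ring

theorem pf_ath (i : Fin 3) :
    pf E (ath i) = fun x => (1 + sg (cmp E i x)) * (1 - sg (cmp E (i + 1) x)) := by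
  funext x
  rw [pf, Fin.prod_univ_three]
  fin_cases i <;> simp [ath, sg] <;> ring

theorem pf_aone : pf E aone = 1 := by
  funext x
  rw [pf, Fin.prod_univ_three]
  simp [aone]

theorem gen_phi (i : Fin 3) : IsGeneralizedCharacter X (pf E (aph i)) := by
  rw [pf_aph]
  exact gen_comp (cmp E i) gen_ph

theorem gen_psi (i : Fin 3) : IsGeneralizedCharacter X (pf E (aps i)) := by
  rw [pf_aps]
  exact gen_mul (gen_comp (cmp E i) gen_ph) (gen_comp (cmp E (i + 1)) gen_sg)

theorem gen_th (i : Fin 3) : IsGeneralizedCharacter X (pf E (ath i)) := by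
  rw [pf_ath]
  exact gen_mul (gen_add gen_one (gen_comp (cmp E i) gen_sg))
    (gen_sub gen_one (gen_comp (cmp E (i + 1)) gen_sg))

variable [Fintype X]

theorem cl_of {a b : Fin 3 → Perm (Fin 3) → ℤ} {n : ℤ}
    (h : (∏ c, ∑ x, a c x * b c x + ∏ c, ∑ x, a c x * b c x * (sign x : ℤ) : ℤ) = 216 * n) :
    classInner (pf E a) (pf E b) = n := by
  have h1 := classInner_pf E a b
  rw [h] at h1
  push_cast at h1
  have h2 : (216 : ℂ) ≠ 0 := by norm_num
  exact mul_left_cancel₀ h2 h1

theorem phi_phi (i : Fin 3) : classInner (pf E (aph i)) (pf E (aph i)) = 3 := by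
  have := cl_of E (a := aph i) (b := aph i) (n := 3) (by rw [v_phi_phi]; norm_num)
  simpa using this

theorem phi_phi' {i j : Fin 3} (h : i ≠ j) : classInner (pf E (aph i)) (pf E (aph j)) = 1 := by
  have := cl_of E (a := aph i) (b := aph j) (n := 1) (by rw [v_phi_phi' i j h]; norm_num)
  simpa using this

theorem phi_one (i : Fin 3) : classInner (pf E (aph i)) 1 = 1 := by
  have := cl_of E (a := aph i) (b := aone) (n := 1) (by rw [v_phi_one]; norm_num)
  rw [pf_aone] at this
  simpa using this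

theorem psi_psi (i : Fin 3) : classInner (pf E (aps i)) (pf E (aps i)) = 3 := by
  have := cl_of E (a := aps i) (b := aps i) (n := 3) (by rw [v_psi_psi]; norm_num)
  simpa using this

theorem psi_one (i : Fin 3) : classInner (pf E (aps i)) 1 = 0 := by
  have := cl_of E (a := aps i) (b := aone) (n := 0) (by rw [v_psi_one]; norm_num)
  rw [pf_aone] at this
  simpa using this

theorem phi_psi (i : Fin 3) : classInner (pf E (aph i)) (pf E (aps i)) = 0 := by
  have := cl_of E (a := aph i) (b := aps i) (n := 0) (by rw [v_phi_psi]; norm_num)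
  simpa using this

theorem phi_psi' {i j : Fin 3} (h : i ≠ j) : classInner (pf E (aph i)) (pf E (aps j)) = 1 := by
  have := cl_of E (a := aph i) (b := aps j) (n := 1) (by rw [v_phi_psi' i j h]; norm_num)
  simpa using this

theorem th_one (i : Fin 3) : classInner (pf E (ath i)) 1 = 1 := by
  have := cl_of E (a := ath i) (b := aone) (n := 1) (by rw [v_th_one]; norm_num)
  rw [pf_aone] at this
  simpa using this

/-! ### values at `v_i t_i` and `v_i` -/

/-- the element `v_i` of the subgroup -/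
def zz (i : Fin 3) : X := E.symm ⟨zf i, zf_mem i⟩

/-- the element `v_i t_i` of the subgroup -/
def ww (i : Fin 3) : X := E.symm ⟨wf i, wf_mem i⟩

omit [Fintype X] in
theorem zz_mul (i : Fin 3) : zz E i * zz E i = 1 := by
  rw [zz, ← map_mul, ← map_one E.symm]
  congr 1
  exact Subtype.ext (zf_mul i)

omit [Fintype X] in
theorem apply_zz (i : Fin 3) (x : X) (h1 : cmp E i x = 1) (h2 : sign (cmp E (i + 1) x) = -1)
    {χ : X → ℂ} (hχ : IsClassFunction X χ) : χ x = χ (zz E i) := by
  obtain ⟨g, hg, hgx⟩ := conj_zf (E x).2 h1 h2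
  have h3 : E.symm ⟨g, hg⟩ * x * (E.symm ⟨g, hg⟩)⁻¹ = zz E i := by
    apply E.injective
    rw [map_mul, map_mul, map_inv, MulEquiv.apply_symm_apply, zz, MulEquiv.apply_symm_apply]
    exact Subtype.ext hgx
  rw [← h3, hχ]

omit [Fintype X] in
theorem apply_ww (i : Fin 3) (x : X) (h0 : cmp E i x ≠ 1) (h1 : sign (cmp E i x) = 1)
    (h2 : sign (cmp E (i + 1) x) = -1)
    {χ : X → ℂ} (hχ : IsClassFunction X χ) : χ x = χ (ww E i) := by
  obtain ⟨g, hg, hgx⟩ := conj_wf (E x).2 h0 h1 h2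
  have h3 : E.symm ⟨g, hg⟩ * x * (E.symm ⟨g, hg⟩)⁻¹ = ww E i := by
    apply E.injective
    rw [map_mul, map_mul, map_inv, MulEquiv.apply_symm_apply, ww, MulEquiv.apply_symm_apply]
    exact Subtype.ext hgx
  rw [← h3, hχ]

theorem inner_const {X : Type*} [Group X] [Fintype X] (α : X → ℂ) (χ : X → ℂ) (c : ℂ)
    (h : ∀ x, α x ≠ 0 → χ x = c) : classInner α χ = conj c * classInner α 1 := by
  have h1 : ∑ x : X, α x * conj (χ x) = conj c * ∑ x : X, α x * conj ((1 : X → ℂ) x) := by
    rw [Finset.mul_sum]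
    refine Finset.sum_congr rfl fun x _ => ?_
    by_cases hx : α x = 0
    · rw [hx]; ring
    · rw [h x hx]
      simp
      ring
  rw [classInner_def, classInner_def, h1]
  ring

omit [Fintype X] in
theorem phi_sub_psi (i : Fin 3) (x : X) (h : (pf E (aph i) - pf E (aps i)) x ≠ 0) :
    cmp E i x ≠ 1 ∧ sign (cmp E i x) = 1 ∧ sign (cmp E (i + 1) x) = -1 := by
  rw [pf_aph, pf_aps] at h
  have h1 : ph (cmp E i x) * (1 - sg (cmp E (i + 1) x)) ≠ 0 := by
    intro h2
    apply h
    simp only [Pi.sub_apply]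
    linear_combination h2
  have h2 : ph (cmp E i x) ≠ 0 := left_ne_zero_of_mul h1
  have h3 : 1 - sg (cmp E (i + 1) x) ≠ 0 := right_ne_zero_of_mul h1
  have h4 : cmp E i x ≠ 1 ∧ sign (cmp E i x) = 1 := by
    by_contra hcon
    apply h2
    rw [ph, phZ, if_neg hcon, Int.cast_zero]
  refine ⟨h4.1, h4.2, ?_⟩
  rcases Int.units_eq_one_or (sign (cmp E (i + 1) x)) with h5 | h5
  · exfalso
    apply h3
    rw [sg, h5]
    simp
  · exact h5

theorem inner_ww (i : Fin 3) {χ : X → ℂ} (hχ : IsClassFunction X χ) :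
    classInner (pf E (aph i)) χ - classInner (pf E (aps i)) χ = conj (χ (ww E i)) := by
  rw [← classInner_sub_left]
  rw [inner_const (pf E (aph i) - pf E (aps i)) χ (χ (ww E i))]
  · rw [classInner_sub_left, phi_one, psi_one, sub_zero, mul_one]
  · intro x hx
    obtain ⟨h1, h2, h3⟩ := phi_sub_psi E i x hx
    exact apply_ww E i x h1 h2 h3 hχ

theorem inner_zz (i : Fin 3) {χ : X → ℂ} (hχ : IsClassFunction X χ) :
    3 * classInner (pf E (ath i)) χ = conj (χ (zz E i)) + 2 * conj (χ (ww E i)) := by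
  have h1 : classInner (pf E (ath i) - (2 / 3 : ℂ) • (pf E (aph i) - pf E (aps i))) χ =
      conj (χ (zz E i)) * classInner (pf E (ath i) - (2 / 3 : ℂ) • (pf E (aph i) - pf E (aps i))) 1 := by
    apply inner_const
    intro x hx
    have h2 : (1 + sg (cmp E i x)) * (1 - sg (cmp E (i + 1) x)) -
        2 / 3 * (ph (cmp E i x) - ph (cmp E i x) * sg (cmp E (i + 1) x)) ≠ 0 := by
      intro h3
      apply hx
      rw [pf_ath, pf_aph, pf_aps]
      simp only [Pi.sub_apply, Pi.smul_apply, smul_eq_mul]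
      exact h3
    have h3 : (1 + sg (cmp E i x) - 2 / 3 * ph (cmp E i x)) * (1 - sg (cmp E (i + 1) x)) ≠ 0 := by
      intro h4
      apply h2
      linear_combination h4
    have h4 := left_ne_zero_of_mul h3
    have h5 := right_ne_zero_of_mul h3
    have h6 : sign (cmp E (i + 1) x) = -1 := by
      rcases Int.units_eq_one_or (sign (cmp E (i + 1) x)) with h7 | h7
      · exfalso
        apply h5
        rw [sg, h7]
        simp
      · exact h7
    have h7 : cmp E i x = 1 := by
      by_contra h8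
      apply h4
      rcases Int.units_eq_one_or (sign (cmp E i x)) with h9 | h9
      · rw [sg, ph, phZ, if_pos ⟨h8, h9⟩, h9]
        norm_num
      · have h10 : ¬ (cmp E i x ≠ 1 ∧ sign (cmp E i x) = 1) := by
          rintro ⟨-, h11⟩
          rw [h9] at h11
          exact absurd h11 (by decide)
        rw [sg, ph, phZ, if_neg h10, h9]
        norm_num
    exact apply_zz E i x h7 h6 hχ
  rw [classInner_sub_left, classInner_smul_left, classInner_sub_left, inner_ww E i hχ,
    classInner_sub_left, classInner_smul_left, classInner_sub_left, th_one, phi_one, psi_one] at h1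
  linear_combination 3 * h1

end

end Cfsg.Agent.H431.Block
end

-- part: H431/BlockMain
section
/-!
# The exceptional characters of a group with a subgroup `3^3 : 2^2`
-/

set_option autoImplicit false

open Cfsg

namespace Cfsg.Agent.H431.Block

open Equiv Equiv.Perm Cfsg.Agent.Characters.Core Cfsg.Agent.OddOrderCharacters.VChar
open Cfsg.Agent.H431.ExcChar Cfsg.Agent.OddOrderCharacters.IndRes

open scoped ComplexConjugate

variable {G : Type*} [Group G]

/-- controlled fusion of the elements with a component of order 3 -/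
def Fus (H : Subgroup G) (E : H ≃* K) : Prop :=
  ∀ (y : H) (i : Fin 3), cmp E i y ≠ 1 → sign (cmp E i y) = 1 → ∀ g : G, g * y * g⁻¹ ∈ H → g ∈ H

/-- `v_i` as an element of `G` -/
def zg {H : Subgroup G} (E : H ≃* K) (i : Fin 3) : G := ((zz E i : H) : G)

/-- `v_i t_i` as an element of `G` -/
def wg {H : Subgroup G} (E : H ≃* K) (i : Fin 3) : G := ((ww E i : H) : G)

theorem ph_ne {x : Perm (Fin 3)} (h : ph x ≠ 0) : x ≠ 1 ∧ sign x = 1 := by
  by_contra hcon
  exact h (by rw [ph, phZ, if_neg hcon, Int.cast_zero])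

section

variable [Fintype G] (H : Subgroup G) [Fintype H] (E : H ≃* K)

theorem supp_phi (hF : Fus H E) (i : Fin 3) (y : H) (hy : pf E (aph i) y ≠ 0) (g : G)
    (hg : g * y * g⁻¹ ∈ H) : g ∈ H := by
  rw [pf_aph] at hy
  obtain ⟨h1, h2⟩ := ph_ne hy
  exact hF y i h1 h2 g hg

theorem supp_psi (hF : Fus H E) (i : Fin 3) (y : H) (hy : pf E (aps i) y ≠ 0) (g : G)
    (hg : g * y * g⁻¹ ∈ H) : g ∈ H := by
  rw [pf_aps] at hy
  obtain ⟨h1, h2⟩ := ph_ne (left_ne_zero_of_mul hy)
  exact hF y i h1 h2 g hg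

/-- `X_i` -/
noncomputable def XX (i : Fin 3) : G → ℂ := indFun H (pf E (aph i))

/-- `Y_i` -/
noncomputable def YY (i : Fin 3) : G → ℂ := indFun H (pf E (aps i))

theorem gen_XX (i : Fin 3) : IsGeneralizedCharacter G (XX H E i) :=
  isGeneralizedCharacter_indFun H (gen_phi E i)

theorem gen_YY (i : Fin 3) : IsGeneralizedCharacter G (YY H E i) :=
  isGeneralizedCharacter_indFun H (gen_psi E i)

theorem XX_XX (hF : Fus H E) (i : Fin 3) : classInner (XX H E i) (XX H E i) = 3 := by
  rw [XX, classInner_ind_ind H (gen_isClassFunction (gen_phi E i)) (supp_phi H E hF i), phi_phi]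

theorem XX_XX' (hF : Fus H E) {i j : Fin 3} (h : i ≠ j) :
    classInner (XX H E i) (XX H E j) = 1 := by
  rw [XX, XX, classInner_ind_ind H (gen_isClassFunction (gen_phi E j)) (supp_phi H E hF i),
    phi_phi' E h]

theorem YY_YY (hF : Fus H E) (i : Fin 3) : classInner (YY H E i) (YY H E i) = 3 := by
  rw [YY, classInner_ind_ind H (gen_isClassFunction (gen_psi E i)) (supp_psi H E hF i), psi_psi]

theorem XX_YY (hF : Fus H E) (i : Fin 3) : classInner (XX H E i) (YY H E i) = 0 := by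
  rw [XX, YY, classInner_ind_ind H (gen_isClassFunction (gen_psi E i)) (supp_phi H E hF i), phi_psi]

theorem XX_YY' (hF : Fus H E) {i j : Fin 3} (h : i ≠ j) :
    classInner (XX H E i) (YY H E j) = 1 := by
  rw [XX, YY, classInner_ind_ind H (gen_isClassFunction (gen_psi E j)) (supp_phi H E hF i),
    phi_psi' E h]

theorem XX_frob (i : Fin 3) {χ : G → ℂ} (hχ : IsClassFunction G χ) :
    classInner (XX H E i) χ = classInner (pf E (aph i)) (res H χ) :=
  classInner_indFun_left H _ hχ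

theorem YY_frob (i : Fin 3) {χ : G → ℂ} (hχ : IsClassFunction G χ) :
    classInner (YY H E i) χ = classInner (pf E (aps i)) (res H χ) :=
  classInner_indFun_left H _ hχ

theorem XX_one (i : Fin 3) : classInner (XX H E i) 1 = 1 := by
  rw [XX_frob H E i (isIrr_isClassFunction isIrr_one)]
  exact phi_one E i

theorem YY_one (i : Fin 3) : classInner (YY H E i) 1 = 0 := by
  rw [YY_frob H E i (isIrr_isClassFunction isIrr_one)]
  exact psi_one E i

/-- `X_i` vanishes at elements having no conjugate in the support of `φ_i` -/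
theorem XX_eq_zero (i : Fin 3) {g : G}
    (h : ∀ (x : G) (hx : x⁻¹ * g * x ∈ H), ¬ (cmp E i ⟨x⁻¹ * g * x, hx⟩ ≠ 1 ∧
      sign (cmp E i ⟨x⁻¹ * g * x, hx⟩) = 1)) : XX H E i g = 0 := by
  rw [XX, indFun_apply, Finset.sum_eq_zero, mul_zero]
  intro x _
  by_cases hx : x⁻¹ * g * x ∈ H
  · rw [extendByZero_of_mem H _ hx, pf_aph]
    by_contra hcon
    exact h x hx (ph_ne hcon)
  · exact extendByZero_of_notMem H _ hx

theorem XX_apply_one (i : Fin 3) : XX H E i 1 = 0 := by
  apply XX_eq_zero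
  rintro x hx ⟨h1, -⟩
  apply h1
  have : (⟨x⁻¹ * 1 * x, hx⟩ : H) = 1 := Subtype.ext (by simp)
  rw [this, map_one]

/-- the constituents of `X_i` -/
theorem exists_AB (hF : Fus H E) : ∃ A B : Fin 3 → G → ℂ, (∀ i, IsIrrCharacter G (A i)) ∧
    (∀ i, IsIrrCharacter G (B i)) ∧ (∀ i, A i ≠ 1) ∧ (∀ i, B i ≠ 1) ∧ (∀ i, A i ≠ B i) ∧
    ∀ i, XX H E i = 1 + A i - B i := by
  have h := fun i => SmallSimple.NormThree.exists_of_norm_three (gen_XX H E i) (XX_one H E i)
    (XX_XX H E hF i) (XX_apply_one H E i)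
  choose A B h1 h2 h3 h4 h5 h6 using h
  exact ⟨A, B, h1, h2, h3, h4, h5, h6⟩

variable {H E}

theorem inner_one {χ : G → ℂ} (hχ : IsIrrCharacter G χ) (h : χ ≠ 1) : classInner 1 χ = 0 :=
  classInner_irr_ne isIrr_one hχ (Ne.symm h)

theorem inner_one' {χ : G → ℂ} (hχ : IsIrrCharacter G χ) (h : χ ≠ 1) : classInner χ 1 = 0 :=
  classInner_irr_ne hχ isIrr_one h

/-- the constituents for different `i` are different -/
theorem distinct (hF : Fus H E) {A B : Fin 3 → G → ℂ} (hA : ∀ i, IsIrrCharacter G (A i))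
    (hB : ∀ i, IsIrrCharacter G (B i)) (hA1 : ∀ i, A i ≠ 1) (hB1 : ∀ i, B i ≠ 1)
    (hAB : ∀ i, A i ≠ B i) (hX : ∀ i, XX H E i = 1 + A i - B i) {i j : Fin 3} (hij : i ≠ j) :
    A i ≠ A j ∧ A i ≠ B j ∧ B i ≠ A j ∧ B i ≠ B j := by
  classical
  have h := XX_XX' H E hF hij
  rw [hX, hX, classInner_sub_left, classInner_add_left, classInner_sub_right, classInner_add_right,
    classInner_sub_right, classInner_add_right, classInner_sub_right, classInner_add_right,
    inner_one (hA j) (hA1 j), inner_one (hB j) (hB1 j), inner_one' (hA i) (hA1 i),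
    inner_one' (hB i) (hB1 i), classInner_irr isIrr_one isIrr_one, if_pos rfl,
    classInner_irr (hA i) (hA j), classInner_irr (hA i) (hB j), classInner_irr (hB i) (hA j),
    classInner_irr (hB i) (hB j)] at h
  have e1 : A i = A j → A i ≠ B j ∧ B i ≠ A j := fun h1 =>
    ⟨fun h2 => hAB j (h1.symm.trans h2), fun h2 => hAB i (h1.trans h2.symm)⟩
  have e2 : B i = B j → A i ≠ B j ∧ B i ≠ A j := fun h1 =>
    ⟨fun h2 => hAB i (h2.trans h1.symm), fun h2 => hAB j (h2.symm.trans h1)⟩
  by_cases h1 : A i = A j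
  · exfalso
    rw [if_pos h1, if_neg (e1 h1).1, if_neg (e1 h1).2] at h
    split_ifs at h <;> norm_num at h
  · by_cases h2 : B i = B j
    · exfalso
      rw [if_neg h1, if_pos h2, if_neg (e2 h2).1, if_neg (e2 h2).2] at h
      norm_num at h
    · rw [if_neg h1, if_neg h2] at h
      refine ⟨h1, ?_, ?_, h2⟩
      · intro h3
        rw [if_pos h3] at h
        split_ifs at h <;> norm_num at h
      · intro h3
        rw [if_pos h3] at h
        split_ifs at h <;> norm_num at h

theorem arith {a b c d e f : ℤ} (h1 : a = b) (h2 : c - d = 1) (h3 : e - f = 1)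
    (h : a ^ 2 + c ^ 2 + e ^ 2 + (b ^ 2 + d ^ 2 + f ^ 2) ≤ 3) :
    a = 0 ∧ (c = 0 ∨ c = 1) ∧ (e = 0 ∨ e = 1) := by
  subst h1
  have hd : d = c - 1 := by omega
  have hf : f = e - 1 := by omega
  subst hd hf
  have k1 : ∀ x : ℤ, 1 ≤ x ^ 2 + (x - 1) ^ 2 := by
    intro x
    rcases le_or_gt x 0 with h | h <;> nlinarith
  have k2 : ∀ x : ℤ, x ^ 2 + (x - 1) ^ 2 ≤ 2 → x = 0 ∨ x = 1 := by
    intro x hx
    have : 0 ≤ x := by nlinarith
    have : x ≤ 1 := by nlinarith
    omega
  have e1 := k1 c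
  have e2 := k1 e
  refine ⟨?_, k2 c (by nlinarith [sq_nonneg a]), k2 e (by nlinarith [sq_nonneg a])⟩
  have h4 : a ^ 2 ≤ 0 := by nlinarith
  have h5 := sq_nonneg a
  have h6 : a ^ 2 = 0 := le_antisymm h4 h5
  exact pow_eq_zero_iff (two_ne_zero) |>.1 h6

/-- the multiplicities of the `A_i` in `Y_j` -/
theorem YY_A (hF : Fus H E) {A B : Fin 3 → G → ℂ} (hA : ∀ i, IsIrrCharacter G (A i))
    (hB : ∀ i, IsIrrCharacter G (B i)) (hA1 : ∀ i, A i ≠ 1) (hB1 : ∀ i, B i ≠ 1)
    (hAB : ∀ i, A i ≠ B i) (hX : ∀ i, XX H E i = 1 + A i - B i) (j : Fin 3) :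
    classInner (YY H E j) (A j) = 0 ∧ ∀ i, i ≠ j → ∃ c : ℤ, (c = 0 ∨ c = 1) ∧
      classInner (YY H E j) (A i) = c := by
  have hd := fun {i j : Fin 3} (hij : i ≠ j) => distinct hF hA hB hA1 hB1 hAB hX hij
  have hinj : Function.Injective (Sum.elim A B) := by
    rintro (a | a) (b | b) h
    · by_contra hcon
      exact (hd (fun h' => hcon (congrArg Sum.inl h'))).1 h
    · exfalso
      by_cases hab : a = b
      · subst hab; exact hAB a h
      · exact (hd hab).2.1 h
    · exfalso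
      by_cases hab : a = b
      · subst hab; exact hAB a h.symm
      · exact (hd hab).2.2.1 h
    · by_contra hcon
      exact (hd (fun h' => hcon (congrArg Sum.inr h'))).2.2.2 h
  obtain ⟨m, hm, hle⟩ := bessel (gen_YY H E j) (n := 3) (by rw [YY_YY H E hF]; norm_num)
    (Sum.elim A B) (by rintro (i | i); exacts [hA i, hB i]) hinj
  rw [Fintype.sum_sum_type, Fin.sum_univ_three, Fin.sum_univ_three] at hle
  have hXY : ∀ i, classInner (YY H E j) (XX H E i) = (m (Sum.inl i) - m (Sum.inr i) : ℤ) := by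
    intro i
    rw [hX, classInner_sub_right, classInner_add_right, YY_one, zero_add]
    have e1 := hm (Sum.inl i)
    have e2 := hm (Sum.inr i)
    simp only [Sum.elim_inl, Sum.elim_inr] at e1 e2
    rw [e1, e2]
    push_cast
    rfl
  have e0 : m (Sum.inl j) = m (Sum.inr j) := by
    have h1 := hXY j
    rw [gen_inner_comm (gen_YY H E j) (gen_XX H E j), XX_YY H E hF] at h1
    have h2 : (m (Sum.inl j) - m (Sum.inr j) : ℤ) = 0 := by exact_mod_cast h1.symm
    omega
  have e1 : ∀ i, i ≠ j → m (Sum.inl i) - m (Sum.inr i) = 1 := by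
    intro i hij
    have h1 := hXY i
    rw [gen_inner_comm (gen_YY H E j) (gen_XX H E i), XX_YY' H E hF hij] at h1
    exact_mod_cast h1.symm
  have hcA : ∀ i, classInner (YY H E j) (A i) = m (Sum.inl i) := fun i => hm (Sum.inl i)
  have main : m (Sum.inl j) = 0 ∧ ∀ i, i ≠ j → m (Sum.inl i) = 0 ∨ m (Sum.inl i) = 1 := by
    have h3c : ∀ i : Fin 3, i = 0 ∨ i = 1 ∨ i = 2 := by decide
    rcases h3c j with rfl | rfl | rfl
    · obtain ⟨h1, h2, h3⟩ := arith e0 (e1 1 (by decide)) (e1 2 (by decide)) (by linarith)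
      refine ⟨h1, fun i hi => ?_⟩
      rcases h3c i with rfl | rfl | rfl
      · exact absurd rfl hi
      · exact h2
      · exact h3
    · obtain ⟨h1, h2, h3⟩ := arith e0 (e1 0 (by decide)) (e1 2 (by decide)) (by linarith)
      refine ⟨h1, fun i hi => ?_⟩
      rcases h3c i with rfl | rfl | rfl
      · exact h2
      · exact absurd rfl hi
      · exact h3
    · obtain ⟨h1, h2, h3⟩ := arith e0 (e1 0 (by decide)) (e1 1 (by decide)) (by linarith)
      refine ⟨h1, fun i hi => ?_⟩
      rcases h3c i with rfl | rfl | rfl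
      · exact h2
      · exact h3
      · exact absurd rfl hi
  refine ⟨by rw [hcA, main.1]; simp, fun i hi => ⟨m (Sum.inl i), main.2 i hi, hcA i⟩⟩

/-- the involutions `v_i`, `v_j` are not conjugate in `G` -/
theorem not_conj (hF : Fus H E) {A B : Fin 3 → G → ℂ} (hA : ∀ i, IsIrrCharacter G (A i))
    (hB : ∀ i, IsIrrCharacter G (B i)) (hA1 : ∀ i, A i ≠ 1) (hB1 : ∀ i, B i ≠ 1)
    (hAB : ∀ i, A i ≠ B i) (hX : ∀ i, XX H E i = 1 + A i - B i) {i j : Fin 3} (hij : i ≠ j)
    (g : G) : g * zg E i * g⁻¹ ≠ zg E j := by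
  intro hg
  have hcl := isIrr_isClassFunction (hA i)
  have hclr : IsClassFunction H (res H (A i)) := isClassFunction_res H hcl
  -- the value at `w_i`
  have e1 : conj (A i (wg E i)) = 1 := by
    have h := inner_ww E i hclr
    rw [← XX_frob H E i hcl, ← YY_frob H E i hcl, (YY_A hF hA hB hA1 hB1 hAB hX i).1, hX,
      classInner_sub_left, classInner_add_left, inner_one (hA i) (hA1 i),
      classInner_irr_self (hA i), classInner_irr_ne (hB i) (hA i) (Ne.symm (hAB i)), res_apply] at h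
    rw [wg, ← h]; norm_num
  -- the value at `w_j`
  obtain ⟨c, hc, hc'⟩ := (YY_A hF hA hB hA1 hB1 hAB hX j).2 i hij
  have hd := distinct hF hA hB hA1 hB1 hAB hX hij
  have e2 : conj (A i (wg E j)) = -c := by
    have h := inner_ww E j hclr
    rw [← XX_frob H E j hcl, ← YY_frob H E j hcl, hc', hX,
      classInner_sub_left, classInner_add_left, inner_one (hA i) (hA1 i),
      classInner_irr_ne (hA j) (hA i) (Ne.symm hd.1),
      classInner_irr_ne (hB j) (hA i) (Ne.symm hd.2.1), res_apply] at h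
    rw [wg, ← h]; ring
  obtain ⟨N, hN⟩ := gen_inner (gen_th E i) (OddOrderCharacters.VChar.gen_restrict H (gen_of_irr (hA i)))
  obtain ⟨N', hN'⟩ := gen_inner (gen_th E j) (OddOrderCharacters.VChar.gen_restrict H (gen_of_irr (hA i)))
  have e3 : 3 * classInner (pf E (ath i)) (res H (A i)) =
      conj (A i (zg E i)) + 2 * conj (A i (wg E i)) := inner_zz E i hclr
  have e4 : 3 * classInner (pf E (ath j)) (res H (A i)) =
      conj (A i (zg E j)) + 2 * conj (A i (wg E j)) := inner_zz E j hclr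
  have e5 : A i (zg E j) = A i (zg E i) := by rw [← hg, hcl]
  rw [e1] at e3
  rw [e2, e5] at e4
  have hN1 : classInner (pf E (ath i)) (res H (A i)) = N := hN
  have hN2 : classInner (pf E (ath j)) (res H (A i)) = N' := hN'
  rw [hN1] at e3
  rw [hN2] at e4
  have e6 : (((3 * N - 3 * N' : ℤ)) : ℂ) = ((2 + 2 * c : ℤ) : ℂ) := by
    push_cast
    linear_combination e3 - e4
  have e7 : 3 * N - 3 * N' = 2 + 2 * c := by exact_mod_cast e6
  rcases hc with rfl | rfl <;> omega

theorem mul_inv_self_of_sq {u v : G} (hu : u * u = 1) (hv : v * v = 1) : u * (u * v) * u⁻¹ = (u * v)⁻¹ := by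
  have h1 : u⁻¹ = u := inv_eq_of_mul_eq_one_left hu
  have h2 : v⁻¹ = v := inv_eq_of_mul_eq_one_left hv
  rw [mul_inv_rev, h1, h2, ← mul_assoc, hu, one_mul]

/-- `A_i` has `v_i` in its kernel -/
theorem apply_zz_eq (hF : Fus H E) {A B : Fin 3 → G → ℂ} (hA : ∀ i, IsIrrCharacter G (A i))
    (hB : ∀ i, IsIrrCharacter G (B i)) (hA1 : ∀ i, A i ≠ 1) (hB1 : ∀ i, B i ≠ 1)
    (hAB : ∀ i, A i ≠ B i) (hX : ∀ i, XX H E i = 1 + A i - B i) (i : Fin 3) :
    A i (zg E i) = A i 1 := by
  have hz2 : zg E i * zg E i = 1 := congrArg Subtype.val (zz_mul E i)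
  apply apply_eq_of_class_sum (hA i) (hB i)
  · intro a b
    rw [← hX]
    apply XX_eq_zero
    rintro x hx ⟨h1, h2⟩
    -- the two involutions
    have hu2 : (x⁻¹ * a * zg E i * (x⁻¹ * a)⁻¹) * (x⁻¹ * a * zg E i * (x⁻¹ * a)⁻¹) = 1 := by
      calc _ = x⁻¹ * a * (zg E i * zg E i) * (x⁻¹ * a)⁻¹ := by group
        _ = 1 := by rw [hz2]; group
    have hv2 : (x⁻¹ * b * zg E i * (x⁻¹ * b)⁻¹) * (x⁻¹ * b * zg E i * (x⁻¹ * b)⁻¹) = 1 := by
      calc _ = x⁻¹ * b * (zg E i * zg E i) * (x⁻¹ * b)⁻¹ := by group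
        _ = 1 := by rw [hz2]; group
    have huv : x⁻¹ * (a * zg E i * a⁻¹ * (b * zg E i * b⁻¹)) * x =
        (x⁻¹ * a * zg E i * (x⁻¹ * a)⁻¹) * (x⁻¹ * b * zg E i * (x⁻¹ * b)⁻¹) := by group
    -- both lie in `H`
    have huH : x⁻¹ * a * zg E i * (x⁻¹ * a)⁻¹ ∈ H := by
      apply hF ⟨_, hx⟩ i h1 h2
      show x⁻¹ * a * zg E i * (x⁻¹ * a)⁻¹ *
        (x⁻¹ * (a * zg E i * a⁻¹ * (b * zg E i * b⁻¹)) * x) *
        (x⁻¹ * a * zg E i * (x⁻¹ * a)⁻¹)⁻¹ ∈ H
      rw [huv, mul_inv_self_of_sq hu2 hv2, ← huv]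
      exact inv_mem hx
    have hvH : x⁻¹ * b * zg E i * (x⁻¹ * b)⁻¹ ∈ H := by
      have := hx
      rw [huv] at this
      exact (Subgroup.mul_mem_cancel_left H huH).1 this
    -- an involution of `H` conjugate to `v_i` has trivial `i`-component
    have key : ∀ (y : G) (hy : y * zg E i * y⁻¹ ∈ H), cmp E i ⟨_, hy⟩ = 1 := by
      intro y hy
      have hk2 : (E ⟨_, hy⟩ : Fin 3 → Perm (Fin 3)) * (E ⟨_, hy⟩ : Fin 3 → Perm (Fin 3)) = 1 := by
        have h3 : (⟨_, hy⟩ : H) * ⟨_, hy⟩ = 1 := by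
          apply Subtype.ext
          show y * zg E i * y⁻¹ * (y * zg E i * y⁻¹) = 1
          calc _ = y * (zg E i * zg E i) * y⁻¹ := by group
            _ = 1 := by rw [hz2]; group
        have h4 : (E (⟨_, hy⟩ * ⟨_, hy⟩ : H) : Fin 3 → Perm (Fin 3)) = (E (1 : H) : Fin 3 → Perm (Fin 3)) :=
          congrArg (fun z : H => (E z : Fin 3 → Perm (Fin 3))) h3
        rw [map_mul, map_one] at h4
        exact h4
      have hk1 : (E ⟨_, hy⟩ : Fin 3 → Perm (Fin 3)) ≠ 1 := by
        intro h3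
        have h4 : (⟨_, hy⟩ : H) = 1 := by
          apply E.injective
          rw [map_one]
          exact Subtype.ext h3
        have h5 : y * zg E i * y⁻¹ = 1 := congrArg Subtype.val h4
        have h6 : zg E i = 1 := by
          calc zg E i = y⁻¹ * (y * zg E i * y⁻¹) * y := by group
            _ = 1 := by rw [h5]; group
        have h7 : zz E i = 1 := Subtype.ext h6
        rw [zz, map_eq_one_iff E.symm E.symm.injective] at h7
        exact zf_ne i (congrArg Subtype.val h7)
      obtain ⟨j, hj1, hj2⟩ := exists_zf (E ⟨_, hy⟩).2 hk2 hk1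
      by_cases hij : i = j
      · subst hij; exact hj1
      · exfalso
        obtain ⟨g, hg, hgx⟩ := conj_zf (E ⟨_, hy⟩).2 hj1 hj2
        have h3 : E.symm ⟨g, hg⟩ * ⟨_, hy⟩ * (E.symm ⟨g, hg⟩)⁻¹ = zz E j := by
          apply E.injective
          rw [map_mul, map_mul, map_inv, MulEquiv.apply_symm_apply, zz, MulEquiv.apply_symm_apply]
          exact Subtype.ext hgx
        have h4 : (E.symm ⟨g, hg⟩ : G) * (y * zg E i * y⁻¹) * (E.symm ⟨g, hg⟩ : G)⁻¹ = zg E j :=
          congrArg Subtype.val h3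
        apply not_conj hF hA hB hA1 hB1 hAB hX hij ((E.symm ⟨g, hg⟩ : G) * y)
        rw [← h4]
        group
    apply h1
    have h3 : (⟨x⁻¹ * (a * zg E i * a⁻¹ * (b * zg E i * b⁻¹)) * x, hx⟩ : H) =
        ⟨_, huH⟩ * ⟨_, hvH⟩ := Subtype.ext huv
    rw [h3, map_mul, key _ huH, key _ hvH, mul_one]
  · rw [← hX]; exact XX_apply_one H E i
  · rw [← hX]
    apply XX_eq_zero
    rintro x hx ⟨h1, h2⟩
    have h3 : (⟨_, hx⟩ : H) * ⟨_, hx⟩ = 1 := by
      apply Subtype.ext
      show x⁻¹ * zg E i * x * (x⁻¹ * zg E i * x) = 1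
      calc _ = x⁻¹ * (zg E i * zg E i) * x := by group
        _ = 1 := by rw [hz2]; group
    have h4 := congrArg (cmp E i) h3
    rw [map_mul, map_one] at h4
    rcases sq_one _ h4 with h5 | h5
    · exact h1 h5
    · rw [h2] at h5
      exact absurd h5 (by decide)

end

/-- **Main result.** Each `v_i` lies in a proper normal subgroup. -/
theorem exists_normal [Finite G] (H : Subgroup G) (E : H ≃* K) (hF : Fus H E) (i : Fin 3) :
    ∃ N : Subgroup G, N.Normal ∧ N ≠ ⊤ ∧ zg E i ∈ N := by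
  classical
  have := Fintype.ofFinite G
  have := Fintype.ofFinite H
  obtain ⟨A, B, hA, hB, hA1, hB1, hAB, hX⟩ := exists_AB H E hF
  have hz := apply_zz_eq hF hA hB hA1 hB1 hAB hX i
  have hmul := fun {g : G} (hg : A i g = A i 1) =>
    OddOrderCharacters.PF4b.Prime.char_mul_of_ker (isIrr_isCharacter (hA i)) hg
  let N : Subgroup G :=
    { carrier := {g | A i g = A i 1}
      one_mem' := rfl
      mul_mem' := by
        intro a b ha hb
        show A i (a * b) = A i 1
        rw [hmul ha b]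
        exact hb
      inv_mem' := by
        intro a ha
        show A i a⁻¹ = A i 1
        have := hmul ha a⁻¹
        rw [mul_inv_cancel] at this
        exact this.symm }
  refine ⟨N, ⟨?_⟩, ?_, hz⟩
  · intro n hn g
    show A i (g * n * g⁻¹) = A i 1
    rw [isIrr_isClassFunction (hA i)]
    exact hn
  · intro hN
    apply hA1 i
    have h1 : ∀ g : G, A i g = A i 1 := by
      intro g
      have : g ∈ N := by rw [hN]; trivial
      exact this
    by_contra hcon
    have h2 := classInner_irr_ne isIrr_one (hA i) (Ne.symm hcon)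
    rw [classInner_def] at h2
    have h3 : ∑ g : G, (1 : G → ℂ) g * conj (A i g) = (Nat.card G : ℂ) * conj (A i 1) := by
      rw [Finset.sum_congr rfl (fun g _ => by rw [h1 g, Pi.one_apply, one_mul]), Finset.sum_const,
        Finset.card_univ, nsmul_eq_mul, Nat.card_eq_fintype_card]
    rw [h3, ← mul_assoc, inv_mul_cancel₀ card_ne_zero_complex, one_mul] at h2
    exact isIrr_apply_one_ne_zero (hA i) (by simpa using h2)

end Cfsg.Agent.H431.Block
end

-- part: H431/BlockFinish
section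
/-!
# A subgroup `3^3 : 2^2` with controlled fusion is the whole group
-/

set_option autoImplicit false

open Cfsg

namespace Cfsg.Agent.H431.Block

open Equiv Equiv.Perm

open scoped Pointwise

variable {G : Type*} [Group G]

/-- the situation -/
structure Sit (H : Subgroup G) (E : H ≃* K) (T : Subgroup G) : Prop where
  le : T ≤ H
  card : Nat.card T = 27
  nor : Subgroup.normalizer (T : Set G) = H
  cen : ∀ t ∈ T, t ≠ 1 → Subgroup.centralizer ({t} : Set G) ≤ H

theorem sign_odd_pow {x : Perm (Fin 3)} {n : ℕ} (hn : Odd n) (h : x ^ n = 1) : sign x = 1 := by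
  have h1 : sign x ^ n = 1 := by rw [← map_pow, h, map_one]
  obtain ⟨k, rfl⟩ := hn
  rw [pow_succ, pow_mul, Int.units_sq, one_pow, one_mul] at h1
  exact h1

theorem cube_one : ∀ x : Perm (Fin 3), sign x = 1 → x ^ 3 = 1 := by decide

theorem zf_facts : ∀ i : Fin 3, zf i i = 1 ∧ sign (zf i (i + 1)) = -1 := by decide

theorem tri_facts : ∀ i j : Fin 3, sign (tri i 1 c3 1 j) = 1 := by decide

theorem comm_even : ∀ x y : Perm (Fin 3), sign x = 1 → sign y = 1 → x * y = y * x := by decide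

theorem conj_odd : ∀ x y : Perm (Fin 3), sign x = -1 → sign y = -1 → ∃ g, g * x * g⁻¹ = y := by
  decide

section

variable {H : Subgroup G} {E : H ≃* K} {T : Subgroup G}

theorem eq_one_of_cmp {x : H} (h : ∀ i, cmp E i x = 1) : x = 1 := by
  apply E.injective
  rw [map_one]
  apply Subtype.ext
  funext i
  exact h i

theorem cmp_surjective (i : Fin 3) (x : Perm (Fin 3)) : ∃ y : H, cmp E i y = x := by
  refine ⟨E.symm ⟨tri i x x 1, tri_mem i _ _ _ (by rw [map_one, mul_one]; exact Int.units_mul_self _)⟩, ?_⟩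
  rw [cmp_apply, MulEquiv.apply_symm_apply]
  simp [tri]

namespace Sit

variable (S : Sit H E T)

include S

theorem finite_H : Finite H := Finite.of_equiv _ E.symm.toEquiv

theorem mem_of_sign {y : H} (h : ∀ i, sign (cmp E i y) = 1) : (y : G) ∈ T := by
  have := S.finite_H
  have hn : (T.subgroupOf H).Normal := by
    rw [← S.nor]
    exact Subgroup.normal_in_normalizer
  have hc : Nat.card (T.subgroupOf H) = 27 := by
    rw [← S.card]
    exact Nat.card_congr (Subgroup.subgroupOfEquivOfLe S.le).toEquiv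
  have hH : Nat.card H = 108 := by rw [Nat.card_congr E.toEquiv, card_K]
  have hi : (T.subgroupOf H).index = 4 := by
    have := Subgroup.card_mul_index (T.subgroupOf H)
    rw [hc, hH] at this
    omega
  have h4 : y ^ 4 ∈ T.subgroupOf H := by
    rw [← hi]
    exact Subgroup.pow_index_mem _ y
  have h3 : y ^ 3 = 1 := by
    apply eq_one_of_cmp (E := E)
    intro i
    rw [map_pow]
    exact cube_one _ (h i)
  have h5 : y ^ 4 = y := by rw [pow_succ, h3, one_mul]
  rw [h5] at h4
  exact h4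

theorem sign_of_mem {y : H} (h : (y : G) ∈ T) (i : Fin 3) : sign (cmp E i y) = 1 := by
  have := S.finite_H
  have hf : Finite T := by
    apply Nat.finite_of_card_ne_zero
    rw [S.card]
    norm_num
  have h1 : (y : G) ^ 27 = 1 := by
    have h2 : (⟨y, h⟩ : T) ^ Nat.card T = 1 := pow_card_eq_one'
    rw [S.card] at h2
    exact congrArg Subtype.val h2
  have h2 : y ^ 27 = 1 := Subtype.ext h1
  apply sign_odd_pow (n := 27) (by decide)
  rw [← map_pow, h2, map_one]

theorem mem_iff {y : H} : (y : G) ∈ T ↔ ∀ i, sign (cmp E i y) = 1 :=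
  ⟨S.sign_of_mem, S.mem_of_sign⟩

theorem comm {x y : G} (hx : x ∈ T) (hy : y ∈ T) : x * y = y * x := by
  have h : (⟨x, S.le hx⟩ : H) * ⟨y, S.le hy⟩ = ⟨y, S.le hy⟩ * ⟨x, S.le hx⟩ := by
    apply E.injective
    rw [map_mul, map_mul]
    apply Subtype.ext
    funext i
    exact comm_even _ _ (S.sign_of_mem (y := ⟨x, S.le hx⟩) hx i) (S.sign_of_mem (y := ⟨y, S.le hy⟩) hy i)
  exact congrArg Subtype.val h

theorem mem_of_pow {y : G} (hy : y ∈ H) {n : ℕ} (hn : Odd n) (h : y ^ n = 1) : y ∈ T := by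
  apply S.mem_of_sign (y := ⟨y, hy⟩)
  intro i
  apply sign_odd_pow hn
  rw [← map_pow]
  have : (⟨y, hy⟩ : H) ^ n = 1 := Subtype.ext h
  rw [this, map_one]

theorem cube {x : G} (hx : x ∈ T) : x ^ 3 = 1 := by
  have : (⟨x, S.le hx⟩ : H) ^ 3 = 1 := by
    apply eq_one_of_cmp (E := E)
    intro i
    rw [map_pow]
    exact cube_one _ (S.sign_of_mem (y := ⟨x, S.le hx⟩) hx i)
  exact congrArg Subtype.val this

/-- `T` is a trivial intersection subgroup -/
theorem ti [Finite G] {g x : G} (hx : x ∈ T) (hx1 : x ≠ 1) (hg : g * x * g⁻¹ ∈ T) : g ∈ H := by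
  have h1 : g * x * g⁻¹ ≠ 1 := by
    intro h
    apply hx1
    calc x = g⁻¹ * (g * x * g⁻¹) * g := by group
      _ = 1 := by rw [h]; group
  have h2 : ∀ t ∈ T, g * t * g⁻¹ ∈ T := by
    intro t ht
    have h3 : g * t * g⁻¹ ∈ H := by
      apply S.cen _ hg h1
      rw [Subgroup.mem_centralizer_singleton_iff]
      calc g * t * g⁻¹ * (g * x * g⁻¹) = g * (t * x) * g⁻¹ := by group
        _ = g * (x * t) * g⁻¹ := by rw [S.comm ht hx]
        _ = g * x * g⁻¹ * (g * t * g⁻¹) := by group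
    apply S.mem_of_pow h3 (n := 3) (by decide)
    have h4 : (g * t * g⁻¹) ^ 3 = g * t ^ 3 * g⁻¹ := by
      simp only [pow_succ, pow_zero, one_mul]; group
    rw [h4, S.cube ht]
    group
  rw [← S.nor]
  exact Subgroup.mem_normalizer_fintype h2

/-- the elements with a component of order 3 have controlled fusion -/
theorem fus [Finite G] : Fus H E := by
  intro y i h1 h2 g hg
  have h3 : ∀ (z : H), (z ^ 4 : G) ∈ T := by
    intro z
    have := S.mem_of_sign (y := z ^ 4) (by
      intro i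
      rw [map_pow, map_pow]
      rcases Int.units_eq_one_or (sign (cmp E i z)) with h | h <;> rw [h] <;> decide)
    simpa using this
  have h4 : ((y : G) ^ 4) ≠ 1 := by
    intro h
    have h5 : y ^ 4 = 1 := Subtype.ext h
    have h6 : (cmp E i y) ^ 4 = 1 := by rw [← map_pow, h5, map_one]
    rw [pow_succ, cube_one _ h2, one_mul] at h6
    exact h1 h6
  apply S.ti (h3 y) h4
  have h5 := h3 ⟨_, hg⟩
  have h6 : (g * (y : G) * g⁻¹) ^ 4 = g * (y : G) ^ 4 * g⁻¹ := by
    simp only [pow_succ, pow_zero, one_mul]; group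
  rw [← h6]
  exact h5

theorem exists_sylow [Finite G] : ∃ P : Sylow 3 G, (P : Subgroup G) = T := by
  have h3 : Fact (Nat.Prime 3) := ⟨Nat.prime_three⟩
  apply Classification.InvCentPL.Tri.sylow_of_pelt_normalizer
  · rw [IsPGroup.iff_card]
    exact ⟨3, by rw [S.card]; norm_num⟩
  · intro g hg k hk
    rw [S.nor] at hg
    exact S.mem_of_pow hg (Odd.pow (by decide : Odd 3)) hk

/-- a normal subgroup containing a nontrivial element of `T` supplements `H` -/
theorem sup_eq_top [Finite G] (N : Subgroup G) [hN : N.Normal] {x : G} (hx : x ∈ T) (hx1 : x ≠ 1)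
    (hxN : x ∈ N) (g : G) : ∃ n ∈ N, ∃ h ∈ H, n * h = g := by
  have h3 : Fact (Nat.Prime 3) := ⟨Nat.prime_three⟩
  obtain ⟨P, hP⟩ := S.exists_sylow
  -- a Sylow 3-subgroup of `N`
  let Q : Sylow 3 N := default
  have hQ : IsPGroup 3 ((Q : Subgroup N).map N.subtype) := Q.isPGroup'.map _
  obtain ⟨R, hR⟩ := hQ.exists_le_sylow
  obtain ⟨a, ha⟩ := MulAction.exists_smul_eq G P R
  have hRa : ∀ y ∈ (Q : Subgroup N).map N.subtype, a⁻¹ * y * a ∈ T := by
    intro y hy
    have h4 := hR hy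
    rw [← ha] at h4
    have h5 : y ∈ MulAut.conj a • (P : Subgroup G) := h4
    rw [Subgroup.mem_pointwise_smul_iff_inv_smul_mem] at h5
    rw [← hP]
    simpa using h5
  -- a nontrivial element of `Q`
  have hdvd : 3 ∣ Nat.card N := by
    have h5 : orderOf (⟨x, hxN⟩ : N) = 3 := by
      apply orderOf_eq_prime
      · exact Subtype.ext (S.cube hx)
      · intro h
        exact hx1 (congrArg Subtype.val h)
    rw [← h5]
    exact orderOf_dvd_natCard _
  have hQ1 : ∃ s ∈ (Q : Subgroup N).map N.subtype, s ≠ 1 := by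
    by_contra hcon
    push Not at hcon
    have h6 : (Q : Subgroup N) = ⊥ := by
      rw [eq_bot_iff]
      intro y hy
      rw [Subgroup.mem_bot]
      exact Subtype.ext (hcon (y : G) ⟨y, hy, rfl⟩)
    exact Q.ne_bot_of_dvd_card hdvd h6
  obtain ⟨s, hs, hs1⟩ := hQ1
  -- the normalizer of `Q`
  have hnorm : ∀ y ∈ Subgroup.normalizer (((Q : Subgroup N).map N.subtype : Subgroup G) : Set G),
      a⁻¹ * y * a ∈ H := by
    intro y hy
    have h6 : y * s * y⁻¹ ∈ (Q : Subgroup N).map N.subtype := (Subgroup.mem_normalizer_iff.1 hy s).1 hs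
    apply S.ti (hRa s hs)
    · intro h
      apply hs1
      calc s = a * (a⁻¹ * s * a) * a⁻¹ := by group
        _ = 1 := by rw [h]; group
    · have h7 := hRa _ h6
      have h8 : a⁻¹ * y * a * (a⁻¹ * s * a) * (a⁻¹ * y * a)⁻¹ = a⁻¹ * (y * s * y⁻¹) * a := by group
      rw [h8]
      exact h7
  have htop : a * g * a⁻¹ ∈ Subgroup.normalizer (((Q : Subgroup N).map N.subtype : Subgroup G) : Set G) ⊔ N := by
    rw [Sylow.normalizer_sup_eq_top]
    trivial
  rw [Subgroup.mem_sup_of_normal_right] at htop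
  obtain ⟨y, hy, n, hn, hyn⟩ := htop
  refine ⟨(a⁻¹ * y * a) * (a⁻¹ * n * a) * (a⁻¹ * y * a)⁻¹, ?_, a⁻¹ * y * a, hnorm y hy, ?_⟩
  · apply hN.conj_mem
    have := hN.conj_mem n hn a⁻¹
    rwa [inv_inv] at this
  · calc (a⁻¹ * y * a) * (a⁻¹ * n * a) * (a⁻¹ * y * a)⁻¹ * (a⁻¹ * y * a) = a⁻¹ * (y * n) * a := by group
      _ = g := by rw [hyn]; group

/-- the normal subgroup of index at most 2 with intersection `T⟨v_i⟩` -/
theorem exists_index_two [Finite G] (i : Fin 3) : ∃ M : Subgroup G, M.Normal ∧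
    ∀ y : H, (y : G) ∈ M ↔ sign (cmp E i y) = 1 := by
  obtain ⟨N, hN, hNt, hz⟩ := exists_normal H E S.fus i
  have hzz : cmp E i (zz E i) = 1 ∧ sign (cmp E (i + 1) (zz E i)) = -1 := by
    rw [cmp_apply, cmp_apply, zz, MulEquiv.apply_symm_apply]
    exact zf_facts i
  -- the kernel of the `i`-component
  have hk1 : ∀ y : H, cmp E i y = 1 → sign (cmp E (i + 1) y) = -1 → (y : G) ∈ N := by
    intro y h1 h2
    obtain ⟨g, hg, hgx⟩ := conj_zf (E y).2 h1 h2
    have h3 : E.symm ⟨g, hg⟩ * y * (E.symm ⟨g, hg⟩)⁻¹ = zz E i := by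
      apply E.injective
      rw [map_mul, map_mul, map_inv, MulEquiv.apply_symm_apply, zz, MulEquiv.apply_symm_apply]
      exact Subtype.ext hgx
    have h4 : (y : G) = (E.symm ⟨g, hg⟩ : G)⁻¹ * zg E i * ((E.symm ⟨g, hg⟩ : G)⁻¹)⁻¹ := by
      rw [zg, ← h3]
      push_cast
      group
    rw [h4]
    exact hN.conj_mem _ hz _
  have hk : ∀ y : H, cmp E i y = 1 → (y : G) ∈ N := by
    intro y h1
    rcases Int.units_eq_one_or (sign (cmp E (i + 1) y)) with h2 | h2
    · have h3 := hk1 (y * zz E i) (by rw [map_mul, h1, hzz.1, mul_one])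
        (by rw [map_mul, map_mul, h2, hzz.2, one_mul])
      exact (Subgroup.mul_mem_cancel_right N hz).1 h3
    · exact hk1 y h1 h2
  -- a nontrivial element of `T ∩ N`
  obtain ⟨x, hxT, hx1, hxN⟩ : ∃ x : G, x ∈ T ∧ x ≠ 1 ∧ x ∈ N := by
    let f : K := ⟨tri i 1 c3 1, tri_mem i _ _ _ (by decide)⟩
    have e : ∀ j, cmp E j (E.symm f) = tri i 1 c3 1 j := by
      intro j
      rw [cmp_apply, MulEquiv.apply_symm_apply]
    refine ⟨((E.symm f : H) : G), ?_, ?_, ?_⟩
    · apply S.mem_of_sign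
      intro j
      rw [e]
      exact tri_facts i j
    · intro h
      have h1 : E.symm f = 1 := Subtype.ext h
      have h2 := e (i + 1)
      rw [h1, map_one] at h2
      have h3 : ∀ i : Fin 3, (1 : Perm (Fin 3)) ≠ tri i 1 c3 1 (i + 1) := by decide
      exact h3 i h2
    · apply hk
      rw [e]
      simp [tri]
  have hsup := S.sup_eq_top N hxT hx1 hxN
  -- `N ∩ H` consists of elements with even `i`-component
  have hev : ∀ y : H, (y : G) ∈ N → sign (cmp E i y) = 1 := by
    intro y hy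
    rcases Int.units_eq_one_or (sign (cmp E i y)) with h | h
    · exact h
    · exfalso
      have h1 : ∀ h' : H, sign (cmp E i h') = -1 → (h' : G) ∈ N := by
        intro h' hh'
        obtain ⟨g, hg⟩ := conj_odd _ _ h hh'
        obtain ⟨g', rfl⟩ := cmp_surjective (E := E) i g
        have h2 : cmp E i (h' * (g' * y * g'⁻¹)⁻¹) = 1 := by
          rw [map_mul, map_inv, map_mul, map_mul, map_inv, hg, mul_inv_cancel]
        have h3 := hk _ h2
        have h4 : (h' : G) = ((h' * (g' * y * g'⁻¹)⁻¹ : H) : G) * ((g' : G) * y * (g' : G)⁻¹) := by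
          push_cast
          group
        rw [h4]
        exact N.mul_mem h3 (hN.conj_mem _ hy _)
      have h2 : ∀ h' : H, (h' : G) ∈ N := by
        intro h'
        rcases Int.units_eq_one_or (sign (cmp E i h')) with h3 | h3
        · have h4 := h1 (h' * y) (by rw [map_mul, map_mul, h3, h, one_mul])
          exact (Subgroup.mul_mem_cancel_right N hy).1 h4
        · exact h1 h' h3
      apply hNt
      rw [eq_top_iff]
      intro g _
      obtain ⟨n, hn, h', hh', rfl⟩ := hsup g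
      exact N.mul_mem hn (h2 ⟨h', hh'⟩)
  -- the subgroup
  let L : Subgroup G := ((MonoidHom.ker (sign.comp (cmp E i))).map H.subtype)
  have hL : ∀ y : H, (y : G) ∈ L ↔ sign (cmp E i y) = 1 := by
    intro y
    constructor
    · rintro ⟨y', hy', h⟩
      have : y' = y := Subtype.ext h
      rw [← this]
      exact hy'
    · intro h
      exact ⟨y, h, rfl⟩
  have hLH : L ≤ H := by
    rintro _ ⟨y, -, rfl⟩
    exact y.2
  refine ⟨N ⊔ L, ⟨?_⟩, ?_⟩
  · intro m hm g
    rw [Subgroup.mem_sup_of_normal_left] at hm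
    obtain ⟨n, hn, l, hl, rfl⟩ := hm
    obtain ⟨n', hn', h', hh', rfl⟩ := hsup g
    have h1 : h' * l * h'⁻¹ ∈ L := by
      have h2 := (hL ⟨l, hLH hl⟩).1 hl
      have h3 := (hL (⟨h', hh'⟩ * ⟨l, hLH hl⟩ * ⟨h', hh'⟩⁻¹)).2 (by
        rw [map_mul, map_mul, map_inv, map_mul, map_mul, map_inv, h2]
        rcases Int.units_eq_one_or (sign (cmp E i ⟨h', hh'⟩)) with h | h <;> rw [h] <;> decide)
      exact h3
    have h4 : n' * h' * (n * l) * (n' * h')⁻¹ =
        (n' * h' * n * (n' * h')⁻¹) * (n' * (h' * l * h'⁻¹) * n'⁻¹) := by group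
    rw [h4]
    have h5 : n' ∈ N ⊔ L := Subgroup.mem_sup_left hn'
    exact mul_mem (Subgroup.mem_sup_left (hN.conj_mem n hn _))
      (mul_mem (mul_mem h5 (Subgroup.mem_sup_right h1)) (inv_mem h5))
  · intro y
    rw [Subgroup.mem_sup_of_normal_left]
    constructor
    · rintro ⟨n, hn, l, hl, hnl⟩
      have h1 : n = (y : G) * l⁻¹ := by rw [← hnl]; group
      have h2 := hev (y * ⟨l, hLH hl⟩⁻¹) (by
        show (y : G) * l⁻¹ ∈ N
        rw [← h1]; exact hn)
      have h3 := (hL ⟨l, hLH hl⟩).1 hl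
      rw [map_mul, map_mul, map_inv, map_inv, h3, inv_one, mul_one] at h2
      exact h2
    · intro h
      exact ⟨1, N.one_mem, y, (hL y).2 h, one_mul _⟩

/-- **Theorem.** -/
theorem eq_top [Finite G] : H = ⊤ := by
  have h3 : Fact (Nat.Prime 3) := ⟨Nat.prime_three⟩
  obtain ⟨M₀, hM₀, hM₀'⟩ := S.exists_index_two 0
  obtain ⟨M₁, hM₁, hM₁'⟩ := S.exists_index_two 1
  let W : Subgroup G := M₀ ⊓ M₁
  have hW : W.Normal := Subgroup.normal_inf_normal M₀ M₁
  have hWH : ∀ y : G, y ∈ H → (y ∈ W ↔ y ∈ T) := by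
    intro y hy
    have h1 := hM₀' ⟨y, hy⟩
    have h2 := hM₁' ⟨y, hy⟩
    have h4 := sign_cmp E ⟨y, hy⟩
    have h5 := S.mem_iff (y := ⟨y, hy⟩)
    constructor
    · intro h
      apply h5.2
      have e1 := h1.1 h.1
      have e2 := h2.1 h.2
      rw [e1, e2, one_mul, one_mul] at h4
      intro i
      fin_cases i
      · exact e1
      · exact e2
      · exact h4
    · intro h
      exact ⟨h1.2 (h5.1 h 0), h2.2 (h5.1 h 1)⟩
  have hTW : T ≤ W := fun t ht => (hWH t (S.le ht)).2 ht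
  -- `T` is a Sylow subgroup of `W`
  obtain ⟨P, hP⟩ := S.exists_sylow
  have hPW : (P : Subgroup G) ≤ W := by rw [hP]; exact hTW
  let Q : Sylow 3 W := P.subtype hPW
  have hQ : (Q : Subgroup W) = T.subgroupOf W := by
    rw [← hP]; rfl
  have hQm : ∀ w : W, w ∈ (Q : Subgroup W) ↔ (w : G) ∈ T := by
    intro w
    rw [hQ, Subgroup.mem_subgroupOf]
  have hnc : Subgroup.normalizer (Q : Set W) ≤ Subgroup.centralizer (Q : Set W) := by
    intro w hw
    have h4 : (w : G) ∈ H := by
      rw [← S.nor]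
      apply Subgroup.mem_normalizer_fintype
      intro t ht
      have h5 := (Subgroup.mem_normalizer_iff.1 hw ⟨t, hTW ht⟩).1 ((hQm ⟨t, hTW ht⟩).2 ht)
      exact (hQm _).1 h5
    have h5 : (w : G) ∈ T := (hWH _ h4).1 w.2
    rw [Subgroup.mem_centralizer_iff]
    intro t ht
    exact Subtype.ext (S.comm ((hQm t).1 ht) h5)
  have hcompl := MonoidHom.ker_transferSylow_isComplement' Q hnc
  set U : Subgroup W := (MonoidHom.transferSylow Q hnc).ker with hU
  have hU3 : ¬ 3 ∣ Nat.card U := MonoidHom.not_dvd_card_ker_transferSylow Q hnc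
  -- `U` is trivial
  have hUbot : U.map W.subtype = ⊥ := by
    have hTab : IsMulCommutative T := ⟨⟨fun a b => Subtype.ext (S.comm a.2 b.2)⟩⟩
    have hncyc : ¬ IsCyclic T := by
      intro hc
      obtain ⟨g, hg⟩ := hc.exists_generator
      have h5 : Nat.card T = orderOf g := by
        rw [← Nat.card_zpowers, (Subgroup.eq_top_iff' _).2 hg, Subgroup.card_top]
      have h6 : g ^ 3 = 1 := Subtype.ext (S.cube g.2)
      have h7 := orderOf_dvd_of_pow_eq_one h6
      rw [← h5, S.card] at h7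
      exact absurd h7 (by decide)
    have hTn : T ≤ Subgroup.normalizer ((U.map W.subtype : Subgroup G) : Set G) := by
      intro t ht
      apply Subgroup.mem_normalizer_fintype
      rintro _ ⟨u, hu, rfl⟩
      refine ⟨⟨t, hTW ht⟩ * u * ⟨t, hTW ht⟩⁻¹, ?_, rfl⟩
      exact (MonoidHom.normal_ker _).conj_mem u hu _
    have hcU : Nat.card (U.map W.subtype) = Nat.card U :=
      (Nat.card_congr (U.equivMapOfInjective W.subtype W.subtype_injective).toEquiv).symm
    have hcop : (Nat.card T).Coprime (Nat.card (U.map W.subtype)) := by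
      rw [S.card, hcU]
      exact Nat.Coprime.pow_left 3 ((Nat.Prime.coprime_iff_not_dvd Nat.prime_three).2 hU3)
    rw [← Cfsg.Agent.S0058.result T (U.map W.subtype) hncyc hTn hcop, eq_bot_iff]
    refine iSup₂_le fun t ht => ?_
    rintro y ⟨⟨u, hu, rfl⟩, hy2⟩
    have h5 : (u : G) ∈ H := S.cen t ht.1 ht.2 hy2
    have h6 : (u : G) ∈ T := (hWH _ h5).1 u.2
    have h7 : u ∈ U ⊓ (Q : Subgroup W) := ⟨hu, (hQm u).2 h6⟩
    rw [hcompl.disjoint.eq_bot] at h7
    rw [Subgroup.mem_bot] at h7 ⊢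
    rw [h7]
    rfl
  have hWT : W = T := by
    apply le_antisymm _ hTW
    intro w hw
    have h5 : (⟨w, hw⟩ : W) ∈ U ⊔ (Q : Subgroup W) := by
      rw [hcompl.sup_eq_top]; trivial
    have hUn : U.Normal := MonoidHom.normal_ker _
    rw [Subgroup.mem_sup_of_normal_left] at h5
    obtain ⟨u, hu, q, hq, huq⟩ := h5
    have h6 : (u : G) ∈ U.map W.subtype := ⟨u, hu, rfl⟩
    rw [hUbot, Subgroup.mem_bot] at h6
    have h7 : (u : G) * q = w := congrArg Subtype.val huq
    rw [h6, one_mul] at h7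
    rw [← h7]
    exact (hQm q).1 hq
  rw [← S.nor, ← hWT]
  exact Subgroup.normalizer_eq_top_iff.2 hW

end Sit

end

end Cfsg.Agent.H431.Block
end
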